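import Mathlib.GroupTheory.PGroup
import Mathlib.GroupTheory.Commutator.Basic
import Cfsg.Prelude.Def_PLocal
import Cfsg.Agent.LAE60.Basic
import Cfsg.Agent.Modules.ElemAb

/-!
Over-offenders and cubic near-offenders for a subgroup acting on an elementary abelian subgroup:
the predicates `OF` (no over-offender) and `NC` (no cubic near-offender), their behaviour under
change of the acting group, conjugation, and sums of invariant subgroups.
-/

set_option autoImplicit false
set_option linter.unusedVariables false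
set_option linter.unusedSectionVars false
set_option linter.style.haveILetI false

open Subgroup
open scoped commutatorElement

namespace Cfsg.Agent.LAE60.W

variable {G : Type*} [Group G]

/-- The order of the group induced by `A` on `B`. -/
noncomputable def img (A B : Subgroup G) : ℕ := (centralizer (B : Set G)).relIndex A

/-- `D ≤ T` acts on `Y` as an elementary abelian 2-group. -/
structure Elem (T Y D : Subgroup G) : Prop where
  le : D ≤ T
  comm : ∀ d ∈ D, ∀ e ∈ D, ⁅d, e⁆ ∈ centralizer (Y : Set G)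
  sq : ∀ d ∈ D, d * d ∈ centralizer (Y : Set G)

/-- Every elementary abelian section of `T` on `Y` moves at least twice its order. -/
def OF (T Y : Subgroup G) : Prop :=
  ∀ D : Subgroup G, Elem T Y D → ¬ D ≤ centralizer (Y : Set G) → 2 * img D Y ≤ img Y D

/-- A cubic near-offender. -/
structure CNO (T Y D : Subgroup G) (u : G) : Prop where
  elem : Elem T Y D
  moves : ¬ D ≤ centralizer (Y : Set G)
  mem : u ∈ Y
  card : img Y D = 2 * img D Y
  inj : ∀ d ∈ D, ⁅u, d⁆ ∈ centralizer (D : Set G) → d ∈ centralizer (Y : Set G)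
  cubic : ∀ y ∈ Y, ∀ d ∈ D, ∀ e ∈ D, ⁅⁅y, d⁆, e⁆ ∈ centralizer (D : Set G)

/-- No cubic near-offender. -/
def NC (T Y : Subgroup G) : Prop := ∀ (D : Subgroup G) (u : G), ¬ CNO T Y D u

theorem cen_antitone {A B : Subgroup G} (h : A ≤ B) :
    centralizer (B : Set G) ≤ centralizer (A : Set G) :=
  centralizer_le (SetLike.coe_subset_coe.mpr h)

theorem OF.mono {T T' Y : Subgroup G} (h : OF T Y) (hle : T' ≤ T) : OF T' Y :=
  fun D hD => h D ⟨hD.le.trans hle, hD.comm, hD.sq⟩

theorem NC.mono {T T' Y : Subgroup G} (h : NC T Y) (hle : T' ≤ T) : NC T' Y :=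
  fun D u hD => h D u ⟨⟨hD.elem.le.trans hle, hD.elem.comm, hD.elem.sq⟩, hD.moves, hD.mem, hD.card,
    hD.inj, hD.cubic⟩

theorem Elem.mono {T T' Y Y' D D' : Subgroup G} (h : Elem T Y D) (hY : Y' ≤ Y) (hD : D' ≤ D)
    (hT : D' ≤ T') : Elem T' Y' D' :=
  ⟨hT, fun d hd e he => cen_antitone hY (h.comm d (hD hd) e (hD he)),
    fun d hd => cen_antitone hY (h.sq d (hD hd))⟩

section Finite

variable [Finite G]

theorem img_pos (A B : Subgroup G) : 0 < img A B :=
  Nat.pos_of_ne_zero index_ne_zero_of_finite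

theorem img_eq_one {A B : Subgroup G} : img A B = 1 ↔ A ≤ centralizer (B : Set G) := relIndex_eq_one

theorem one_lt_img {A B : Subgroup G} (h : ¬ A ≤ centralizer (B : Set G)) : 1 < img A B := by
  have h1 := img_pos A B
  have h2 : img A B ≠ 1 := fun e => h (img_eq_one.1 e)
  omega

theorem img_mono {A A' B B' : Subgroup G} (hA : A ≤ A') (hB : B ≤ B') : img A B ≤ img A' B' := by
  refine le_trans (relIndex_le_of_le_right hA index_ne_zero_of_finite) ?_
  exact relIndex_le_of_le_left (cen_antitone hB) index_ne_zero_of_finite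

/-- The part of `D` trivial on `E`. -/
theorem img_mul {D E V : Subgroup G} (hEV : E ≤ V) :
    img (D ⊓ centralizer (E : Set G)) V * img D E = img D V := by
  have := relIndex_inf_mul_relIndex (centralizer (V : Set G)) (centralizer (E : Set G)) D
  rw [inf_of_le_left (cen_antitone hEV)] at this
  rw [inf_comm]
  exact this

/-- A piece of `V` plus what is left: the basic inequality. -/
theorem img_piece {D D₁ E V : Subgroup G} (hEV : E ≤ V) (hD₁ : D₁ ≤ D)
    (hE : D₁ ≤ centralizer (E : Set G)) : img E D * img V D₁ ≤ img V D := by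
  have h := relIndex_inf_mul_relIndex (centralizer (D : Set G)) (centralizer (D₁ : Set G)) V
  rw [inf_of_le_left (cen_antitone hD₁)] at h
  change _ = img V D at h
  rw [← h]
  exact Nat.mul_le_mul_right _ (relIndex_le_of_le_right
    (le_inf (mem_centralizer_comm hE) hEV) index_ne_zero_of_finite)

theorem isTwoPow_img_of_elem {T Y D : Subgroup G} (h : Elem T Y D)
    (hD : D ≤ normalizer (Y : Set G)) : ∃ k : ℕ, img D Y = 2 ^ k := by
  haveI : ((centralizer (Y : Set G)).subgroupOf D).Normal :=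
    normal_subgroupOf_of_le_normalizer (le_normalizer_centralizer hD)
  have hp : IsPGroup 2 (↥D ⧸ (centralizer (Y : Set G)).subgroupOf D) := by
    intro q
    induction q using QuotientGroup.induction_on with
    | _ d =>
      refine ⟨1, ?_⟩
      rw [← QuotientGroup.mk_pow, QuotientGroup.eq_one_iff, pow_one, sq, mem_subgroupOf]
      exact h.sq d d.2
  exact IsPGroup.iff_card.1 hp

theorem isTwoPow_img_of_isElementaryAbelian {V D : Subgroup G} (hV : IsElementaryAbelian 2 V) :
    ∃ k : ℕ, img V D = 2 ^ k := by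
  obtain ⟨n, hn⟩ := IsPGroup.iff_card.1 (Modules.elemAb_isPGroup hV)
  obtain ⟨k, -, hk⟩ := (Nat.dvd_prime_pow Nat.prime_two).1
    (hn ▸ relIndex_dvd_card (centralizer (D : Set G)) V)
  exact ⟨k, hk⟩

/-! ### Sums of invariant subgroups -/

theorem le_centralizer_iSup {ι : Sort*} {E : ι → Subgroup G} {D : Subgroup G}
    (h : ∀ i, D ≤ centralizer (E i : Set G)) : D ≤ centralizer ((⨆ i, E i : Subgroup G) : Set G) :=
  mem_centralizer_comm (iSup_le fun i => mem_centralizer_comm (h i))

theorem exists_moves {ι : Sort*} {E : ι → Subgroup G} {D V : Subgroup G} (hV : V = ⨆ i, E i)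
    (hD : ¬ D ≤ centralizer (V : Set G)) : ∃ i, ¬ D ≤ centralizer (E i : Set G) := by
  by_contra hcon
  push Not at hcon
  exact hD (hV ▸ le_centralizer_iSup hcon)

theorem OF.iSup {ι : Sort*} {E : ι → Subgroup G} {T V : Subgroup G} (hV : V = ⨆ i, E i)
    (hOF : ∀ i, OF T (E i)) : OF T V := by
  intro D hD hmov
  induction hn : Nat.card D using Nat.strong_induction_on generalizing D with
  | _ n ih =>
    obtain ⟨i, hi⟩ := exists_moves hV hmov
    have hEV : E i ≤ V := hV ▸ le_iSup E i
    set D₁ := D ⊓ centralizer (E i : Set G)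
    have hpiece := img_piece hEV (inf_le_left : D₁ ≤ D) inf_le_right
    have hmul := img_mul (D := D) hEV
    have hOFi := hOF i D (hD.mono hEV le_rfl hD.le) hi
    have hpos := img_pos V D₁
    by_cases h1 : D₁ ≤ centralizer (V : Set G)
    · rw [img_eq_one.2 h1, one_mul] at hmul
      rw [← hmul]
      nlinarith
    · have hlt : Nat.card D₁ < n := hn ▸ Set.ncard_lt_ncard
        (SetLike.coe_ssubset_coe.2 (lt_of_le_of_ne inf_le_left fun e => hi (e ▸ inf_le_right)))
      have h2 := ih _ hlt D₁ (hD.mono le_rfl inf_le_left (inf_le_left.trans hD.le)) h1 rfl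
      rw [← hmul]
      have h3 : 2 * img D (E i) * (2 * img D₁ V) ≤ img (E i) D * img V D₁ := Nat.mul_le_mul hOFi h2
      nlinarith [img_pos D₁ V, img_pos D (E i)]

end Finite

/-- An element of `V` is a product of one of `E` and one fixed by `D`, when `E` sees all of
`|V : C_V(D)|`. -/
theorem exists_mul_of_img_eq [Finite G] {E V D : Subgroup G} (hEV : E ≤ V) (h : img E D = img V D)
    {u : G} (hu : u ∈ V) : ∃ e ∈ E, e⁻¹ * u ∈ centralizer (D : Set G) ⊓ V := by
  classical
  let C := centralizer (D : Set G)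
  let f : ↥E ⧸ C.subgroupOf E → ↥V ⧸ C.subgroupOf V :=
    Quotient.map' (inclusion hEV) fun a b hab => by
      rw [QuotientGroup.leftRel_apply, mem_subgroupOf] at hab ⊢
      exact hab
  have hf : Function.Injective f := by
    intro a b
    induction a using QuotientGroup.induction_on
    induction b using QuotientGroup.induction_on
    intro hab
    have hab' := QuotientGroup.eq.1 hab
    exact QuotientGroup.eq.2 hab'
  haveI : Fintype (↥E ⧸ C.subgroupOf E) := Fintype.ofFinite _
  haveI : Fintype (↥V ⧸ C.subgroupOf V) := Fintype.ofFinite _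
  have hb : Function.Bijective f := (Fintype.bijective_iff_injective_and_card f).2
    ⟨hf, by rw [← Nat.card_eq_fintype_card, ← Nat.card_eq_fintype_card]; exact h⟩
  obtain ⟨q, hq⟩ := hb.2 (QuotientGroup.mk ⟨u, hu⟩)
  induction q using QuotientGroup.induction_on with
  | _ e =>
    have := QuotientGroup.eq.1 hq
    exact ⟨e, e.2, Subgroup.mem_inf.2 ⟨this, V.mul_mem (V.inv_mem (hEV e.2)) hu⟩⟩

/-- If `D` sees on `E` all of `|V : C_V(D)|`, a cubic near-offender restricts. -/
theorem CNO.restrict [Finite G] {T V E D : Subgroup G} {u : G} (h : CNO T V D u) (hEV : E ≤ V)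
    (hE : ¬ D ≤ centralizer (E : Set G))
    (h1 : img E D = img V D) (h2 : img D E = img D V) : ∃ e, CNO T E D e := by
  obtain ⟨e, he, hw, -⟩ := exists_mul_of_img_eq hEV h1 h.mem
  refine ⟨e, h.elem.mono hEV le_rfl h.elem.le, hE, he, by rw [h1, h.card, h2], fun d hd hc => ?_,
    fun y hy => h.cubic y (hEV hy)⟩
  refine cen_antitone hEV (h.inj d hd ?_)
  have hcm : Commute d (e⁻¹ * u) := mem_centralizer_iff.1 hw d hd
  have key : ⁅u, d⁆ = ⁅e, d⁆ := by
    calc ⁅u, d⁆ = e * ((e⁻¹ * u) * d) * (e⁻¹ * u)⁻¹ * e⁻¹ * d⁻¹ := by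
          simp only [commutatorElement_def]; group
      _ = e * (d * (e⁻¹ * u)) * (e⁻¹ * u)⁻¹ * e⁻¹ * d⁻¹ := by rw [hcm.eq]
      _ = ⁅e, d⁆ := by simp only [commutatorElement_def]; group
  rw [key]
  exact hc

theorem NC.iSup [Finite G] {ι : Sort*} {E : ι → Subgroup G} {T V : Subgroup G} (hV : V = ⨆ i, E i)
    (hOF : ∀ i, OF T (E i)) (hNC : ∀ i, NC T (E i)) : NC T V := by
  intro D u h
  obtain ⟨i, hi⟩ := exists_moves hV h.moves
  have hEV : E i ≤ V := hV ▸ le_iSup E i
  have hpiece := img_piece hEV (inf_le_left : D ⊓ centralizer (E i : Set G) ≤ D) inf_le_right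
  have hmul := img_mul (D := D) hEV
  set D₁ := D ⊓ centralizer (E i : Set G)
  have hOFi := hOF i D (h.elem.mono hEV le_rfl h.elem.le) hi
  by_cases h1 : D₁ ≤ centralizer (V : Set G)
  · rw [img_eq_one.2 h1, one_mul] at hmul
    have h2 : img (E i) D = img V D := le_antisymm (img_mono hEV le_rfl) (by
      rw [h.card, ← hmul]; exact hOFi)
    obtain ⟨e, he⟩ := h.restrict hEV hi h2 hmul
    exact hNC i D e he
  · have h2 := OF.iSup hV hOF D₁ (h.elem.mono le_rfl inf_le_left (inf_le_left.trans h.elem.le)) h1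
    rw [h.card, ← hmul] at hpiece
    have h3 : 2 * img D (E i) * (2 * img D₁ V) ≤ img (E i) D * img V D₁ := Nat.mul_le_mul hOFi h2
    nlinarith [img_pos D₁ V, img_pos D (E i)]

/-- Two mutually normalising elementary abelian subgroups without over-offenders commute. -/
theorem mutual_commute [Finite G] {T T' U U' : Subgroup G} (hU : IsElementaryAbelian 2 U)
    (hU' : IsElementaryAbelian 2 U') (h : OF T U) (h' : OF T' U') (hUT : U' ≤ T) (hUT' : U ≤ T') :
    U' ≤ centralizer (U : Set G) := by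
  by_contra hcon
  have hcon' : ¬ U ≤ centralizer (U' : Set G) := fun e => hcon (mem_centralizer_comm e)
  have el : ∀ {A B S : Subgroup G}, IsElementaryAbelian 2 A → A ≤ S → Elem S B A := fun hA hle =>
    ⟨hle, fun d hd e he => by
      rw [commutatorElement_eq_one_iff_mul_comm.2 (Modules.elemAb_comm hA hd he)]; exact one_mem _,
    fun d hd => by rw [← sq, hA.2 d hd]; exact one_mem _⟩
  have e1 := h U' (el hU' hUT) hcon
  have e2 := h' U (el hU hUT') hcon'
  have := img_pos U U'
  omega

/-! ### Change of the acting group -/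

theorem exists_mul_of_mem_sup {A N : Subgroup G} (hA : A ≤ normalizer (N : Set G)) {x : G}
    (hx : x ∈ A ⊔ N) : ∃ a ∈ A, ∃ n ∈ N, a * n = x := by
  rw [sup_comm] at hx
  have := (Subgroup.coe_mul_of_left_le_normalizer_right A N hA)
  rw [sup_comm, ← SetLike.mem_coe, this] at hx
  exact hx

theorem commutator_mul_cen {u t c : G} (h : Commute u c) : ⁅u, t * c⁆ = ⁅u, t⁆ := by
  calc ⁅u, t * c⁆ = u * t * (c * u⁻¹) * c⁻¹ * t⁻¹ := by simp only [commutatorElement_def]; group
    _ = u * t * (u⁻¹ * c) * c⁻¹ * t⁻¹ := by rw [(h.symm.inv_right).eq]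
    _ = ⁅u, t⁆ := by simp only [commutatorElement_def]; group

variable {T T' Y : Subgroup G}

/-- The subgroup of `T` with the same action on `Y` as `D`. -/
def pull (T Y D : Subgroup G) : Subgroup G := T ⊓ (D ⊔ centralizer (Y : Set G))

theorem pull_spec (hT : T ≤ normalizer (Y : Set G)) {D : Subgroup G}
    (hD : D ≤ T ⊔ centralizer (Y : Set G)) {d : G} (hd : d ∈ D) :
    ∃ t ∈ pull T Y D, ∃ c ∈ centralizer (Y : Set G), d = t * c := by
  obtain ⟨t, ht, c, hc, rfl⟩ := exists_mul_of_mem_sup (le_normalizer_centralizer hT) (hD hd)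
  refine ⟨t, ⟨ht, ?_⟩, c, hc, rfl⟩
  have h := mul_mem (le_sup_left (b := centralizer (Y : Set G)) hd)
    (inv_mem (le_sup_right (a := D) hc))
  rwa [mul_inv_cancel_right] at h

theorem pull_mem (hT : T ≤ normalizer (Y : Set G)) {D : Subgroup G}
    (hD : D ≤ T ⊔ centralizer (Y : Set G)) {t : G} (ht : t ∈ pull T Y D) :
    ∃ d ∈ D, ∃ c ∈ centralizer (Y : Set G), t = d * c := by
  have hn : D ≤ normalizer (centralizer (Y : Set G) : Set G) :=
    hD.trans (sup_le (le_normalizer_centralizer hT) le_normalizer)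
  obtain ⟨d, hd, c, hc, h⟩ := exists_mul_of_mem_sup hn ht.2
  exact ⟨d, hd, c, hc, h.symm⟩

variable {D : Subgroup G}

theorem pull_sup (hT : T ≤ normalizer (Y : Set G)) (hD : D ≤ T ⊔ centralizer (Y : Set G)) :
    pull T Y D ⊔ centralizer (Y : Set G) = D ⊔ centralizer (Y : Set G) :=
  le_antisymm (sup_le inf_le_right le_sup_right) (sup_le (fun d hd => by
    obtain ⟨t, ht, c, hc, rfl⟩ := pull_spec hT hD hd
    exact mul_mem (le_sup_left (b := centralizer (Y : Set G)) ht)
      (le_sup_right (a := pull T Y D) hc)) le_sup_right)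

theorem relIndex_sup_of_normalizes {A N : Subgroup G} (hA : A ≤ normalizer (N : Set G)) :
    N.relIndex (A ⊔ N) = N.relIndex A := by
  have hle : A ⊔ N ≤ normalizer (N : Set G) := sup_le hA le_normalizer
  rw [← relIndex_subgroupOf hle, ← relIndex_subgroupOf hA]
  rw [subgroupOf_sup hA le_normalizer]
  exact relIndex_sup_right _ _

theorem fixed_pull (hT : T ≤ normalizer (Y : Set G)) (hD : D ≤ T ⊔ centralizer (Y : Set G)) {y : G}
    (hy : y ∈ Y) : y ∈ centralizer (pull T Y D : Set G) ↔ y ∈ centralizer (D : Set G) := by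
  have hc : ∀ c ∈ centralizer (Y : Set G), Commute y c := fun c hc => mem_centralizer_iff.1 hc y hy
  constructor
  · intro h d hd
    obtain ⟨t, ht, c, hc', rfl⟩ := pull_spec hT hD hd
    exact (Commute.mul_left (h t ht) (hc c hc').symm).eq
  · intro h t ht
    obtain ⟨d, hd, c, hc', rfl⟩ := pull_mem hT hD ht
    exact (Commute.mul_left (h d hd) (hc c hc').symm).eq

theorem moves_pull (hT : T ≤ normalizer (Y : Set G)) (hD : D ≤ T ⊔ centralizer (Y : Set G))
    (h : ¬ D ≤ centralizer (Y : Set G)) : ¬ pull T Y D ≤ centralizer (Y : Set G) := fun h' => h (by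
  refine le_sup_left.trans ((pull_sup hT hD).symm.trans_le ?_)
  exact sup_le h' le_rfl)

theorem elem_pull (hT : T ≤ normalizer (Y : Set G)) (h : Elem T' Y D)
    (hD : D ≤ T ⊔ centralizer (Y : Set G)) : Elem T Y (pull T Y D) := by
  set C := centralizer (Y : Set G)
  have hn : D ≤ normalizer (C : Set G) :=
    hD.trans (sup_le (le_normalizer_centralizer hT) le_normalizer)
  refine ⟨inf_le_left, fun s hs t ht => ?_, fun t ht => ?_⟩
  · obtain ⟨d, hd, c, hc, rfl⟩ := pull_mem hT hD hs
    obtain ⟨e, he, c', hc', rfl⟩ := pull_mem hT hD ht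
    have : ⁅d * c, e * c'⁆ = d * (c * (e * c') * c⁻¹ * (e * c')⁻¹) * d⁻¹ *
        (⁅d, e⁆ * (e * (d * c' * d⁻¹ * c'⁻¹) * e⁻¹)) := by
      simp only [commutatorElement_def]; group
    rw [this]
    refine mul_mem ?_ (mul_mem (h.comm d hd e he) ?_)
    · refine conj_mem_of_mem_normalizer (hn hd) ?_
      have e' : c * (e * c') * c⁻¹ * (e * c')⁻¹ =
          c * (e * (c' * c⁻¹ * c'⁻¹) * e⁻¹) := by group
      rw [e']
      exact mul_mem hc (conj_mem_of_mem_normalizer (hn he)
        (mul_mem (mul_mem hc' (inv_mem hc)) (inv_mem hc')))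
    · exact conj_mem_of_mem_normalizer (hn he)
        (mul_mem (conj_mem_of_mem_normalizer (hn hd) hc') (inv_mem hc'))
  · obtain ⟨d, hd, c, hc, rfl⟩ := pull_mem hT hD ht
    have : d * c * (d * c) = (d * d) * (d⁻¹ * c * d⁻¹⁻¹ * c) := by group
    rw [this]
    exact mul_mem (h.sq d hd) (mul_mem (conj_mem_of_mem_normalizer (hn (inv_mem hd)) hc) hc)

theorem img_pull_left (hT : T ≤ normalizer (Y : Set G)) (hD : D ≤ T ⊔ centralizer (Y : Set G)) :
    img (pull T Y D) Y = img D Y := by
  have hn : D ≤ normalizer (centralizer (Y : Set G) : Set G) :=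
    hD.trans (sup_le (le_normalizer_centralizer hT) le_normalizer)
  unfold img
  have hp : pull T Y D ≤ normalizer (centralizer (Y : Set G) : Set G) :=
    inf_le_left.trans (le_normalizer_centralizer hT)
  rw [← relIndex_sup_of_normalizes hn, ← relIndex_sup_of_normalizes hp, pull_sup hT hD]

theorem img_pull_right (hT : T ≤ normalizer (Y : Set G)) (hD : D ≤ T ⊔ centralizer (Y : Set G)) :
    img Y (pull T Y D) = img Y D := by
  unfold img
  rw [← inf_relIndex_right, ← inf_relIndex_right (centralizer (D : Set G))]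
  congr 1
  ext y
  exact ⟨fun h => ⟨(fixed_pull hT hD h.2).1 h.1, h.2⟩, fun h => ⟨(fixed_pull hT hD h.2).2 h.1, h.2⟩⟩

theorem OF.congr (hT : T ≤ normalizer (Y : Set G)) (hle : T' ≤ T ⊔ centralizer (Y : Set G))
    (h : OF T Y) : OF T' Y := by
  intro D hD hmov
  have hD' := hD.le.trans hle
  have := h _ (elem_pull hT hD hD') (moves_pull hT hD' hmov)
  rwa [img_pull_left hT hD', img_pull_right hT hD'] at this

theorem NC.congr (hT : T ≤ normalizer (Y : Set G)) (hle : T' ≤ T ⊔ centralizer (Y : Set G))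
    (h : NC T Y) : NC T' Y := by
  intro D u hu
  have hD' := hu.elem.le.trans hle
  refine h (pull T Y D) u ⟨elem_pull hT hu.elem hD', moves_pull hT hD' hu.moves, hu.mem,
    by rw [img_pull_left hT hD', img_pull_right hT hD', hu.card], fun t ht hc => ?_,
    fun y hy s hs t ht => ?_⟩
  · obtain ⟨d, hd, c, hc', rfl⟩ := pull_mem hT hD' ht
    have hcomm : Commute u c := mem_centralizer_iff.1 hc' u hu.mem
    rw [commutator_mul_cen hcomm] at hc
    have hmem : ⁅u, d⁆ ∈ Y := by
      rw [commutatorElement_def]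
      have hdn : d ∈ normalizer (Y : Set G) :=
        sup_le hT (centralizer_le_normalizer' Y) (hD' hd)
      have e : u * d * u⁻¹ * d⁻¹ = u * (d * u⁻¹ * d⁻¹) := by group
      rw [e]
      exact mul_mem hu.mem (conj_mem_of_mem_normalizer hdn (inv_mem hu.mem))
    exact mul_mem (hu.inj d hd ((fixed_pull hT hD' hmem).1 hc)) hc'
  · obtain ⟨d, hd, c, hc', rfl⟩ := pull_mem hT hD' hs
    obtain ⟨e, he, c'', hc'', rfl⟩ := pull_mem hT hD' ht
    have hn : ∀ {d : G}, d ∈ D → d ∈ normalizer (Y : Set G) := fun h =>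
      sup_le hT (centralizer_le_normalizer' Y) (hD' h)
    have hcomY : ∀ {d : G}, d ∈ D → ∀ {y : G}, y ∈ Y → ⁅y, d⁆ ∈ Y := by
      intro d hd y hy
      rw [commutatorElement_def]
      have e : y * d * y⁻¹ * d⁻¹ = y * (d * y⁻¹ * d⁻¹) := by group
      rw [e]
      exact mul_mem hy (conj_mem_of_mem_normalizer (hn hd) (inv_mem hy))
    rw [commutator_mul_cen (show Commute y c from mem_centralizer_iff.1 hc' y hy),
      commutator_mul_cen (show Commute ⁅y, d⁆ c'' from
        mem_centralizer_iff.1 hc'' _ (hcomY hd hy))]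
    exact (fixed_pull hT hD' (hcomY he (hcomY hd hy))).2 (hu.cubic y hy d hd e he)

/-! ### Isomorphic images -/

variable {H : Type*} [Group H]

theorem map_inf_centralizer {f : G →* H} (hf : Function.Injective f) (A B : Subgroup G) :
    centralizer ((B.map f : Subgroup H) : Set H) ⊓ A.map f =
      (centralizer (B : Set G) ⊓ A).map f := by
  ext x
  constructor
  · rintro ⟨hc, a, ha, rfl⟩
    exact ⟨a, ⟨fun b hb => hf (by simpa using hc (f b) ⟨b, hb, rfl⟩), ha⟩, rfl⟩
  · rintro ⟨a, ⟨hc, ha⟩, rfl⟩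
    refine ⟨?_, a, ha, rfl⟩
    rintro _ ⟨b, hb, rfl⟩
    rw [← map_mul, ← map_mul, hc b hb]

theorem img_map {f : G →* H} (hf : Function.Injective f) (A B : Subgroup G) :
    img (A.map f) (B.map f) = img A B := by
  unfold img
  rw [← inf_relIndex_right, map_inf_centralizer hf, relIndex_map_map_of_injective _ _ hf,
    inf_relIndex_right]

theorem mem_centralizer_map_iff {f : G →* H} (hf : Function.Injective f) {Y : Subgroup G} {g : G} :
    f g ∈ centralizer ((Y.map f : Subgroup H) : Set H) ↔ g ∈ centralizer (Y : Set G) := by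
  constructor
  · intro h y hy
    exact hf (by simpa using h (f y) ⟨y, hy, rfl⟩)
  · rintro h _ ⟨y, hy, rfl⟩
    rw [← map_mul, ← map_mul, h y hy]

theorem elem_map_iff {f : G →* H} (hf : Function.Injective f) {T Y D : Subgroup G} :
    Elem (T.map f) (Y.map f) (D.map f) ↔ Elem T Y D := by
  constructor
  · refine fun h => ⟨(map_le_map_iff_of_injective hf).1 h.le, fun d hd e he => ?_, fun d hd => ?_⟩
    · rw [← mem_centralizer_map_iff hf, map_commutatorElement]
      exact h.comm _ ⟨d, hd, rfl⟩ _ ⟨e, he, rfl⟩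
    · rw [← mem_centralizer_map_iff hf, map_mul]
      exact h.sq _ ⟨d, hd, rfl⟩
  · refine fun h => ⟨map_mono h.le, ?_, ?_⟩
    · rintro _ ⟨d, hd, rfl⟩ _ ⟨e, he, rfl⟩
      rw [← map_commutatorElement, mem_centralizer_map_iff hf]
      exact h.comm d hd e he
    · rintro _ ⟨d, hd, rfl⟩
      rw [← map_mul, mem_centralizer_map_iff hf]
      exact h.sq d hd

theorem le_centralizer_map_iff {f : G →* H} (hf : Function.Injective f) {Y D : Subgroup G} :
    D.map f ≤ centralizer ((Y.map f : Subgroup H) : Set H) ↔ D ≤ centralizer (Y : Set G) := by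
  constructor
  · exact fun h d hd => (mem_centralizer_map_iff hf).1 (h ⟨d, hd, rfl⟩)
  · rintro h _ ⟨d, hd, rfl⟩
    exact (mem_centralizer_map_iff hf).2 (h hd)

theorem exists_eq_map {f : G →* H} {T : Subgroup G} {D : Subgroup H} (h : D ≤ T.map f) :
    ∃ E ≤ T, E.map f = D := by
  refine ⟨T ⊓ D.comap f, inf_le_left, le_antisymm ?_ fun x hx => ?_⟩
  · rintro _ ⟨e, he, rfl⟩
    exact he.2
  · obtain ⟨t, ht, rfl⟩ := h hx
    exact ⟨t, ⟨ht, hx⟩, rfl⟩

theorem of_map_iff {f : G →* H} (hf : Function.Injective f) {T Y : Subgroup G} :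
    OF (T.map f) (Y.map f) ↔ OF T Y := by
  constructor
  · intro h D hD hmov
    have := h _ ((elem_map_iff hf).2 hD) (mt (le_centralizer_map_iff hf).1 hmov)
    rwa [img_map hf, img_map hf] at this
  · intro h D hD hmov
    obtain ⟨E, -, rfl⟩ := exists_eq_map hD.le
    rw [img_map hf, img_map hf]
    exact h E ((elem_map_iff hf).1 hD) (mt (le_centralizer_map_iff hf).2 hmov)

theorem nc_map_iff {f : G →* H} (hf : Function.Injective f) {T Y : Subgroup G} :
    NC (T.map f) (Y.map f) ↔ NC T Y := by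
  constructor
  · intro h D u hu
    refine h (D.map f) (f u) ⟨(elem_map_iff hf).2 hu.elem, mt (le_centralizer_map_iff hf).1 hu.moves,
      ⟨u, hu.mem, rfl⟩, by rw [img_map hf, img_map hf, hu.card], ?_, ?_⟩
    · rintro _ ⟨d, hd, rfl⟩ hc
      rw [← map_commutatorElement, mem_centralizer_map_iff hf] at hc
      exact (mem_centralizer_map_iff hf).2 (hu.inj d hd hc)
    · rintro _ ⟨y, hy, rfl⟩ _ ⟨d, hd, rfl⟩ _ ⟨e, he, rfl⟩
      rw [← map_commutatorElement, ← map_commutatorElement, mem_centralizer_map_iff hf]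
      exact hu.cubic y hy d hd e he
  · intro h D v hv
    obtain ⟨E, -, rfl⟩ := exists_eq_map hv.elem.le
    obtain ⟨u, hu, rfl⟩ := hv.mem
    refine h E u ⟨(elem_map_iff hf).1 hv.elem, mt (le_centralizer_map_iff hf).2 hv.moves, hu, ?_,
      fun d hd hc => ?_, fun y hy d hd e he => ?_⟩
    · have := hv.card
      rwa [img_map hf, img_map hf] at this
    · rw [← mem_centralizer_map_iff hf]
      refine hv.inj _ ⟨d, hd, rfl⟩ ?_
      rwa [← map_commutatorElement, mem_centralizer_map_iff hf]
    · rw [← mem_centralizer_map_iff hf, map_commutatorElement, map_commutatorElement]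
      exact hv.cubic _ ⟨y, hy, rfl⟩ _ ⟨d, hd, rfl⟩ _ ⟨e, he, rfl⟩

end Cfsg.Agent.LAE60.W
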