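import Cfsg.Agent.LAE60.WLayerNC

/-!
Stellmacher's characteristic subgroup `W(S)` of a 2-group `S`: the join of the normal elementary
abelian subgroups of `S` on which `S` has neither over-offenders nor cubic near-offenders, and the
fact that these subgroups lie in `O₂` of a group of characteristic two without section `S₄` whose
quotient by `O₂` is odd-by-2.
-/

set_option autoImplicit false
set_option linter.unusedVariables false
set_option linter.unusedSectionVars false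
set_option linter.style.haveILetI false

open Subgroup
open scoped commutatorElement

namespace Cfsg.Agent.LAE60.W

open Cfsg.Agent.Fusion (cj mem_cj conj_mem_cj cj_cj cj_one cj_mono cj_eq_of_mem card_cj
  cj_eq_iff_mem_normalizer)

variable {G : Type*} [Group G]

/-- A normal elementary abelian subgroup of `S` without offenders of either kind. -/
structure Good (S U : Subgroup G) : Prop where
  le : U ≤ S
  elem : IsElementaryAbelian 2 U
  nor : S ≤ normalizer (U : Set G)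
  of : OF S U
  nc : NC S U

theorem elemAb_iSup [Finite G] {ι : Sort*} {E : ι → Subgroup G} (hE : ∀ i, IsElementaryAbelian 2 (E i))
    (hc : ∀ i j, E j ≤ centralizer (E i : Set G)) : IsElementaryAbelian 2 (⨆ i, E i : Subgroup G) := by
  have hab : (⨆ i, E i) ≤ centralizer ((⨆ i, E i : Subgroup G) : Set G) :=
    le_centralizer_iSup fun i => iSup_le (hc i)
  refine ⟨⟨⟨fun x y => Subtype.ext (hab y.2 x x.2)⟩⟩, fun g hg => ?_⟩
  suffices h : g ∈ (⨆ i, E i) ∧ g ^ 2 = 1 from h.2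
  refine iSup_induction (C := fun g => g ∈ (⨆ i, E i) ∧ g ^ 2 = 1) E hg
    (fun i x hx => ⟨mem_iSup_of_mem i hx, (hE i).2 x hx⟩) ⟨one_mem _, one_pow 2⟩ ?_
  rintro x y ⟨hx, hx2⟩ ⟨hy, hy2⟩
  refine ⟨mul_mem hx hy, ?_⟩
  rw [(show Commute x y from hab hy x hx).mul_pow, hx2, hy2, one_mul]

theorem Good.commute [Finite G] {S U U' : Subgroup G} (h : Good S U) (h' : Good S U') :
    U' ≤ centralizer (U : Set G) :=
  mutual_commute h.elem h'.elem h.of h'.of h'.le h.le

/-- Stellmacher's subgroup. -/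
def WS (S : Subgroup G) : Subgroup G := ⨆ U : {U : Subgroup G // Good S U}, (U : Subgroup G)

theorem le_WS {S U : Subgroup G} (h : Good S U) : U ≤ WS S :=
  le_iSup (fun U : {U : Subgroup G // Good S U} => (U : Subgroup G)) ⟨U, h⟩

theorem WS_le (S : Subgroup G) : WS S ≤ S := iSup_le fun U => U.2.le

theorem good_WS [Finite G] (S : Subgroup G) : Good S (WS S) :=
  ⟨WS_le S, elemAb_iSup (fun U => U.2.elem) fun U U' => U.2.commute U'.2,
    fun s hs => by
      rw [← cj_eq_iff_mem_normalizer, WS, cj, Subgroup.map_iSup]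
      exact iSup_congr fun U => cj_eq_of_mem (U.2.nor hs),
    OF.iSup rfl fun U => U.2.of, NC.iSup rfl (fun U => U.2.of) fun U => U.2.nc⟩

variable {H : Type*} [Group H]

theorem good_map_iff {f : G →* H} (hf : Function.Injective f) {S U : Subgroup G} :
    Good (S.map f) (U.map f) ↔ Good S U := by
  constructor
  · intro h
    refine ⟨(map_le_map_iff_of_injective hf).1 h.le, (Modules.elemAb_map_iff hf).1 h.elem,
      mem_normalizer_of_forall fun s hs x hx => ?_, (of_map_iff hf).1 h.of, (nc_map_iff hf).1 h.nc⟩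
    obtain ⟨y, hy, he⟩ := conj_mem_of_mem_normalizer (h.nor ⟨s, hs, rfl⟩) (mem_map_of_mem f hx)
    rw [← map_inv, ← map_mul, ← map_mul] at he
    exact hf he ▸ hy
  · intro h
    exact ⟨map_mono h.le, (Modules.elemAb_map_iff hf).2 h.elem,
      (map_mono h.nor).trans (le_normalizer_map f), (of_map_iff hf).2 h.of, (nc_map_iff hf).2 h.nc⟩

theorem WS_map {f : G →* H} (hf : Function.Injective f) (S : Subgroup G) :
    WS (S.map f) = (WS S).map f := by
  rw [WS, WS, Subgroup.map_iSup]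
  refine le_antisymm (iSup_le ?_) (iSup_le fun U => ?_)
  · rintro ⟨U, hU⟩
    obtain ⟨U₀, -, rfl⟩ := exists_eq_map hU.le
    exact le_iSup_of_le ⟨U₀, (good_map_iff hf).1 hU⟩ le_rfl
  · exact le_iSup (fun V : {V : Subgroup H // Good (S.map f) V} => (V : Subgroup H))
      ⟨_, (good_map_iff hf).2 U.2⟩

theorem cj_WS (g : G) (S : Subgroup G) : cj g (WS S) = WS (cj g S) :=
  (WS_map (f := (MulAut.conj g).toMonoidHom) (MulEquiv.injective _) S).symm

theorem normalizer_le_normalizer_WS (S : Subgroup G) :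
    normalizer (S : Set G) ≤ normalizer (WS S : Set G) := fun g hg => by
  rw [← cj_eq_iff_mem_normalizer, cj_WS, cj_eq_of_mem hg]

theorem good_central {S U : Subgroup G} (hU : U ≤ S) (he : IsElementaryAbelian 2 U)
    (hc : S ≤ centralizer (U : Set G)) : Good S U :=
  ⟨hU, he, hc.trans (centralizer_le_normalizer' U), fun D hD h => absurd (hD.le.trans hc) h,
    fun D u hu => hu.moves (hu.elem.le.trans hc)⟩

theorem zpowers_le_WS {S : Subgroup G} {z : G} (hz : z ∈ S) (hc : z ∈ centralizer (S : Set G))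
    (h2 : z ^ 2 = 1) : zpowers z ≤ WS S :=
  le_WS (good_central (zpowers_le.2 hz) (Modules.elemAb_zpowers h2)
    (mem_centralizer_comm (zpowers_le.2 hc)))

theorem WS_ne_bot [Finite G] {S : Subgroup G} (hS : IsPGroup 2 S) (h1 : S ≠ ⊥) : WS S ≠ ⊥ := by
  haveI : Fact (Nat.Prime 2) := ⟨Nat.prime_two⟩
  haveI : Nontrivial S := S.nontrivial_iff_ne_bot.2 h1
  haveI := hS.center_nontrivial
  obtain ⟨⟨z, hz⟩, hz1⟩ := exists_ne (1 : center ↥S)
  obtain ⟨⟨w, hw⟩, hw2⟩ := exists_prime_orderOf_dvd_card' (G := center ↥S) 2 (by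
    obtain ⟨n, hn⟩ := IsPGroup.iff_card.1 (hS.to_subgroup (center ↥S))
    rw [hn]
    rcases n with _ | n
    · exact absurd hn (by simp [Finite.one_lt_card.ne'])
    · exact dvd_pow_self 2 n.succ_ne_zero)
  have hw1 : (w : G) ≠ 1 := by
    intro h
    have : (⟨w, hw⟩ : center ↥S) = 1 := Subtype.ext (Subtype.ext h)
    rw [this, orderOf_one] at hw2
    omega
  have hle := zpowers_le_WS (S := S) (z := (w : G)) w.2
    (fun x hx => congrArg Subtype.val (mem_center_iff.1 hw ⟨x, hx⟩))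
    (by
      have := congrArg (fun t : center ↥S => ((t : ↥S) : G))
        (hw2 ▸ pow_orderOf_eq_one (⟨w, hw⟩ : center ↥S) : (⟨w, hw⟩ : center ↥S) ^ 2 = 1)
      simpa using this)
  exact fun h => hw1 (mem_bot.1 (h ▸ hle (mem_zpowers _)))

/-! ### Good subgroups lie in `O₂` -/

/-- Generation of `F` modulo `Q` by centralisers of hyperplanes of `D`. -/
theorem le_of_half_mod [Finite G] {Q F D P : Subgroup G} (hQP : Q ≤ P)
    (hFQ : F ≤ normalizer (Q : Set G)) (hDQ : D ≤ normalizer (Q : Set G))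
    (hDF : D ≤ normalizer (F : Set G)) (hodd : Odd (Q.relIndex F))
    (hsq : ∀ d ∈ D, d * d ∈ Q) (hcomm : ∀ d ∈ D, ∀ e ∈ D, ⁅d, e⁆ ∈ Q)
    (hP : ∀ B, Half B D → D ⊓ Q ≤ B → ∀ f ∈ F, (∀ x ∈ B, ⁅f, x⁆ ∈ Q) → f ∈ P) : F ≤ P := by
  set N := normalizer (Q : Set G) with hN
  haveI : (Q.subgroupOf N).Normal := normal_subgroupOf_of_le_normalizer le_rfl
  set π := QuotientGroup.mk' (Q.subgroupOf N)
  have hA : IsElementaryAbelian 2 ((D.subgroupOf N).map π) := by
    refine ⟨⟨⟨?_⟩⟩, ?_⟩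
    · rintro ⟨_, v, hv, rfl⟩ ⟨_, w, hw, rfl⟩
      refine Subtype.ext (commutatorElement_eq_one_iff_mul_comm.1 ?_)
      rw [← map_commutatorElement]
      exact (QuotientGroup.eq_one_iff _).2 (hcomm v hv w hw)
    · rintro _ ⟨v, hv, rfl⟩
      rw [← map_pow]
      exact (QuotientGroup.eq_one_iff _).2 (show (v : G) ^ 2 ∈ Q by rw [sq]; exact hsq _ hv)
  have hAK : (D.subgroupOf N).map π ≤
      normalizer ((F.subgroupOf N).map π : Set (↥N ⧸ Q.subgroupOf N)) := by
    refine le_trans (map_mono ?_) (le_normalizer_map π)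
    exact mem_normalizer_of_forall fun s hs x hx =>
      mem_subgroupOf.2 (conj_mem_of_mem_normalizer (hDF hs) hx)
  have hodd' : Odd (Nat.card ((F.subgroupOf N).map π)) := by
    rw [← relIndex_ker, QuotientGroup.ker_mk', relIndex_subgroupOf hFQ]
    exact hodd
  have hres := le_of_half ((D.subgroupOf N).map π) ((F.subgroupOf N).map π)
    ((P.subgroupOf N).map π) hA hAK hodd' fun Bb hBb => by
      set B := D ⊓ (Bb.comap π).map N.subtype with hB
      have hmemB : ∀ d (hd : d ∈ D), d ∈ B ↔ π ⟨d, hDQ hd⟩ ∈ Bb := by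
        intro d hd
        constructor
        · rintro ⟨-, y, hy, hy'⟩
          have : y = ⟨d, hDQ hd⟩ := Subtype.ext hy'
          exact this ▸ hy
        · exact fun h => ⟨hd, ⟨d, hDQ hd⟩, h, rfl⟩
      have hhalf : Half B D := by
        refine ⟨inf_le_left, fun x hx y hy hxB hyB => (hmemB _ (mul_mem hx hy)).2 ?_⟩
        rw [show (⟨x * y, hDQ (mul_mem hx hy)⟩ : ↥N) = ⟨x, hDQ hx⟩ * ⟨y, hDQ hy⟩ from rfl,
          map_mul]
        exact hBb.2 _ ⟨⟨x, hDQ hx⟩, hx, rfl⟩ _ ⟨⟨y, hDQ hy⟩, hy, rfl⟩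
          (fun h => hxB ((hmemB x hx).2 h)) (fun h => hyB ((hmemB y hy).2 h))
      have hDB : D ⊓ Q ≤ B := fun d hd => (hmemB d hd.1).2 (by
        rw [show π ⟨d, hDQ hd.1⟩ = 1 from (QuotientGroup.eq_one_iff _).2 hd.2]
        exact one_mem Bb)
      rintro _ ⟨⟨f, hf, rfl⟩, hc⟩
      refine ⟨f, hP B hhalf hDB _ hf fun x hx => ?_, rfl⟩
      have h1 := hc _ ((hmemB x hx.1).1 hx)
      have h2 : π ⁅f, ⟨x, hDQ hx.1⟩⁆ = 1 := by
        rw [map_commutatorElement]
        exact commutatorElement_eq_one_iff_mul_comm.2 h1.symm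
      exact (QuotientGroup.eq_one_iff (N := Q.subgroupOf N) _).1 h2
  intro f hf
  obtain ⟨f', hf', he⟩ := hres ⟨⟨f, hFQ hf⟩, hf, rfl⟩
  have hq : (f' : G)⁻¹ * f ∈ Q :=
    mem_subgroupOf.1 ((QuotientGroup.eq (s := Q.subgroupOf N)).1 he)
  have := mul_mem (show (f' : G) ∈ P from hf') (hQP hq)
  rwa [mul_inv_cancel_left] at this

/-- An element of odd order fixing the commutator `c = [g, x]` of order at most two fixes `x`. -/
theorem commutator_eq_one_of_fixed {g x : G} {m : ℕ} (hm : Odd m) (hgm : g ^ m = 1)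
    (hc : Commute g ⁅g, x⁆) (h2 : ⁅g, x⁆ * ⁅g, x⁆ = 1) : ⁅g, x⁆ = 1 := by
  set c := ⁅g, x⁆ with hcdef
  have hi : ∀ i : ℕ, g ^ i * x * (g ^ i)⁻¹ = c ^ i * x := by
    intro i
    induction i with
    | zero => simp
    | succ i ih =>
      calc g ^ (i + 1) * x * (g ^ (i + 1))⁻¹ = g * (g ^ i * x * (g ^ i)⁻¹) * g⁻¹ := by
            rw [pow_succ']; group
        _ = (g * c ^ i) * x * g⁻¹ := by rw [ih]; group
        _ = c ^ i * (g * x * g⁻¹) := by rw [(hc.pow_right i).eq]; group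
        _ = c ^ i * c * x := by rw [hcdef, commutatorElement_def]; group
        _ = _ := by rw [pow_succ]
  have := hi m
  rw [hgm, inv_one, one_mul, mul_one] at this
  obtain ⟨j, rfl⟩ := hm
  rw [pow_succ, pow_mul, sq, h2, one_pow, one_mul] at this
  exact mul_eq_right.1 this.symm

/-- In characteristic two, with `F / Q` odd, a good subgroup lies in `Q`. -/
theorem good_le [Finite G] {Q F S U : Subgroup G} (hQS : Q ≤ S) (hFQ : F ≤ normalizer (Q : Set G))
    (hSQ : S ≤ normalizer (Q : Set G)) (hSF : S ≤ normalizer (F : Set G)) (hQF : Q ≤ F)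
    (hodd : Odd (Q.relIndex F)) (hC : ∀ y ∈ F, y ∈ centralizer (Q : Set G) → y ∈ Q)
    (hFit : ∀ u ∈ S, (∀ f ∈ F, ⁅f, u⁆ ∈ Q) → u ∈ Q) (hU : Good S U) : U ≤ Q := by
  classical
  by_contra hle
  obtain ⟨u₀, hu₀, hu₀Q⟩ := SetLike.not_le_iff_exists.1 hle
  have hUS := hU.le
  have hcU : ∀ {x y : G}, x ∈ U → y ∈ U → x * y = y * x := fun hx hy =>
    Modules.elemAb_comm hU.elem hx hy
  have hUU : ∀ {x : G}, x ∈ U → x * x = 1 := fun hx => by rw [← sq]; exact hU.elem.2 _ hx
  let P : Subgroup G :=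
    { carrier := {f | f ∈ normalizer (Q : Set G) ∧ ∀ x ∈ U, ⁅f, x⁆ ∈ Q}
      one_mem' := ⟨one_mem _, fun x _ => by simp⟩
      mul_mem' := fun {f g} hf hg => ⟨mul_mem hf.1 hg.1, fun x hx => by
        have e : ⁅f * g, x⁆ = f * ⁅g, x⁆ * f⁻¹ * ⁅f, x⁆ := by
          simp only [commutatorElement_def]; group
        rw [e]
        exact mul_mem (conj_mem_of_mem_normalizer hf.1 (hg.2 x hx)) (hf.2 x hx)⟩
      inv_mem' := fun {f} hf => ⟨inv_mem hf.1, fun x hx => by
        have e : ⁅f⁻¹, x⁆ = f⁻¹ * ⁅f, x⁆⁻¹ * f⁻¹⁻¹ := by simp only [commutatorElement_def]; group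
        rw [e]
        exact conj_mem_of_mem_normalizer (inv_mem hf.1) (inv_mem (hf.2 x hx))⟩ }
  have hQP : Q ≤ P := fun q hq => ⟨le_normalizer hq, fun x hx => by
    have e : ⁅q, x⁆ = q * (x * q⁻¹ * x⁻¹) := by simp only [commutatorElement_def]; group
    rw [e]
    exact mul_mem hq (conj_mem_of_mem_normalizer (hSQ (hUS hx)) (inv_mem hq))⟩
  have hFP : ¬ F ≤ P := fun h => hu₀Q (hFit u₀ (hUS hu₀) fun f hf => (h hf).2 u₀ hu₀)
  have hex : ∃ U₀, Half U₀ U ∧ U ⊓ Q ≤ U₀ ∧
      ∃ f ∈ F, (∀ x ∈ U₀, ⁅f, x⁆ ∈ Q) ∧ f ∉ P := by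
    by_contra hcon
    push Not at hcon
    refine hFP (le_of_half_mod hQP hFQ (hUS.trans hSQ) (hUS.trans hSF) hodd
      (fun d hd => by rw [hUU hd]; exact one_mem Q)
      (fun d hd e he => by
        rw [commutatorElement_eq_one_iff_mul_comm.2 (hcU hd he)]; exact one_mem Q) hcon)
  obtain ⟨U₀, hhalf, hUQ, f₀, hf₀, hf₀U, hf₀P⟩ := hex
  have hU₀U := hhalf.1
  obtain ⟨u, hu, hu0, huQ⟩ : ∃ u ∈ U, u ∉ U₀ ∧ ⁅f₀, u⁆ ∉ Q := by
    by_contra hcon
    push Not at hcon
    refine hf₀P ⟨hFQ hf₀, fun x hx => ?_⟩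
    by_cases hx0 : x ∈ U₀
    · exact hf₀U x hx0
    · exact hcon x hx hx0
  have hdec : ∀ x ∈ U, x ∈ U₀ ∨ u * x ∈ U₀ := fun x hx =>
    or_iff_not_imp_left.2 fun h => hhalf.2 u hu x hx hu0 h
  have hu2 := hUU hu
  have huS := hUS hu
  have huN : u ∈ normalizer (Q : Set G) := hSQ huS
  have huinv : u⁻¹ = u := inv_eq_of_mul_eq_one_right hu2
  -- an element of odd order inverted by `u`
  set g := ⁅u, f₀⁆ with hg
  have hgF : g ∈ F :=
    mul_mem (conj_mem_of_mem_normalizer (hSF huS) hf₀) (inv_mem hf₀)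
  have hgQ : g ∉ Q := fun h => huQ (by rw [← commutatorElement_inv]; exact inv_mem h)
  have hginv : u * g * u⁻¹ = g⁻¹ := by
    rw [hg, commutatorElement_inv]
    simp only [commutatorElement_def, huinv]
    calc u * (u * f₀ * u * f₀⁻¹) * u = (u * u) * f₀ * u * f₀⁻¹ * u := by group
      _ = f₀ * u * f₀⁻¹ * u := by rw [hu2, one_mul]
  obtain ⟨s, m, hm, hsm⟩ : ∃ s m : ℕ, ¬ 2 ∣ m ∧ orderOf g = 2 ^ s * m :=
    ⟨_, _, Nat.not_dvd_ordCompl Nat.prime_two (orderOf_pos g).ne',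
      (Nat.ordProj_mul_ordCompl_eq_self (orderOf g) 2).symm⟩
  set y := g ^ 2 ^ s with hy
  have hym : y ^ m = 1 := by rw [hy, ← pow_mul, ← hsm, pow_orderOf_eq_one]
  have hmodd : Odd m := Nat.odd_iff.2 (Nat.two_dvd_ne_zero.1 hm)
  have hyF : y ∈ F := pow_mem hgF _
  have hyQ : y ∉ Q := by
    intro h
    apply hgQ
    haveI : (Q.subgroupOf F).Normal := normal_subgroupOf_of_le_normalizer hFQ
    have h1 : g ^ Q.relIndex F ∈ Q := (Q.subgroupOf F).pow_index_mem ⟨g, hgF⟩
    have hcop : Nat.gcd (Q.relIndex F) (2 ^ s) = 1 :=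
      Nat.Coprime.pow_right s (Nat.coprime_two_right.2 hodd)
    have h3 := Nat.gcd_eq_gcd_ab (Q.relIndex F) (2 ^ s)
    rw [hcop] at h3
    have h4 : g = (g ^ Q.relIndex F) ^ (Q.relIndex F).gcdA (2 ^ s) *
        (g ^ 2 ^ s) ^ (Q.relIndex F).gcdB (2 ^ s) := by
      rw [← zpow_natCast g (Q.relIndex F), ← zpow_natCast g (2 ^ s), ← zpow_mul, ← zpow_mul,
        ← zpow_add, ← h3, Nat.cast_one, zpow_one]
    rw [h4]
    exact mul_mem (zpow_mem h1 _) (zpow_mem h _)
  have hyinv : u * y * u⁻¹ = y⁻¹ := by rw [hy, ← conj_pow, hginv, inv_pow]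
  have hymC : ∀ K : Subgroup G, y ^ m ∈ K := fun K => by rw [hym]; exact one_mem K
  have hyc : ∀ K : Subgroup G, u * y * u⁻¹ * y ∈ K := fun K => by
    rw [hyinv, inv_mul_cancel]; exact one_mem K
  -- the group `Q' = Q U₀`
  set Q' := Q ⊔ U₀ with hQ'
  have hQ'S : Q' ≤ S := sup_le hQS (hU₀U.trans hUS)
  have hnQ' : ∀ n, n ∈ normalizer (Q : Set G) → (∀ x ∈ U₀, ⁅n, x⁆ ∈ Q) →
      n ∈ normalizer (Q' : Set G) := by
    intro n hn hnd
    rw [← cj_eq_iff_mem_normalizer]
    refine eq_of_le_of_card_ge ?_ (card_cj _ _).ge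
    rw [hQ', cj, Subgroup.map_sup]
    refine sup_le (le_sup_of_le_left (cj_eq_of_mem hn).le) ?_
    rintro _ ⟨d, hd, rfl⟩
    have e : (MulAut.conj n).toMonoidHom d = ⁅n, d⁆ * d := by simp [commutatorElement_def]
    rw [e]
    exact mul_mem (mem_sup_left (hnd d hd)) (mem_sup_right hd)
  have huQ' : u ∈ normalizer (Q' : Set G) := hnQ' u huN fun x hx => by
    rw [commutatorElement_eq_one_iff_mul_comm.2 (hcU hu (hU₀U hx))]; exact one_mem Q
  have hyQ' : y ∈ normalizer (Q' : Set G) := by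
    refine hnQ' y (hFQ hyF) ?_
    have hyP : ∀ x ∈ U₀, ⁅g, x⁆ ∈ Q := by
      intro x hx
      have hux : u * x = x * u := hcU hu (hU₀U hx)
      have e : ⁅g, x⁆ = (u * f₀ * u⁻¹) * (f₀⁻¹ * ⁅f₀, x⁆⁻¹ * f₀⁻¹⁻¹) * (u * f₀ * u⁻¹)⁻¹ *
          (u * ⁅f₀, x⁆ * u⁻¹) := by
        have e1 : u * ⁅f₀, x⁆ * u⁻¹ = ⁅u * f₀ * u⁻¹, x⁆ := by
          have : u * x * u⁻¹ = x := by rw [hux, mul_inv_cancel_right]
          conv_rhs => rw [← this]
          simp only [commutatorElement_def]; group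
        rw [e1, hg]; simp only [commutatorElement_def]; group
      rw [e]
      exact mul_mem (conj_mem_of_mem_normalizer
        (mul_mem (mul_mem huN (hFQ hf₀)) (inv_mem huN))
        (conj_mem_of_mem_normalizer (inv_mem (hFQ hf₀)) (inv_mem (hf₀U x hx))))
        (conj_mem_of_mem_normalizer huN (hf₀U x hx))
    intro x hx
    have : ∀ i : ℕ, ⁅g ^ i, x⁆ ∈ Q := by
      intro i
      induction i with
      | zero => simp
      | succ i ih =>
        have e : ⁅g ^ (i + 1), x⁆ = g * ⁅g ^ i, x⁆ * g⁻¹ * ⁅g, x⁆ := by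
          rw [pow_succ']; simp only [commutatorElement_def]; group
        rw [e]
        exact mul_mem (conj_mem_of_mem_normalizer (hFQ hgF) ih) (hyP x hx)
    exact this _
  have hUQ' : U ⊓ Q' ≤ U₀ := by
    intro x hx
    rcases hdec x hx.1 with h | h
    · exact h
    · exfalso
      have hu' : u ∈ Q' := by
        have := Q'.mul_mem (mem_sup_right h : u * x ∈ Q') (Q'.inv_mem hx.2)
        rwa [mul_inv_cancel_right] at this
      rw [hQ', sup_comm] at hu'
      obtain ⟨x₀, hx₀, q, hq, he⟩ := exists_mul_of_mem_sup ((hU₀U.trans hUS).trans hSQ) hu'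
      have hqU : q ∈ U := by
        have := mul_mem (inv_mem (hU₀U hx₀)) (he.symm ▸ hu : x₀ * q ∈ U)
        rwa [inv_mul_cancel_left] at this
      exact hu0 (he ▸ mul_mem hx₀ (hUQ ⟨hqU, hq⟩))
  have hQ'U : Q' ≤ normalizer (U : Set G) := hQ'S.trans hU.nor
  have hUQ'n : U ≤ normalizer (Q' : Set G) := by
    intro x hx
    rcases hdec x hx with h | h
    · exact le_normalizer (mem_sup_right h)
    · have := mul_mem (inv_mem huQ') (le_normalizer (mem_sup_right h : u * x ∈ Q'))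
      rwa [inv_mul_cancel_left] at this
  have hcomm₀ : ∀ v ∈ U, ∀ q ∈ Q', ⁅v, q⁆ ∈ U₀ := fun v hv q hq =>
    hUQ' ⟨commutator_mem_right (hQ'U hq) hv, commutator_mem_left (hUQ'n hv) hq⟩
  set D := cj y U₀ with hD
  have hDQ' : D ≤ Q' := (cj_mono y le_sup_right).trans (cj_eq_of_mem hyQ').le
  have hDe : IsElementaryAbelian 2 D := Modules.elemAb_map _ (Modules.elemAb_mono hU₀U hU.elem)
  have hel : Elem S U D := ⟨hDQ'.trans hQ'S, fun d hd e he => by
      rw [commutatorElement_eq_one_iff_mul_comm.2 (Modules.elemAb_comm hDe hd he)]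
      exact one_mem _,
    fun d hd => by rw [← sq, hDe.2 d hd]; exact one_mem _⟩
  -- `|U₀ : C(D)| = |D : C(U₀)|`
  have hsymm : img U₀ D = img D U₀ := by
    have h1 : img (cj y U₀) (cj y (cj y⁻¹ U₀)) = img U₀ (cj y⁻¹ U₀) :=
      img_map (f := (MulAut.conj y).toMonoidHom) (MulEquiv.injective _) _ _
    have h2 : img (cj u U₀) (cj u (cj y⁻¹ U₀)) = img U₀ (cj y⁻¹ U₀) :=
      img_map (f := (MulAut.conj u).toMonoidHom) (MulEquiv.injective _) _ _
    rw [cj_cj, mul_inv_cancel, cj_one, ← hD] at h1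
    have hu0' : cj u U₀ = U₀ := cj_eq_of_mem (centralizer_le_normalizer' _ fun x hx =>
      (hcU hu (hU₀U hx)).symm)
    rw [cj_cj, show u * y⁻¹ = y * u from ?_, ← cj_cj, hu0', ← hD] at h2
    · rw [h2, ← h1]
    · calc u * y⁻¹ = u * (u * y * u⁻¹) := by rw [hyinv]
        _ = (u * u) * y * u⁻¹ := by group
        _ = y * u := by rw [hu2, one_mul, huinv]
  have hidx : (centralizer (D : Set G) ⊓ U₀).relIndex U = 2 * img D U₀ := by
    rw [← relIndex_mul_relIndex _ U₀ U inf_le_right hU₀U, inf_relIndex_right,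
      relIndex_eq_two_iff_exists_notMem_and'.2 ⟨u, hu, hu0, fun x hx => (hdec x hx).symm⟩,
      mul_comm]
    exact congrArg _ hsymm
  have hUD : img U D ≤ 2 * img D U₀ :=
    hidx ▸ relIndex_le_of_le_left inf_le_left index_ne_zero_of_finite
  have hyfix : ∀ x ∈ U₀, Commute u (y * x * y⁻¹) → Commute y x := by
    intro x hx hc
    have hmem : y⁻¹ ∈ centralizer ({x} : Set G) := by
      refine mem_of_pair (b := u) (mem_centralizer_singleton_iff.2 (hcU hu (hU₀U hx))) ?_ ?_ hmodd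
        (by rw [inv_pow, hym, inv_one]; exact one_mem _)
      · refine mem_centralizer_singleton_iff.2 ?_
        calc y⁻¹ * u * y⁻¹⁻¹ * x = y⁻¹ * (u * (y * x * y⁻¹)) * y := by group
          _ = y⁻¹ * ((y * x * y⁻¹) * u) * y := by rw [hc.eq]
          _ = _ := by group
      · have e : u * y⁻¹ * u⁻¹ * y⁻¹ = 1 := by
          rw [show u * y⁻¹ * u⁻¹ = (u * y * u⁻¹)⁻¹ by group, hyinv, inv_inv, mul_inv_cancel]
        rw [e]; exact one_mem _
    exact (show Commute y⁻¹ x from mem_centralizer_singleton_iff.1 hmem).symm.inv_right.symm |>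
      fun h => by simpa using h
  by_cases hDU₀ : D ≤ centralizer (U₀ : Set G)
  · -- then `y` centralises `Q`
    have hDU : D ≤ centralizer (U : Set G) := by
      by_contra h
      have h1 := hU.of D hel h
      have h2 := one_lt_img h
      rw [img_eq_one.2 hDU₀] at hUD
      omega
    have hyU₀ : ∀ x ∈ U₀, Commute y x := fun x hx => hyfix x hx
      (hDU (conj_mem_cj.2 hx) u hu)
    have hyn : y ∈ normalizer (U₀ : Set G) := centralizer_le_normalizer' _ fun x hx =>
      (hyU₀ x hx).symm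
    refine hyQ (hC y hyF fun q hq => ?_)
    have hq' : q ∈ Q' := mem_sup_left hq
    have hst : y ∈ stab U₀ q := by
      refine mem_of_pair (b := u) ⟨centralizer_le_normalizer' _ fun x hx =>
        (hcU hu (hU₀U hx)).symm, hcomm₀ u hu q hq'⟩ ?_ (hyc _) hmodd (hymC _)
      refine ⟨mul_mem (mul_mem hyn (centralizer_le_normalizer' _ fun x hx =>
        (hcU hu (hU₀U hx)).symm)) (inv_mem hyn), ?_⟩
      have e : ⁅y * u * y⁻¹, q⁆ = y * ⁅u, y⁻¹ * q * y⁻¹⁻¹⁆ * y⁻¹ := by
        simp only [commutatorElement_def]; group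
      rw [e]
      exact conj_mem_of_mem_normalizer hyn
        (hcomm₀ u hu _ (conj_mem_of_mem_normalizer (inv_mem hyQ') hq'))
    have := commutator_eq_one_of_fixed hmodd hym (hyU₀ _ hst.2) (hUU (hU₀U hst.2))
    exact (commutatorElement_eq_one_iff_mul_comm.1 this).symm
  -- otherwise `D` is a cubic near-offender
  have hDU : ¬ D ≤ centralizer (U : Set G) := fun h => hDU₀ (h.trans (cen_antitone hU₀U))
  have hOF := hU.of D hel hDU
  have hmono : img D U₀ ≤ img D U := img_mono le_rfl hU₀U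
  have ha1 : img D U = img D U₀ := by omega
  have ha2 : img U D = 2 * img D U₀ := by omega
  have hDC : D ⊓ centralizer (U₀ : Set G) ≤ centralizer (U : Set G) := by
    have := img_mul (D := D) hU₀U
    rw [ha1] at this
    exact img_eq_one.1 ((Nat.eq_of_mul_eq_mul_right (img_pos D U₀)
      (this.trans (one_mul (img D U₀)).symm)))
  have hUC : ∀ v ∈ U, v ∈ centralizer (D : Set G) → v ∈ U₀ := by
    intro v hv hc
    have h := relIndex_mul_relIndex (centralizer (D : Set G) ⊓ U₀) (centralizer (D : Set G) ⊓ U) U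
      (inf_le_inf_left _ hU₀U) inf_le_right
    rw [hidx, inf_relIndex_right] at h
    change _ * img U D = _ at h
    rw [ha2] at h
    have h1 := Nat.eq_of_mul_eq_mul_right (by have := img_pos D U₀; omega)
      (h.trans (one_mul (2 * img D U₀)).symm)
    exact (relIndex_eq_one.1 h1 ⟨hc, hv⟩).2
  -- the fixed points
  have hKfix : ∀ c ∈ D ⊓ centralizer (U₀ : Set G), c ∈ U₀ ∧ Commute y c := by
    rintro _ ⟨⟨x, hx, rfl⟩, hc⟩
    have hcu : Commute u ((MulAut.conj y).toMonoidHom x) :=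
      hDC ⟨⟨x, hx, rfl⟩, hc⟩ u hu
    have hyx := hyfix x hx hcu
    have e : (MulAut.conj y).toMonoidHom x = x := by
      show y * x * y⁻¹ = x
      rw [hyx.eq, mul_inv_cancel_right]
    rw [e]
    exact ⟨hx, hyx⟩
  have hW0 : U₀ ⊓ centralizer (D : Set G) = D ⊓ centralizer (U₀ : Set G) := by
    symm
    refine eq_of_le_of_card_ge (fun c hc => ⟨(hKfix c hc).1, fun d hd =>
      Modules.elemAb_comm hDe hd hc.1⟩) ?_
    have h1 := Modules.card_mul_relIndex_of_le (inf_le_left : U₀ ⊓ centralizer (D : Set G) ≤ U₀)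
    have h2 := Modules.card_mul_relIndex_of_le (inf_le_left : D ⊓ centralizer (U₀ : Set G) ≤ D)
    rw [inf_comm, inf_relIndex_right, inf_comm] at h1 h2
    change _ * img U₀ D = _ at h1
    change _ * img D U₀ = _ at h2
    rw [hsymm] at h1
    have h3 : Nat.card D = Nat.card U₀ := card_cj y U₀
    rw [h3, ← h1] at h2
    exact (Nat.eq_of_mul_eq_mul_right (img_pos D U₀) h2).ge
  refine hU.nc D u ⟨hel, hDU, hu, by rw [ha2, ha1], fun d hd hdc => ?_,
    fun v hv d hd e he => ?_⟩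
  · obtain ⟨x, hx, rfl⟩ := hd
    have hz : ⁅u, (MulAut.conj y).toMonoidHom x⁆ ∈ D ⊓ centralizer (U₀ : Set G) :=
      hW0 ▸ ⟨hUC _ (commutator_mem_right (hU.nor (hel.le ⟨x, hx, rfl⟩)) hu) hdc, hdc⟩
    obtain ⟨hzU, hzy⟩ := hKfix _ hz
    set z := ⁅u, (MulAut.conj y).toMonoidHom x⁆ with hzdef
    have hux : u * x * u⁻¹ = x := by rw [hcU hu (hU₀U hx), mul_inv_cancel_right]
    have e1 : z = y⁻¹ * x * y * (y * x * y⁻¹)⁻¹ := by
      rw [hzdef]
      show ⁅u, y * x * y⁻¹⁆ = _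
      calc ⁅u, y * x * y⁻¹⁆ = (u * y * u⁻¹) * (u * x * u⁻¹) * (u * y * u⁻¹)⁻¹ *
            (y * x * y⁻¹)⁻¹ := by simp only [commutatorElement_def]; group
        _ = _ := by rw [hyinv, hux, inv_inv]
    have e2 : ⁅(y * y)⁻¹, x⁆ = z := by
      calc ⁅(y * y)⁻¹, x⁆ = y⁻¹ * (y⁻¹ * x * y * (y * x * y⁻¹)⁻¹) * y := by
            simp only [commutatorElement_def, mul_inv_rev, inv_inv, mul_assoc, inv_mul_cancel,
              mul_one]
        _ = y⁻¹ * (z * y) := by rw [← e1, mul_assoc]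
        _ = z := by rw [← hzy.eq, inv_mul_cancel_left]
    have h3 := commutator_eq_one_of_fixed (g := (y * y)⁻¹) (x := x) hmodd
      (by rw [inv_pow, (Commute.refl y).mul_pow, hym, one_mul, inv_one])
      (by rw [e2]; exact (hzy.mul_left hzy).inv_left)
      (by rw [e2]; exact hUU (hU₀U hzU))
    have h4 : Commute y x := by
      have h5 : Commute (y * y) x :=
        (show Commute (y * y)⁻¹ x from commutatorElement_eq_one_iff_mul_comm.1 h3).inv_left |>
          fun h => by simpa using h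
      have hy' : y = (y * y) ^ ((m + 1) / 2) := by
        obtain ⟨j, hj⟩ := hmodd
        rw [← sq, ← pow_mul, show 2 * ((m + 1) / 2) = m + 1 by omega, pow_succ, hym, one_mul]
      rw [hy']
      exact h5.pow_left _
    have e : (MulAut.conj y).toMonoidHom x = x := by
      show y * x * y⁻¹ = x
      rw [h4.eq, mul_inv_cancel_right]
    rw [e]
    exact fun w hw => hcU hw (hU₀U hx)
  · have h1 : ⁅v, d⁆ ∈ U₀ := hcomm₀ v hv d (hDQ' hd)
    have hn : Q' ≤ normalizer (U₀ : Set G) := fun q hq => by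
      rw [← cj_eq_iff_mem_normalizer]
      refine eq_of_le_of_card_ge ?_ (card_cj _ _).ge
      rintro _ ⟨x, hx, rfl⟩
      have e : (MulAut.conj q).toMonoidHom x = ⁅x, q⁆⁻¹ * x := by
        simp [commutatorElement_def, mul_assoc]
      rw [e]
      exact mul_mem (inv_mem (hcomm₀ x (hU₀U hx) q hq)) hx
    have hn2 : Q' ≤ normalizer (D : Set G) := by
      have := cj_mono y hn
      rw [cj_eq_of_mem hyQ', Fusion.cj_normalizer] at this
      exact this
    have h2 : ⁅⁅v, d⁆, e⁆ ∈ D := commutator_mem_left (hn2 (mem_sup_right h1)) he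
    exact fun d' hd' => Modules.elemAb_comm hDe hd' h2

end Cfsg.Agent.LAE60.W
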