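import Cfsg.Agent.LAE60.WStep
import Cfsg.Agent.Modules.Offender

/-!
The layer theorem: in a group without section `S₄`, absence of over-offenders and of cubic
near-offenders passes from `Y` to `V = ⟨Y^F⟩` when `F / Q` has odd order.
-/

set_option autoImplicit false
set_option linter.unusedVariables false
set_option linter.unusedSectionVars false
set_option linter.style.haveILetI false

open Subgroup
open scoped commutatorElement

namespace Cfsg.Agent.LAE60.W

open Cfsg.Agent.Fusion (cj mem_cj conj_mem_cj cj_cj cj_one cj_mono cj_eq_of_mem card_cj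
  cj_eq_iff_mem_normalizer)

variable {G : Type*} [Group G] {Q F T Y V D : Subgroup G}

/-- Elements fixing `v` modulo `Z`. -/
def stab (Z : Subgroup G) (v : G) : Subgroup G where
  carrier := {g | g ∈ normalizer (Z : Set G) ∧ ⁅g, v⁆ ∈ Z}
  one_mem' := ⟨one_mem _, by simp⟩
  mul_mem' := fun {g h} hg hh => ⟨mul_mem hg.1 hh.1, by
    have : ⁅g * h, v⁆ = g * ⁅h, v⁆ * g⁻¹ * ⁅g, v⁆ := by simp only [commutatorElement_def]; group
    rw [this]
    exact mul_mem (conj_mem_of_mem_normalizer hg.1 hh.2) hg.2⟩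
  inv_mem' := fun {g} hg => ⟨inv_mem hg.1, by
    have : ⁅g⁻¹, v⁆ = g⁻¹ * ⁅g, v⁆⁻¹ * g⁻¹⁻¹ := by simp only [commutatorElement_def]; group
    rw [this]
    exact conj_mem_of_mem_normalizer (inv_mem hg.1) (inv_mem hg.2)⟩

theorem cj_elemAb_comm (hV : IsElementaryAbelian 2 V) {v w : G} (hv : v ∈ V) (hw : w ∈ V) :
    v * w = w * v := Modules.elemAb_comm hV hv hw

theorem inv_eq_self (hV : IsElementaryAbelian 2 V) {v : G} (hv : v ∈ V) : v⁻¹ = v :=
  inv_eq_of_mul_eq_one_right (by rw [← sq]; exact hV.2 v hv)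

/-- An element inverted by `b` lies in any subgroup containing `b`, its conjugate and the error. -/
theorem mem_of_pair {S : Subgroup G} {b h : G} (hb : b ∈ S) (hb' : h * b * h⁻¹ ∈ S)
    (hc : b * h * b⁻¹ * h ∈ S) {m : ℕ} (hm : Odd m) (hpow : h ^ m ∈ S) : h ∈ S := by
  have h2 : h * h ∈ S := by
    have e : h * h = h * b * h⁻¹ * b⁻¹ * (b * h * b⁻¹ * h) := by group
    rw [e]
    exact mul_mem (mul_mem hb' (inv_mem hb)) hc
  obtain ⟨j, rfl⟩ := hm
  rw [pow_succ, pow_mul, sq] at hpow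
  have := mul_mem (inv_mem (pow_mem h2 j)) hpow
  rwa [inv_mul_cancel_left] at this

theorem inv_inv_mem {h' : G} (hV : h' ∈ normalizer (centralizer (V : Set G) : Set G)) {b : G}
    (hinv : b * h' * b⁻¹ * h' ∈ centralizer (V : Set G)) :
    b * h'⁻¹ * b⁻¹ * h'⁻¹ ∈ centralizer (V : Set G) := by
  have e : b * h'⁻¹ * b⁻¹ * h'⁻¹ = h' * (b * h' * b⁻¹ * h')⁻¹ * h'⁻¹ := by group
  rw [e]
  exact conj_mem_of_mem_normalizer hV (inv_mem hinv)

/-- An involutory action fixes its commutators. -/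
theorem commute_commutator (hV : IsElementaryAbelian 2 V) {v a : G} (hv : v ∈ V)
    (ha : a ∈ normalizer (V : Set G)) (ha2 : a * a ∈ centralizer (V : Set G)) :
    Commute a ⁅v, a⁆ := by
  have hav : a * v * a⁻¹ ∈ V := conj_mem_of_mem_normalizer ha hv
  have e1 : ⁅v, a⁆ = v * (a * v * a⁻¹) := by
    conv_rhs => arg 2; rw [← inv_eq_self hV hv]
    rw [commutatorElement_def]; group
  have e2 : a * a * v * (a * a)⁻¹ = v := by rw [← ha2 v hv, mul_inv_cancel_right]
  have e3 : a * ⁅v, a⁆ * a⁻¹ = ⁅v, a⁆ := by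
    rw [e1]
    calc a * (v * (a * v * a⁻¹)) * a⁻¹ = (a * v * a⁻¹) * (a * a * v * (a * a)⁻¹) := by group
      _ = v * (a * v * a⁻¹) := by rw [e2, cj_elemAb_comm hV hav hv]
  exact mul_inv_eq_iff_eq_mul.1 e3

variable [Finite G]

/-- Timmesfeld's count: an offender all of whose proper subgroups are no over-offenders is
quadratic. -/
theorem quadratic {T : Subgroup G} (hV : IsElementaryAbelian 2 V) (hTV : T ≤ normalizer (V : Set G))
    (hD : Elem T V D) (hbad : img V D < 2 * img D V)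
    (hsub : ∀ D' ≤ D, D' ≠ D → ¬ D' ≤ centralizer (V : Set G) → 2 * img D' V ≤ img V D') :
    ∀ v ∈ V, ∀ d ∈ D, ∀ e ∈ D, ⁅⁅v, d⁆, e⁆ = 1 := by
  classical
  intro v hv
  have hDV : D ≤ normalizer (V : Set G) := hD.le.trans hTV
  set A := D ⊓ centralizer (Modules.elemCommutator D v : Set G) with hA
  have hcomm : ∀ d ∈ D, ∀ e ∈ D, ∀ w ∈ V, ⁅⁅w, d⁆, e⁆ = ⁅⁅w, e⁆, d⁆ := fun d hd e he w hw =>
    Modules.mul_comm_of_conj hV.1 hDV (commutator_le.2 hD.comm) hd he hw
  have hmemA : ∀ s, s ∈ A ↔ s ∈ D ∧ ∀ e ∈ D, ⁅⁅v, e⁆, s⁆ = 1 := by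
    intro s
    refine ⟨fun h => ⟨h.1, fun e he => commutatorElement_eq_one_iff_mul_comm.2
      (h.2 _ (Modules.mem_elemCommutator v he))⟩, fun h => ⟨h.1, ?_⟩⟩
    rw [Modules.elemCommutator, centralizer_closure]
    rintro _ ⟨e, he, rfl⟩
    exact commutatorElement_eq_one_iff_mul_comm.1 (h.2 e he)
  by_cases hAD : A = D
  · intro d hd e he
    exact ((hmemA e).1 (hAD.symm ▸ he)).2 d hd
  set Vs := centralizer (A : Set G) ⊓ V with hVs
  set C := centralizer (D : Set G)
  have hmem : ∀ a ∈ D, ⁅v, a⁆ ∈ Vs := fun a ha =>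
    ⟨fun s hs => (commutatorElement_eq_one_iff_mul_comm.1 (((hmemA s).1 hs).2 a ha)).symm,
      commutator_mem_right (hDV ha) hv⟩
  have key : ∀ a ∈ D, ∀ a' ∈ D, ⁅v, a⁆⁻¹ * ⁅v, a'⁆ ∈ C ↔ a⁻¹ * a' ∈ A := by
    intro a ha a' ha'
    have hs : a⁻¹ * a' ∈ D := mul_mem (inv_mem ha) ha'
    have e : ⁅v, a⁆⁻¹ * ⁅v, a'⁆ = a * ⁅v, a⁻¹ * a'⁆ * a⁻¹ := by
      simp only [commutatorElement_def]; group
    have hiff : ⁅v, a⁻¹ * a'⁆ ∈ C ↔ a⁻¹ * a' ∈ A := by
      rw [hmemA]
      constructor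
      · refine fun h => ⟨hs, fun e he => ?_⟩
        rw [hcomm e he _ hs v hv]
        exact commutatorElement_eq_one_iff_mul_comm.2 (h e he).symm
      · rintro ⟨-, h⟩ e he
        have := h e he
        rw [hcomm e he _ hs v hv] at this
        exact (commutatorElement_eq_one_iff_mul_comm.1 this).symm
    have hCn : ∀ {a x : G}, a ∈ D → x ∈ C → a * x * a⁻¹ = x := fun ha hx =>
      mul_inv_eq_iff_eq_mul.2 (hx _ ha)
    rw [e, ← hiff]
    constructor
    · intro h
      have h1 := hCn (inv_mem ha) h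
      have e2 : a⁻¹ * (a * ⁅v, a⁻¹ * a'⁆ * a⁻¹) * a⁻¹⁻¹ = ⁅v, a⁻¹ * a'⁆ := by group
      rw [e2] at h1
      rwa [h1]
    · intro h; rwa [hCn ha h]
  let f : ↥D ⧸ A.subgroupOf D → ↥Vs ⧸ C.subgroupOf Vs :=
    Quotient.map' (fun a : ↥D => ⟨⁅v, (a : G)⁆, hmem a a.2⟩) fun a a' h => by
      rw [QuotientGroup.leftRel_apply, mem_subgroupOf] at h ⊢
      exact (key a a.2 a' a'.2).2 h
  have hf : Function.Injective f := by
    intro x y
    induction x using QuotientGroup.induction_on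
    induction y using QuotientGroup.induction_on
    intro hxy
    have := (QuotientGroup.eq (s := C.subgroupOf Vs)).1 hxy
    rw [mem_subgroupOf] at this
    refine QuotientGroup.eq.2 (mem_subgroupOf.2 ?_)
    exact (key _ (SetLike.coe_mem _) _ (SetLike.coe_mem _)).1 this
  have hle : A.relIndex D ≤ C.relIndex Vs := Nat.card_le_card_of_injective f hf
  have hVsplit : C.relIndex Vs * img V A = img V D := by
    have h := relIndex_inf_mul_relIndex C (centralizer (A : Set G)) V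
    rw [inf_of_le_left (cen_antitone (inf_le_left : A ≤ D))] at h
    exact h
  have hDsplit : img A V * A.relIndex D = img D V := by
    have h := relIndex_inf_mul_relIndex (centralizer (V : Set G)) A D
    rw [inf_of_le_left (inf_le_left : A ≤ D)] at h
    refine h.trans ?_
    rw [← inf_relIndex_right, img, ← inf_relIndex_right (centralizer (V : Set G)) D]
    congr 1
    refine le_antisymm (inf_le_inf_right _ inf_le_left) fun x hx => ⟨⟨hx.1, ?_⟩, hx.2⟩
    exact (hmemA x).2 ⟨hx.2, fun e he => commutatorElement_eq_one_iff_mul_comm.2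
      (hx.1 _ (commutator_mem_right (hDV he) hv))⟩
  have hApos : 0 < A.relIndex D := Nat.pos_of_ne_zero index_ne_zero_of_finite
  by_cases hAV : A ≤ centralizer (V : Set G)
  swap
  · have := hsub A inf_le_left hAD hAV
    have h3 : A.relIndex D * (2 * img A V) ≤ C.relIndex Vs * img V A := Nat.mul_le_mul hle this
    nlinarith
  have hA1 : img A V = 1 := img_eq_one.2 hAV
  have hV1 : img V A = 1 := img_eq_one.2 (mem_centralizer_comm hAV)
  rw [hA1, one_mul] at hDsplit
  rw [hV1, mul_one] at hVsplit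
  obtain ⟨i, hi⟩ := isTwoPow_img_of_elem hD hDV
  obtain ⟨j, hj⟩ := isTwoPow_img_of_isElementaryAbelian (D := D) hV
  have heq : A.relIndex D = C.relIndex Vs := by
    rw [hDsplit, hVsplit, hi, hj]
    rw [hi, hj] at hbad
    rw [hVsplit, hj] at hle
    rw [hDsplit, hi] at hle
    have h1 : i ≤ j := (Nat.pow_le_pow_iff_right (by norm_num)).1 hle
    have h2 : j < i + 1 := (Nat.pow_lt_pow_iff_right (by norm_num : 1 < 2)).1 (by
      rw [pow_succ]; omega)
    rw [show i = j by omega]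
  haveI : Fintype (↥D ⧸ A.subgroupOf D) := Fintype.ofFinite _
  haveI : Fintype (↥Vs ⧸ C.subgroupOf Vs) := Fintype.ofFinite _
  have hb : Function.Bijective f := (Fintype.bijective_iff_injective_and_card f).2
    ⟨hf, by rw [← Nat.card_eq_fintype_card, ← Nat.card_eq_fintype_card]; exact heq⟩
  have hvVs : v ∈ Vs := ⟨mem_centralizer_comm hAV hv, hv⟩
  obtain ⟨q, hq⟩ := hb.2 (QuotientGroup.mk ⟨v, hvVs⟩)
  induction q using QuotientGroup.induction_on with
  | _ a =>
    have hq' := mem_subgroupOf.1 ((QuotientGroup.eq (s := C.subgroupOf Vs)).1 hq)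
    push_cast at hq'
    have ha := a.2
    have h1 : Commute (a : G) ⁅v, (a : G)⁆ := commute_commutator hV hv (hDV ha) (hD.sq _ ha)
    have h2 : Commute (a : G) (⁅v, (a : G)⁆⁻¹ * v) := hq' _ ha
    have h3 : Commute (a : G) v := by
      have := h1.mul_right h2
      rwa [mul_inv_cancel_left] at this
    have h4 : ⁅v, (a : G)⁆ = 1 := commutatorElement_eq_one_iff_mul_comm.2 h3.symm.eq
    rw [h4, inv_one, one_mul] at hq'
    intro d hd e he
    rw [commutatorElement_eq_one_iff_mul_comm.2 (hq' d hd).symm]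
    simp

theorem pow_two_eq_of_lt {a b i j : ℕ} (ha : a = 2 ^ i) (hb : b = 2 ^ j) (h1 : a ≤ b)
    (h2 : b < 2 * a) : a = b := by
  subst ha hb
  have h1' : i ≤ j := (Nat.pow_le_pow_iff_right (by norm_num)).1 h1
  have h2' : j < i + 1 := (Nat.pow_lt_pow_iff_right (by norm_num : 1 < 2)).1 (by
    rw [pow_succ]; omega)
  rw [show i = j by omega]

/-! ### Consequences of a step -/

namespace Step

variable {Pr : Subgroup G → Prop} {Ym D₀ : Subgroup G} {b h : G} {r k : ℕ}

theorem odd_pow (S : Step Pr Q F D V Ym D₀ b h r k) : Odd (r ^ k) :=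
  (S.prime.odd_of_ne_two S.ne_two).pow

theorem normalizes (S : Step Pr Q F D V Ym D₀ b h r k) (L : Layer Q F (Q ⊔ D) Y V)
    (hcomm : ∀ d ∈ D, ∀ e ∈ D, ⁅d, e⁆ ∈ Q) :
    F ≤ normalizer ((Q ⊔ D₀ : Subgroup G) : Set G) ∧
      Q ⊔ D ≤ normalizer ((Q ⊔ D₀ : Subgroup G) : Set G) := by
  have key : ∀ g : G, g ∈ normalizer (Q : Set G) → (∀ d ∈ D₀, ⁅g, d⁆ ∈ Q) →
      g ∈ normalizer ((Q ⊔ D₀ : Subgroup G) : Set G) := by
    intro g hg hgd
    rw [← cj_eq_iff_mem_normalizer]
    refine eq_of_le_of_card_ge ?_ (card_cj _ _).ge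
    rw [cj, Subgroup.map_sup]
    refine sup_le (le_sup_of_le_left (cj_eq_of_mem hg).le) ?_
    rintro _ ⟨d, hd, rfl⟩
    have e : (MulAut.conj g).toMonoidHom d = ⁅g, d⁆ * d := by simp [commutatorElement_def]
    rw [e]
    exact mul_mem (mem_sup_left (hgd d hd)) (mem_sup_right hd)
  refine ⟨fun f hf => key f (L.FQ hf) (S.comm f hf), sup_le (le_sup_left.trans le_normalizer) ?_⟩
  exact fun d hd => key d (L.TQ (mem_sup_right hd)) fun e he => hcomm d hd e (S.le₀ he)

theorem not_fixes (S : Step Pr Q F D V Ym D₀ b h r k) (L : Layer Q F (Q ⊔ D) Y V) :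
    ∃ x ∈ Ym, ¬ Commute b (h * x * h⁻¹) := by
  by_contra hcon
  push Not at hcon
  apply S.hY
  have hmem : h⁻¹ ∈ centralizer (Ym : Set G) := by
    refine mem_of_pair (b := b) (S.cen S.bD) ?_ ?_ (m := r ^ k) S.odd_pow ?_
    · intro x hx
      have := (hcon x hx).eq
      calc x * (h⁻¹ * b * h⁻¹⁻¹) = h⁻¹ * ((h * x * h⁻¹) * b) * h := by group
        _ = h⁻¹ * (b * (h * x * h⁻¹)) * h := by rw [this]
        _ = _ := by group
    · exact cen_antitone S.le
        (inv_inv_mem (le_normalizer_centralizer (le_refl _) (L.FV S.hF)) S.inv)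
    · rw [inv_pow, S.pow, inv_one]; exact one_mem _
  have := centralizer_le_normalizer' Ym hmem
  simpa using inv_mem this

theorem img_eq_two_mul (S : Step Pr Q F D V Ym D₀ b h r k)
    (hcen : D ⊓ centralizer (V : Set G) ≤ Q) : img D V = 2 * img D₀ V := by
  have h := relIndex_inf_mul_relIndex (centralizer (V : Set G)) D₀ D
  rw [inf_of_le_left S.le₀] at h
  have h2 : D₀.relIndex D = 2 := relIndex_eq_two_iff_exists_notMem_and'.2
    ⟨b, S.bD, S.bD₀, fun d hd => (S.dec d hd).symm⟩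
  rw [h2] at h
  have h3 : (centralizer (V : Set G) ⊓ D₀).relIndex D = img D V := by
    rw [← inf_relIndex_right, img, ← inf_relIndex_right (centralizer (V : Set G)) D]
    congr 1
    refine le_antisymm (inf_le_inf_right _ inf_le_left) fun x hx => ⟨⟨hx.1, ?_⟩, hx.2⟩
    exact S.DC ⟨hx.2, hcen ⟨hx.2, hx.1⟩⟩
  rw [← h3, ← h, img, mul_comm]

end Step

/-- The part of the layer theorem on over-offenders, for one minimal `D`. -/
theorem of_core (hG : ¬ Cfsg.Involves (Equiv.Perm (Fin 4)) G) (L : Layer Q F (Q ⊔ D) Y V)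
    (hcen : (F ⊔ (Q ⊔ D)) ⊓ centralizer (V : Set G) ≤ Q) (hY : OF (Q ⊔ D) Y)
    (hind : ∀ F₁ E V₁ : Subgroup G, Layer Q F₁ (Q ⊔ D) E V₁ → Q.relIndex F₁ < Q.relIndex F →
      OF (Q ⊔ D) E → OF (Q ⊔ D) V₁)
    (hD : Elem (Q ⊔ D) V D) (hmov : ¬ D ≤ centralizer (V : Set G))
    (hsub : ∀ D' ≤ D, D' ≠ D → ¬ D' ≤ centralizer (V : Set G) → 2 * img D' V ≤ img V D') :
    2 * img D V ≤ img V D := by
  classical
  by_contra hbad
  push Not at hbad
  obtain ⟨hsq, hcomm, hDC⟩ := hD.normal_data hcen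
  have hP : ∀ E ≤ V, D ≤ normalizer (E : Set G) → OF (Q ⊔ D) E → D ≤ centralizer (E : Set G) := by
    intro E hE _ hOF
    by_contra hm
    have h1 := img_piece hE (inf_le_left : D ⊓ centralizer (E : Set G) ≤ D) inf_le_right
    have h2 := img_mul (D := D) hE
    set D₁ := D ⊓ centralizer (E : Set G)
    have h3 := hOF D (hD.mono hE le_rfl hD.le) hm
    have h4 : img D₁ V ≤ img V D₁ := by
      by_cases h : D₁ ≤ centralizer (V : Set G)
      · rw [img_eq_one.2 h]; exact img_pos V D₁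
      · exact le_trans (by omega) (hsub D₁ inf_le_left (fun e => hm (e ▸ inf_le_right)) h)
    have h5 : 2 * img D E * img D₁ V ≤ img E D * img V D₁ := Nat.mul_le_mul h3 h4
    nlinarith
  obtain ⟨Ym, D₀, b, h, r, k, S⟩ := exists_step L hD hmov hcen (OF (Q ⊔ D)) hY
    (fun f hf hfT E hE => by
      have := (of_map_iff (f := (MulAut.conj f).toMonoidHom) (MulEquiv.injective _)).2 hE
      rwa [show Subgroup.map _ (Q ⊔ D) = Q ⊔ D from hfT] at this) hind hP
  obtain ⟨hFQ2, hTQ2⟩ := S.normalizes L hcomm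
  set T := Q ⊔ D with hT
  set Q2 := Q ⊔ D₀ with hQ2
  have hQ2T : Q2 ≤ T := sup_le_sup_left S.le₀ Q
  have hDT : D ≤ T := le_sup_right
  have hD0Q2 : D₀ ≤ Q2 := le_sup_right
  have hbT : b ∈ T := hDT S.bD
  have hbV : b ∈ normalizer (V : Set G) := L.TV hbT
  -- conjugates of `Ym`
  have hconjOF : ∀ f ∈ F, OF Q2 (cj f Ym) := by
    intro f hf
    have := (of_map_iff (f := (MulAut.conj f).toMonoidHom) (MulEquiv.injective _)).2
      (S.pr.mono hQ2T)
    rwa [show Subgroup.map _ Q2 = Q2 from cj_eq_of_mem (hFQ2 hf)] at this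
  have hOF2 : OF Q2 V := OF.iSup S.gen fun f => hconjOF f f.2
  have hel₀ : Elem Q2 V D₀ := hD.mono le_rfl S.le₀ hD0Q2
  have htwo := S.img_eq_two_mul hDC
  have hDV : D ≤ normalizer (V : Set G) := hDT.trans L.TV
  set W := V ⊓ centralizer (D : Set G) with hW
  have hWV : W ≤ V := inf_le_left
  have hYW : Ym ≤ W := le_inf S.le (mem_centralizer_comm S.cen)
  have hbW : ∀ w ∈ W, Commute b w := fun w hw => hw.2 b S.bD
  have hWrel : W.relIndex V = img V D := by
    rw [img, ← inf_relIndex_right (centralizer (D : Set G)), inf_comm]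
  -- the key facts for an inverted element of odd order
  have hfix : ∀ g ∈ F, b * g * b⁻¹ * g ∈ centralizer (V : Set G) → ∀ m : ℕ, Odd m → g ^ m = 1 →
      g ∈ centralizer ((W ⊓ cj g W : Subgroup G) : Set G) := by
    intro g hg hinv m hm hgm
    refine mem_of_pair (fun z hz => (hbW z hz.1).symm.eq) ?_
      (cen_antitone (inf_le_left.trans hWV) hinv) hm (by rw [hgm]; exact one_mem _)
    intro z hz
    have := (hbW _ (mem_cj.1 hz.2)).eq
    calc z * (g * b * g⁻¹) = g * ((g⁻¹ * z * g) * b) * g⁻¹ := by group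
      _ = g * (b * (g⁻¹ * z * g)) * g⁻¹ := by rw [this]
      _ = _ := by group
  have hhV : h ∈ normalizer (V : Set G) := L.FV S.hF
  have hVh : cj h V = V := cj_eq_of_mem hhV
  have hVn : ∀ A : Subgroup G, A ≤ V → V ≤ normalizer (A : Set G) := fun A hA v hv =>
    centralizer_le_normalizer' _ (cen_antitone hA fun w hw => cj_elemAb_comm L.elem hw hv)
  have hVc : ∀ A : Subgroup G, ∀ v ∈ V, ∀ w ∈ V, ⁅v, w⁆ ∈ A := fun A v hv w hw => by
    rw [commutatorElement_eq_one_iff_mul_comm.2 (cj_elemAb_comm L.elem hv hw)]; exact one_mem A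
  have hVsq : ∀ A : Subgroup G, ∀ v ∈ V, v * v ∈ A := fun A v hv => by
    rw [← sq, L.elem.2 v hv]; exact one_mem A
  -- reduction: it is enough that `g ^ 3` centralises `V`
  have hfinish : ∀ g ∈ F, b * g * b⁻¹ * g ∈ centralizer (V : Set G) →
      g ^ 3 ∈ centralizer (V : Set G) → g ∈ centralizer (V : Set G) := by
    intro g hg hinv h3
    have hbot : ∀ x : G, x ∈ normalizer ((⊥ : Subgroup G) : Set G) := fun x => by
      rw [normalizer_eq_top]; exact mem_top x
    have := triv_of_free hG (B := ⊥) bot_le (fun v _ => hbot v) (hVsq ⊥) (hVc ⊥)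
      (a := b) (x := g) ⟨hbV, hbot b⟩ ⟨L.FV hg, hbot g⟩
      (centralizer_le_triv bot_le (hD.sq b S.bD)) (centralizer_le_triv bot_le hinv)
      (centralizer_le_triv bot_le h3)
    exact mem_centralizer_iff_commutator.2 fun v hv => mem_bot.1 (this.2 v hv)
  have hnotC : h ∉ centralizer (V : Set G) := fun hc =>
    S.hY (centralizer_le_normalizer' Ym (cen_antitone S.le hc))
  by_cases hD0 : D₀ ≤ centralizer (V : Set G)
  · -- `b` acts as a transvection
    rw [img_eq_one.2 hD0] at htwo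
    obtain ⟨j, hj⟩ := isTwoPow_img_of_isElementaryAbelian (D := D) L.elem
    have hle : img V D ≤ 2 := by
      rw [hj] at hbad ⊢
      rw [htwo] at hbad
      have : j < 2 := (Nat.pow_lt_pow_iff_right (by norm_num : 1 < 2)).1 (by simpa using hbad)
      interval_cases j <;> norm_num
    have hle' : (cj h W).relIndex V ≤ 2 := by
      have e : (cj h W).relIndex (cj h V) = W.relIndex V :=
        relIndex_map_map_of_injective W V (MulEquiv.injective _)
      rw [hVh] at e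
      rw [e, hWrel]; exact hle
    set Z := W ⊓ cj h W with hZ
    have hZV : Z ≤ V := inf_le_left.trans hWV
    have h4 : Z.relIndex V ≤ 4 :=
      le_trans (relIndex_inf_le) (Nat.mul_le_mul (hWrel ▸ hle) hle')
    have hhZ := hfix h S.hF S.inv _ S.odd_pow S.pow
    have h6 : h ^ 6 ∈ triv Z V := pow_six_mem_triv (hVn Z hZV) h4
      ⟨hhV, centralizer_le_normalizer' _ hhZ⟩
    have hbot : ∀ x : G, x ∈ normalizer ((⊥ : Subgroup G) : Set G) := fun x => by
      rw [normalizer_eq_top]; exact mem_top x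
    have h3 : h ^ 3 ∈ triv Z V := by
      obtain ⟨j, hj⟩ := S.odd_pow
      have e : h ^ 3 = (h ^ (r ^ k)) ^ 3 * ((h ^ 6) ^ j)⁻¹ := by
        rw [eq_mul_inv_iff_mul_eq, ← pow_mul, ← pow_mul, ← pow_add, hj]; ring_nf
      rw [e, S.pow, one_pow, one_mul]
      exact inv_mem (pow_mem h6 j)
    have := triv_of_chain hZV (fun v _ => hbot v) (hVsq ⊥) (hbot (h ^ 3)) h3
      (centralizer_le_triv bot_le (pow_mem hhZ 3)) S.odd_pow
      (by rw [← pow_mul, mul_comm, pow_mul, S.pow, one_pow]; exact one_mem _)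
    exact hnotC (hfinish h S.hF S.inv
      (mem_centralizer_iff_commutator.2 fun v hv => mem_bot.1 (this.2 v hv)))
  -- the general case
  have hquad := quadratic L.elem L.TV hD hbad hsub
  have hge := hOF2 D₀ hel₀ hD0
  have hVD0 : img V D₀ = img V D := by
    obtain ⟨i, hi⟩ := isTwoPow_img_of_elem hD hDV
    obtain ⟨j, hj⟩ := isTwoPow_img_of_isElementaryAbelian (D := D₀) L.elem
    obtain ⟨j', hj'⟩ := isTwoPow_img_of_isElementaryAbelian (D := D) L.elem
    have h1 : img V D₀ ≤ img V D := img_mono le_rfl S.le₀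
    have e1 : img D V = img V D₀ := pow_two_eq_of_lt hi hj (by omega) (by omega)
    have e2 : img D V = img V D := pow_two_eq_of_lt hi hj' (by omega) hbad
    omega
  have hbD : img V D = 2 * img D₀ V := by
    obtain ⟨i, hi⟩ := isTwoPow_img_of_elem hD hDV
    obtain ⟨j', hj'⟩ := isTwoPow_img_of_isElementaryAbelian (D := D) L.elem
    rw [← htwo]
    exact (pow_two_eq_of_lt hi hj' (by omega) hbad).symm
  have hC0 : ∀ v ∈ V, v ∈ centralizer (D₀ : Set G) → v ∈ W := by
    intro v hv hc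
    have h := relIndex_inf_mul_relIndex (centralizer (D : Set G)) (centralizer (D₀ : Set G)) V
    rw [inf_of_le_left (cen_antitone S.le₀)] at h
    change _ * img V D₀ = img V D at h
    rw [← hVD0] at h
    have h1 := Nat.eq_of_mul_eq_mul_right (img_pos V D₀)
      (h.trans (one_mul (img V D₀)).symm)
    exact ⟨hv, relIndex_eq_one.1 h1 ⟨hc, hv⟩⟩
  have hVDW : ∀ v ∈ V, ∀ d ∈ D, ⁅v, d⁆ ∈ W := fun v hv d hd =>
    ⟨commutator_mem_right (hDV hd) hv,
      fun e he => (commutatorElement_eq_one_iff_mul_comm.1 (hquad v hv d hd e he)).symm⟩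
  -- facts for a conjugate moved by `D₀`
  have hmoved : ∀ g ∈ F, b * g * b⁻¹ * g ∈ centralizer (V : Set G) → ∀ m : ℕ, Odd m → g ^ m = 1 →
      ¬ D₀ ≤ centralizer (cj g Ym : Set G) →
      (∀ v ∈ V, ∃ e ∈ cj g Ym, e⁻¹ * v ∈ W) ∧ cj g Ym ≤ cj g W ∧
      (∀ v ∈ cj g W, ∃ e ∈ cj g Ym, e⁻¹ * v ∈ W ⊓ cj g W) ∧
      (∀ w ∈ W, ∃ y ∈ Ym, y⁻¹ * w ∈ W ⊓ cj g W) ∧ (W ⊓ cj g W).relIndex W = img V D := by
    intro g hg hinv m hm hgm hmv
    set E := cj g Ym with hE
    have hgV : cj g V = V := cj_eq_of_mem (L.FV hg)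
    have hEW : E ≤ cj g W := cj_mono g hYW
    have hgWV : cj g W ≤ V := (cj_mono g hWV).trans hgV.le
    have hEV : E ≤ V := hEW.trans hgWV
    have h1 := img_piece hEV (inf_le_left : D₀ ⊓ centralizer (E : Set G) ≤ D₀) inf_le_right
    have h2 := img_mul (D := D₀) hEV
    set D₁ := D₀ ⊓ centralizer (E : Set G)
    have h3 : 2 * img D₀ E ≤ img E D₀ := hconjOF g hg D₀ (hel₀.mono hEV le_rfl hD0Q2) hmv
    have hD₁ : D₁ ≤ centralizer (V : Set G) := by
      by_contra hn
      have h4 := hOF2 D₁ (hel₀.mono le_rfl inf_le_left (inf_le_left.trans hD0Q2)) hn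
      have h5 : 2 * img D₀ E * (2 * img D₁ V) ≤ img E D₀ * img V D₁ := Nat.mul_le_mul h3 h4
      nlinarith [img_pos D₁ V, img_pos D₀ E]
    rw [img_eq_one.2 hD₁, one_mul] at h2
    have hEeq : img E D₀ = img V D₀ := le_antisymm (img_mono hEV le_rfl) (by omega)
    have hdecV : ∀ v ∈ V, ∃ e ∈ E, e⁻¹ * v ∈ W := fun v hv => by
      obtain ⟨e, he, hc, hv'⟩ := exists_mul_of_img_eq hEV hEeq hv
      exact ⟨e, he, hC0 _ hv' hc⟩
    have hdec' : ∀ v ∈ cj g W, ∃ e ∈ E, e⁻¹ * v ∈ W ⊓ cj g W := fun v hv => by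
      obtain ⟨e, he, hw⟩ := hdecV v (hgWV hv)
      exact ⟨e, he, hw, (cj g W).mul_mem ((cj g W).inv_mem (hEW he)) hv⟩
    have hgZ := hfix g hg hinv m hm hgm
    have hW : ∀ w ∈ W, ∃ y ∈ Ym, y⁻¹ * w ∈ W ⊓ cj g W := by
      intro w hw
      obtain ⟨e, ⟨y, hy, rfl⟩, hz⟩ := hdec' (g * w * g⁻¹) (conj_mem_cj.2 hw)
      refine ⟨y, hy, ?_⟩
      have hz' := hgZ _ hz
      have e1 : ((MulAut.conj g).toMonoidHom y)⁻¹ * (g * w * g⁻¹) = g * (y⁻¹ * w) * g⁻¹ := by
        simp [mul_assoc]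
      rw [e1] at hz hz'
      have : g * (y⁻¹ * w) * g⁻¹ = y⁻¹ * w := by
        have h' : g * (y⁻¹ * w) = (y⁻¹ * w) * g := mul_left_cancel (a := g) (by
          calc g * (g * (y⁻¹ * w)) = g * (g * (y⁻¹ * w) * g⁻¹) * g := by group
            _ = g * (y⁻¹ * w) * g⁻¹ * g * g := by rw [← hz']
            _ = g * (y⁻¹ * w * g) := by group)
        rw [h', mul_inv_cancel_right]
      rwa [this] at hz
    refine ⟨hdecV, hEW, hdec', hW, ?_⟩
    have hA : img V D ≤ W.relIndex (cj g W) := by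
      rw [← hVD0, ← hEeq, img]
      refine le_trans ?_ (relIndex_le_of_le_right hEW index_ne_zero_of_finite)
      refine relIndex_le_of_le_left ?_ index_ne_zero_of_finite
      exact fun x hx d hd => hx.2 d (S.le₀ hd)
    have hB : W.relIndex (cj g W) ≤ img V D :=
      hWrel ▸ relIndex_le_of_le_right hgWV index_ne_zero_of_finite
    have hC : (W ⊓ cj g W).relIndex W = (W ⊓ cj g W).relIndex (cj g W) := by
      have hn : g ∈ normalizer ((W ⊓ cj g W : Subgroup G) : Set G) :=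
        centralizer_le_normalizer' _ hgZ
      have e : (cj g (W ⊓ cj g W)).relIndex (cj g W) = (W ⊓ cj g W).relIndex W :=
        relIndex_map_map_of_injective _ _ (MulEquiv.injective _)
      rw [cj_eq_of_mem hn] at e
      exact e.symm
    rw [hC, inf_relIndex_right]
    omega
  have hmv_of : ∀ g ∈ F, b * g * b⁻¹ * g ∈ centralizer (V : Set G) → ∀ m : ℕ, Odd m → g ^ m = 1 →
      D₀ ≤ centralizer (cj g Ym : Set G) → g ∈ centralizer (Ym : Set G) := by
    intro g hg hinv m hm hgm hc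
    have hmem : g⁻¹ ∈ centralizer (Ym : Set G) := by
      refine mem_of_pair (b := b) (S.cen S.bD) ?_ ?_ hm (by
        rw [inv_pow, hgm, inv_one]
        exact one_mem _)
      · intro x hx
        have hxW : g * x * g⁻¹ ∈ W := hC0 _ (conj_mem_of_mem_normalizer (L.FV hg) (S.le hx))
          fun d hd => (hc hd _ (conj_mem_cj.2 hx)).symm
        have := (hbW _ hxW).eq
        calc x * (g⁻¹ * b * g⁻¹⁻¹) = g⁻¹ * ((g * x * g⁻¹) * b) * g := by group
          _ = g⁻¹ * (b * (g * x * g⁻¹)) * g := by rw [this]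
          _ = _ := by group
      · exact cen_antitone S.le
          (inv_inv_mem (le_normalizer_centralizer (le_refl _) (L.FV hg)) hinv)
    simpa using inv_mem hmem
  have hmv : ¬ D₀ ≤ centralizer (cj h Ym : Set G) := fun hc =>
    S.hY (centralizer_le_normalizer' _ (hmv_of h S.hF S.inv _ S.odd_pow S.pow hc))
  obtain ⟨hV1, -, -, hW1, -⟩ := hmoved h S.hF S.inv _ S.odd_pow S.pow hmv
  -- a power of prime order
  haveI : DecidablePred fun i => h ^ r ^ i ∈ centralizer (V : Set G) := Classical.decPred _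
  have hex : ∃ i, h ^ r ^ i ∈ centralizer (V : Set G) := ⟨k, by rw [S.pow]; exact one_mem _⟩
  obtain ⟨i, hi⟩ : ∃ i, Nat.find hex = i + 1 := by
    rcases hf : Nat.find hex with _ | i
    · have := Nat.find_spec hex
      rw [hf, pow_zero, pow_one] at this
      exact absurd this hnotC
    · exact ⟨i, rfl⟩
  set g := h ^ r ^ i with hgdef
  have hgF : g ∈ F := pow_mem S.hF _
  have hgC : g ∉ centralizer (V : Set G) := Nat.find_min hex (by omega)
  have hgr : g ^ r ∈ centralizer (V : Set G) := by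
    rw [hgdef, ← pow_mul, ← pow_succ, ← hi]; exact Nat.find_spec hex
  have hgm : g ^ r ^ k = 1 := by
    rw [hgdef, ← pow_mul, mul_comm, pow_mul, S.pow, one_pow]
  have hginv : b * g * b⁻¹ * g ∈ centralizer (V : Set G) := by
    have hn : h⁻¹ ∈ normalizer (centralizer (V : Set G) : Set G) :=
      inv_mem (le_normalizer_centralizer (le_refl _) hhV)
    have h1 : h * (b * h * b⁻¹) ∈ centralizer (V : Set G) := by
      simpa [mul_assoc] using conj_mem_of_mem_normalizer (inv_mem hn) S.inv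
    have h2 := pow_mul_mem hn h1 (r ^ i)
    rw [inv_mul_cancel_left, conj_pow, inv_pow, inv_inv] at h2
    simpa [mul_assoc, hgdef] using conj_mem_of_mem_normalizer (pow_mem hn (r ^ i)) h2
  have hgv : ¬ D₀ ≤ centralizer (cj g Ym : Set G) := by
    intro hc
    apply hgC
    have hgY := hmv_of g hgF hginv _ S.odd_pow hgm hc
    have hgZ : g ∈ centralizer ((W ⊓ cj h W : Subgroup G) : Set G) :=
      pow_mem (hfix h S.hF S.inv _ S.odd_pow S.pow) _
    have hgh : Commute g h := (Commute.refl h).pow_left _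
    refine mem_centralizer_iff.2 fun v hv => ?_
    obtain ⟨e, ⟨y, hy, rfl⟩, hw⟩ := hV1 v hv
    obtain ⟨y', hy', hz⟩ := hW1 _ hw
    have c1 : Commute g y := (hgY y hy).symm
    have c2 : Commute g ((MulAut.conj h).toMonoidHom y) := by
      simpa using (hgh.mul_right c1).mul_right hgh.inv_right
    have c3 : Commute g (((MulAut.conj h).toMonoidHom y)⁻¹ * v) := by
      have := (show Commute g y' from (hgY y' hy').symm).mul_right
        (show Commute g _ from (hgZ _ hz).symm)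
      rwa [mul_inv_cancel_left] at this
    have := c2.mul_right c3
    rw [mul_inv_cancel_left] at this
    exact this.symm.eq
  obtain ⟨hV2, hEW2, hW'2, hW2, hZW⟩ := hmoved g hgF hginv _ S.odd_pow hgm hgv
  set E := cj g Ym with hE
  set W' := cj g W with hW'
  set Z := W ⊓ W' with hZ
  have hgV : g ∈ normalizer (V : Set G) := L.FV hgF
  have hgW' : ∀ {x : G}, x ∈ W → g * x * g⁻¹ ∈ W' := fun hx => conj_mem_cj.2 hx
  have hZV : Z ≤ V := inf_le_left.trans hWV
  have hgZ := hfix g hgF hginv _ S.odd_pow hgm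
  have hgnZ : g ∈ normalizer (Z : Set G) := centralizer_le_normalizer' _ hgZ
  have hbZ : b ∈ centralizer (Z : Set G) := fun z hz => ((hbW z hz.1).symm).eq
  have hWVn : ∀ x ∈ W', x ∈ V := fun x hx => (cj_eq_of_mem hgV).le (cj_mono g hWV hx)
  -- fixed points of `g` on `V / Z`
  have hfpV : ∀ v ∈ V, ⁅g, v⁆ ∈ Z → v ∈ Z := by
    have hfW : ∀ x ∈ W, ⁅g, x⁆ ∈ Z → x ∈ Z := fun x hx hgx => ⟨hx, by
      have h1 := hgW' hx
      have e : x = ⁅g, x⁆⁻¹ * (g * x * g⁻¹) := by rw [commutatorElement_def]; group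
      rw [e]
      exact W'.mul_mem (W'.inv_mem hgx.2) h1⟩
    have hfW' : ∀ x ∈ W', ⁅b, x⁆ ∈ Z → x ∈ Z := by
      intro x hx hbx
      have hgx : g ∈ stab Z x := by
        refine mem_of_pair (b := b) ⟨centralizer_le_normalizer' _ hbZ, hbx⟩ ?_ ?_ S.odd_pow
          (by rw [hgm]; exact one_mem _)
        · have hc : Commute (g * b * g⁻¹) x := by
            have := (hbW _ (mem_cj.1 hx)).eq
            show g * b * g⁻¹ * x = x * (g * b * g⁻¹)
            calc g * b * g⁻¹ * x = g * (b * (g⁻¹ * x * g)) * g⁻¹ := by group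
              _ = g * ((g⁻¹ * x * g) * b) * g⁻¹ := by rw [this]
              _ = _ := by group
          refine ⟨mul_mem (mul_mem hgnZ (centralizer_le_normalizer' _ hbZ)) (inv_mem hgnZ), ?_⟩
          rw [commutatorElement_eq_one_iff_mul_comm.2 hc.eq]; exact one_mem Z
        · refine ⟨centralizer_le_normalizer' _ (cen_antitone hZV hginv), ?_⟩
          rw [mem_centralizer_iff_commutator.1 hginv x (hWVn x hx)]; exact one_mem Z
      refine ⟨?_, hx⟩
      have h1 := conj_mem_of_mem_normalizer (inv_mem hgnZ) hgx.2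
      have e : x = (g⁻¹ * ⁅g, x⁆ * g⁻¹⁻¹) * (g⁻¹ * x * g) := by
        rw [commutatorElement_def]; group
      rw [e]
      exact W.mul_mem h1.1 (mem_cj.1 hx)
    intro v hv hgv'
    have hgs : g ∈ stab Z v := ⟨hgnZ, hgv'⟩
    have hbgs : b⁻¹ * g * b ∈ stab Z v := by
      have e : b⁻¹ * g * b = (b * b)⁻¹ * ((b * g * b⁻¹ * g) * g⁻¹) * (b * b) := by group
      have hc : ∀ c ∈ centralizer (V : Set G), c ∈ stab Z v := fun c hc =>
        ⟨centralizer_le_normalizer' _ (cen_antitone hZV hc), by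
          rw [mem_centralizer_iff_commutator.1 hc v hv]; exact one_mem Z⟩
      rw [e]
      exact mul_mem (mul_mem (inv_mem (hc _ (hD.sq b S.bD))) (mul_mem (hc _ hginv) (inv_mem hgs)))
        (hc _ (hD.sq b S.bD))
    have hu : ⁅g, ⁅b, v⁆⁆ ∈ Z := by
      have hbv : b * v * b⁻¹ ∈ V := conj_mem_of_mem_normalizer hbV hv
      have e : ⁅g, ⁅b, v⁆⁆ = b * ⁅b⁻¹ * g * b, v⁆ * b⁻¹ *
          ((b * v * b⁻¹) * ⁅g, v⁻¹⁆ * (b * v * b⁻¹)⁻¹) := by
        simp only [commutatorElement_def]; group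
      rw [e]
      refine mul_mem (conj_mem_of_mem_normalizer (centralizer_le_normalizer' _ hbZ) hbgs.2)
        (conj_mem_of_mem_normalizer (hVn Z hZV hbv) ?_)
      have e2 : ⁅g, v⁻¹⁆ = v⁻¹ * ⁅g, v⁆⁻¹ * v⁻¹⁻¹ := by simp only [commutatorElement_def]; group
      rw [e2]
      exact conj_mem_of_mem_normalizer (hVn Z hZV (inv_mem hv)) (inv_mem hgv')
    have hbvW : ⁅b, v⁆ ∈ W := by
      rw [← commutatorElement_inv]; exact inv_mem (hVDW v hv b S.bD)
    have hbvZ := hfW _ hbvW hu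
    obtain ⟨e, he, hw⟩ := hV2 v hv
    have hbe : ⁅b, e⁆ ∈ Z := by
      have e1 : ⁅b, e⁆ = ⁅b, v⁆ * (v * ⁅b, (e⁻¹ * v)⁻¹⁆ * v⁻¹) := by
        simp only [commutatorElement_def]; group
      rw [e1, commutatorElement_eq_one_iff_mul_comm.2 (hbW _ (inv_mem hw)).eq]
      simpa using hbvZ
    have heZ := hfW' e (hEW2 he) hbe
    refine hfW v ?_ hgv'
    have := mul_mem heZ.1 hw
    rwa [mul_inv_cancel_left] at this
  -- the group of elements stabilising the series `1 ≤ Z ≤ V`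
  set Fr := Q2 ⊓ centralizer (Z : Set G) ⊓ triv Z V with hFr
  have hFrQ : Fr ≤ Q2 := inf_le_left.trans inf_le_left
  have hD0Fr : D₀ ≤ Fr := by
    intro d hd
    refine ⟨⟨hD0Q2 hd, fun z hz => ((hz.1.2 d (S.le₀ hd)).symm)⟩,
      ⟨hDV (S.le₀ hd), centralizer_le_normalizer' _ fun z hz => (hz.1.2 d (S.le₀ hd)).symm⟩,
      fun v hv => ?_⟩
    obtain ⟨e, he, hw⟩ := hV2 v hv
    have hc : ⁅d, e⁻¹ * v⁆ = 1 :=
      commutatorElement_eq_one_iff_mul_comm.2 (hw.2 d (S.le₀ hd))
    have e1 : ⁅d, v⁆ = ⁅d, e⁆ * (e * ⁅d, e⁻¹ * v⁆ * e⁻¹) := by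
      simp only [commutatorElement_def]; group
    have heV : e ∈ V := hWVn e (hEW2 he)
    refine ⟨?_, ?_⟩
    · rw [← commutatorElement_inv]; exact W.inv_mem (hVDW v hv d (S.le₀ hd))
    · rw [e1, hc, mul_one, mul_inv_cancel, mul_one]
      have hdn : d ∈ normalizer (E : Set G) := by
        have := cj_mono g (hQ2T.trans S.nY)
        rw [cj_eq_of_mem (hFQ2 hgF), Fusion.cj_normalizer] at this
        exact this (hD0Q2 hd)
      exact hEW2 (commutator_mem_left hdn he)
  have hFrV : Fr ≤ normalizer (V : Set G) := fun x hx => hx.2.1.1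
  have helFr : Elem Q2 V Fr := by
    have key : ∀ x ∈ Fr, ∀ v ∈ V, x * v * x⁻¹ = ⁅x, v⁆ * v ∧ x * ⁅x, v⁆ * x⁻¹ = ⁅x, v⁆ := by
      intro x hx v hv
      exact ⟨by rw [commutatorElement_def]; group,
        mul_inv_eq_iff_eq_mul.2 (hx.1.2 _ (hx.2.2 v hv)).symm⟩
    have key2 : ∀ x ∈ Fr, ∀ y ∈ Fr, ∀ v ∈ V,
        (x * y) * v * (x * y)⁻¹ = ⁅y, v⁆ * ⁅x, v⁆ * v := by
      intro x hx y hy v hv
      calc (x * y) * v * (x * y)⁻¹ = x * (y * v * y⁻¹) * x⁻¹ := by group
        _ = x * (⁅y, v⁆ * v) * x⁻¹ := by rw [(key y hy v hv).1]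
        _ = (x * ⁅y, v⁆ * x⁻¹) * (x * v * x⁻¹) := by group
        _ = _ := by
          rw [(key x hx v hv).1, mul_inv_eq_iff_eq_mul.2 (hx.1.2 _ (hy.2.2 v hv)).symm, mul_assoc]
    refine ⟨hFrQ, fun x hx y hy v hv => ?_, fun x hx v hv => ?_⟩
    · have h1 := key2 x hx y hy
      have h2 := key2 y hy x hx
      have hv' : (y * x)⁻¹ * v * (y * x) ∈ V := by
        simpa using conj_mem_of_mem_normalizer (inv_mem (hFrV (mul_mem hy hx))) hv
      have e := h1 _ hv'
      rw [cj_elemAb_comm L.elem (hZV (hy.2.2 _ hv')) (hZV (hx.2.2 _ hv')), ← h2 _ hv'] at e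
      have e' : x * y * ((y * x)⁻¹ * v * (y * x)) * (x * y)⁻¹ = v := by rw [e]; group
      rw [commutatorElement_def]
      calc v * (x * y * x⁻¹ * y⁻¹)
          = (x * y * ((y * x)⁻¹ * v * (y * x)) * (x * y)⁻¹) * (x * y * x⁻¹ * y⁻¹) := by rw [e']
        _ = x * y * x⁻¹ * y⁻¹ * v := by group
    · have e := key2 x hx x hx v hv
      have e0 : ⁅x, v⁆ * ⁅x, v⁆ = 1 := by rw [← sq]; exact L.elem.2 _ (hZV (hx.2.2 v hv))
      rw [e0, one_mul] at e
      exact (mul_inv_eq_iff_eq_mul.1 e).symm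
  have hgFr : g ∈ normalizer (Fr : Set G) := by
    refine le_normalizer_inf (le_normalizer_inf ?_ ?_) ?_ (le_refl (zpowers g) (mem_zpowers g)) <;>
      rw [zpowers_le]
    · exact hFQ2 hgF
    · exact le_normalizer_centralizer (le_refl _) hgnZ
    · exact mem_normalizer_of_forall (fun s hs x hx =>
        conj_mem_triv (zpowers_le.2 (show g ∈ normalizer (V : Set G) ⊓ normalizer (Z : Set G) from
          ⟨hgV, hgnZ⟩) hs) hx) (mem_zpowers g)
  have hcenW : ∀ x ∈ Fr, x ∈ centralizer (Ym : Set G) → x ∈ centralizer (W : Set G) := by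
    intro x hx hc w hw
    obtain ⟨y, hy, hz⟩ := hW2 w hw
    have := (show Commute x y from (hc y hy).symm).mul_right
      (show Commute x (y⁻¹ * w) from (hx.1.2 _ hz).symm)
    rw [mul_inv_cancel_left] at this
    exact this.symm.eq
  have hFW : img Fr W ≤ img D₀ V := by
    have h1 : img Fr W ≤ img Fr Ym := by
      rw [img, img, ← inf_relIndex_right (centralizer (Ym : Set G))]
      exact relIndex_le_of_le_left (fun x hx => hcenW x hx.2 hx.1) index_ne_zero_of_finite
    refine h1.trans ?_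
    by_cases hm : Fr ≤ centralizer (Ym : Set G)
    · rw [img_eq_one.2 hm]; exact img_pos _ _
    have h2 := (S.pr.mono hQ2T) Fr (helFr.mono S.le le_rfl hFrQ) hm
    have h3 : img Ym Fr ≤ img V D := by
      rw [← hZW, img]
      exact le_trans (relIndex_le_of_le_left
        (mem_centralizer_comm fun x hx => hx.1.2) index_ne_zero_of_finite)
        (relIndex_le_of_le_right hYW index_ne_zero_of_finite)
    omega
  have hFW' : img Fr W' = img Fr W := by
    have := img_map (f := (MulAut.conj g).toMonoidHom) (MulEquiv.injective _) Fr W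
    rwa [show Subgroup.map _ Fr = Fr from cj_eq_of_mem hgFr] at this
  set K := Fr ⊓ centralizer (W : Set G) with hK
  have hD0K : D₀ ≤ K := le_inf hD0Fr fun d hd w hw => (hw.2 d (S.le₀ hd)).symm
  have hVWW' : ∀ x, x ∈ centralizer (W : Set G) → x ∈ centralizer (W' : Set G) →
      x ∈ centralizer (V : Set G) := by
    intro x h1 h2 v hv
    obtain ⟨e, he, hw⟩ := hV2 v hv
    have := (show Commute x e from (h2 e (hEW2 he)).symm).mul_right
      (show Commute x _ from (h1 _ hw).symm)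
    rw [mul_inv_cancel_left] at this
    exact this.symm.eq
  have hKW' : img K W' = img K V := by
    rw [img, img, ← inf_relIndex_right, ← inf_relIndex_right (centralizer (V : Set G))]
    congr 1
    refine le_antisymm (fun x hx => ⟨hVWW' x hx.2.2 hx.1, hx.2⟩)
      (inf_le_inf_right _ (cen_antitone fun x hx => hWVn x hx))
  have hK1 : img D₀ V ≤ img K V := img_mono hD0K le_rfl
  have hK2 : img K W' ≤ img Fr W' := img_mono inf_le_left le_rfl
  have hFr2 := img_mul (D := Fr) (E := W) hWV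
  change img K V * img Fr W = img Fr V at hFr2
  have hKeq : img K W' = img Fr W' := by omega
  have hKD0 : img D₀ V = img K V := by omega
  have hFrV2 : img Fr V = img D₀ V * img D₀ V := by
    rw [← hFr2, ← hKD0]; congr 1; omega
  have hb0 : ∀ d ∈ D₀, ⁅b, d⁆ ∈ centralizer (V : Set G) := fun d hd =>
    hD.comm b S.bD d (S.le₀ hd)
  have hbC : b ∈ normalizer (centralizer (V : Set G) : Set G) :=
    le_normalizer_centralizer (le_refl _) hbV
  have hgCn : g ∈ normalizer (centralizer (V : Set G) : Set G) :=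
    le_normalizer_centralizer (le_refl _) hgV
  have hCn : ∀ {x : G}, x ∈ Fr → x ∈ normalizer (centralizer (V : Set G) : Set G) := fun hx =>
    le_normalizer_centralizer (le_refl _) (hFrV hx)
  have hkK : ∀ x ∈ K, ⁅b, x⁆ ∈ centralizer (V : Set G) := by
    intro x hx
    obtain ⟨d, hd, hc, -⟩ := exists_mul_of_img_eq hD0K hKD0 hx
    have e : ⁅b, x⁆ = ⁅b, d⁆ * (d * (b * (d⁻¹ * x) * b⁻¹ * (d⁻¹ * x)⁻¹) * d⁻¹) := by
      simp only [commutatorElement_def]; group
    rw [e]
    exact mul_mem (hb0 d hd) (conj_mem_of_mem_normalizer (hCn (hD0Fr hd))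
      (mul_mem (conj_mem_of_mem_normalizer hbC hc) (inv_mem hc)))
  -- fixed points of `g` on the stability group
  have hfix2 : ∀ y ∈ Fr, ⁅g, y⁆ ∈ centralizer (V : Set G) → ⁅b, y⁆ ∈ centralizer (V : Set G) →
      y ∈ centralizer (V : Set G) := by
    intro y hy hgy hby
    obtain ⟨k₀, hk₀, hk₁W', hk₁F⟩ := exists_mul_of_img_eq (inf_le_left : K ≤ Fr) hKeq hy
    set k₁ := k₀⁻¹ * y with hk₁
    have hbk₁ : ⁅b, k₁⁆ ∈ centralizer (V : Set G) := by
      have e : ⁅b, k₁⁆ = k₀⁻¹ * (⁅b, k₀⁆⁻¹ * ⁅b, y⁆) * k₀⁻¹⁻¹ := by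
        rw [hk₁]; simp only [commutatorElement_def]; group
      rw [e]
      exact conj_mem_of_mem_normalizer (inv_mem (hCn hk₀.1))
        (mul_mem (inv_mem (hkK k₀ hk₀)) hby)
    have hk' : g⁻¹ * k₁ * g ∈ K := by
      refine ⟨by simpa using conj_mem_of_mem_normalizer (inv_mem hgFr) hk₁F, fun w hw => ?_⟩
      have := hk₁W' (g * w * g⁻¹) (hgW' hw)
      calc w * (g⁻¹ * k₁ * g) = g⁻¹ * ((g * w * g⁻¹) * k₁) * g := by group
        _ = g⁻¹ * (k₁ * (g * w * g⁻¹)) * g := by rw [this]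
        _ = _ := by group
    have hgst : g ∈ stab (centralizer (V : Set G)) k₁ := by
      refine mem_of_pair (b := b) ⟨hbC, hbk₁⟩ ⟨mul_mem (mul_mem hgCn hbC) (inv_mem hgCn), ?_⟩
        ⟨le_normalizer hginv, ?_⟩ S.odd_pow (by rw [hgm]; exact one_mem _)
      · have e : ⁅g * b * g⁻¹, k₁⁆ = g * ⁅b, g⁻¹ * k₁ * g⁆ * g⁻¹ := by
          simp only [commutatorElement_def]; group
        rw [e]
        exact conj_mem_of_mem_normalizer hgCn (hkK _ hk')
      · exact commutator_mem_right (hCn hk₁F) hginv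
    have hk₁C : k₁ ∈ centralizer (V : Set G) := by
      refine hVWW' _ (fun w hw => ?_) hk₁W'
      have h1 := conj_mem_of_mem_normalizer (inv_mem hgCn) hgst.2
      have e : k₁ = (g⁻¹ * ⁅g, k₁⁆ * g⁻¹⁻¹)⁻¹⁻¹ * 1 *
          ((g⁻¹ * k₁ * g) * ((g⁻¹ * k₁ * g)⁻¹ * ((g⁻¹ * ⁅g, k₁⁆ * g⁻¹⁻¹)⁻¹ * k₁))) := by group
      have e2 : (g⁻¹ * k₁ * g)⁻¹ * ((g⁻¹ * ⁅g, k₁⁆ * g⁻¹⁻¹)⁻¹ * k₁) = 1 := by
        rw [commutatorElement_def]; group
      rw [e2, mul_one, mul_one, inv_inv] at e
      rw [e]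
      exact ((show Commute w (g⁻¹ * ⁅g, k₁⁆ * g⁻¹⁻¹) from h1 w (hWV hw)).mul_right
        (show Commute w (g⁻¹ * k₁ * g) from hk'.2 w hw)).eq
    -- now `y ≡ k₀`
    refine hVWW' _ (fun w hw => ?_) fun w hw => ?_
    · have := (show Commute w k₀ from hk₀.2 w hw).mul_right
        (show Commute w k₁ from hk₁C w (hWV hw))
      rw [hk₁, mul_inv_cancel_left] at this
      exact this.eq
    · have hyW : ∀ u ∈ W, Commute u y := fun u hu => by
        have := (show Commute u k₀ from hk₀.2 u hu).mul_right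
          (show Commute u k₁ from hk₁C u (hWV hu))
        rwa [hk₁, mul_inv_cancel_left] at this
      have h1 : Commute w (g * y * g⁻¹) := by
        have := (hyW _ (mem_cj.1 hw)).eq
        show w * (g * y * g⁻¹) = g * y * g⁻¹ * w
        calc w * (g * y * g⁻¹) = g * ((g⁻¹ * w * g) * y) * g⁻¹ := by group
          _ = g * (y * (g⁻¹ * w * g)) * g⁻¹ := by rw [this]
          _ = _ := by group
      have h2 : Commute w ⁅g, y⁆ := hgy w (hWVn w hw)
      have := h2.inv_right.mul_right h1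
      have e : ⁅g, y⁆⁻¹ * (g * y * g⁻¹) = y := by rw [commutatorElement_def]; group
      rw [e] at this
      exact this.eq
  have hfpF : ∀ a ∈ Fr, ⁅g, a⁆ ∈ centralizer (V : Set G) ⊓ Fr →
      a ∈ centralizer (V : Set G) ⊓ Fr := by
    intro x hx hgx
    refine ⟨?_, hx⟩
    have hC := le_normalizer_centralizer (le_refl (normalizer (V : Set G)))
    set y := b * x * b⁻¹ * x⁻¹ with hy
    have hbFr : b ∈ normalizer (Fr : Set G) := by
      refine le_normalizer_inf (le_normalizer_inf ?_ ?_) ?_ (le_refl (zpowers b) (mem_zpowers b))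
        <;> rw [zpowers_le]
      · exact hTQ2 hbT
      · exact le_normalizer_centralizer (le_refl _) (centralizer_le_normalizer' _ hbZ)
      · exact mem_normalizer_of_forall (fun s hs z hz =>
          conj_mem_triv (zpowers_le.2 (show b ∈ normalizer (V : Set G) ⊓ normalizer (Z : Set G) from
            ⟨hbV, centralizer_le_normalizer' _ hbZ⟩) hs) hz) (mem_zpowers b)
    have hyFr : y ∈ Fr := mul_mem (conj_mem_of_mem_normalizer hbFr hx) (inv_mem hx)
    refine hfix2 x hx hgx.1 (hfix2 y hyFr ?_ ?_)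
    · have hgs : g ∈ stab (centralizer (V : Set G)) x := ⟨hgCn, hgx.1⟩
      have hs : ∀ c ∈ centralizer (V : Set G), c ∈ stab (centralizer (V : Set G)) x := fun c hc =>
        ⟨le_normalizer hc, commutator_mem_right (hCn hx) hc⟩
      have hbgs : b⁻¹ * g * b ∈ stab (centralizer (V : Set G)) x := by
        have e : b⁻¹ * g * b = (b * b)⁻¹ * ((b * g * b⁻¹ * g) * g⁻¹) * (b * b) := by group
        rw [e]
        exact mul_mem (mul_mem (inv_mem (hs _ (hD.sq b S.bD))) (mul_mem (hs _ hginv)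
          (inv_mem hgs))) (hs _ (hD.sq b S.bD))
      have e : ⁅g, y⁆ = b * ⁅b⁻¹ * g * b, x⁆ * b⁻¹ *
          ((b * x * b⁻¹) * (x⁻¹ * ⁅g, x⁆⁻¹ * x⁻¹⁻¹) * (b * x * b⁻¹)⁻¹) := by
        rw [hy]; simp only [commutatorElement_def]; group
      rw [e]
      exact mul_mem (conj_mem_of_mem_normalizer hbC hbgs.2)
        (conj_mem_of_mem_normalizer (hCn (conj_mem_of_mem_normalizer hbFr hx))
          (conj_mem_of_mem_normalizer (inv_mem (hCn hx)) (inv_mem hgx.1)))
    · have hy2 : y * y ∈ centralizer (V : Set G) := helFr.sq y hyFr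
      have e : ⁅b, y⁆ = b * b * x * (b * b)⁻¹ * x⁻¹ *
          (y * y)⁻¹ * (y * (b * b * (x * (b * b)⁻¹ * x⁻¹)) * y⁻¹) *
          (y * (b * b * (x * (b * b)⁻¹ * x⁻¹))⁻¹ * y⁻¹) := by
        rw [hy]; simp only [commutatorElement_def]; group
      have h1 : b * b * x * (b * b)⁻¹ * x⁻¹ ∈ centralizer (V : Set G) := by
        have := mul_mem (hD.sq b S.bD) (conj_mem_of_mem_normalizer (hCn hx)
          (inv_mem (hD.sq b S.bD)))
        simpa [mul_assoc] using this
      have h2 : b * b * (x * (b * b)⁻¹ * x⁻¹) ∈ centralizer (V : Set G) :=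
        mul_mem (hD.sq b S.bD) (conj_mem_of_mem_normalizer (hCn hx) (inv_mem (hD.sq b S.bD)))
      rw [e]
      exact mul_mem (mul_mem (mul_mem h1 (inv_mem hy2))
        (conj_mem_of_mem_normalizer (hCn hyFr) h2))
        (conj_mem_of_mem_normalizer (hCn hyFr) (inv_mem h2))
  -- counting
  haveI : Fact r.Prime := ⟨S.prime⟩
  have hm1 : Z.relIndex V ≡ 1 [MOD r] := modEq_one_of_fpf (hVn Z hZV) ⟨hgV, hgnZ⟩
    (centralizer_le_triv hZV hgr) hfpV
  have hm2 : (centralizer (V : Set G) ⊓ Fr).relIndex Fr ≡ 1 [MOD r] :=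
    modEq_one_of_fpf (le_normalizer_inf (fun x hx => hCn hx) le_normalizer)
      ⟨hgFr, inf_normalizer_le_normalizer_inf ⟨hgCn, hgFr⟩⟩
      ⟨⟨pow_mem hgFr r, inf_normalizer_le_normalizer_inf ⟨pow_mem hgCn r, pow_mem hgFr r⟩⟩,
        fun x hx => ⟨commutator_mem_right (hCn hx) hgr,
          commutator_mem_left (pow_mem hgFr r) hx⟩⟩
      hfpF
  rw [inf_relIndex_right] at hm2
  change img Fr V ≡ 1 [MOD r] at hm2
  rw [hFrV2] at hm2
  rw [← relIndex_mul_relIndex Z W V inf_le_left hWV, hZW, hWrel, hbD] at hm1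
  set a := img D₀ V
  have hr3 : r = 3 := by
    have e : 2 * a * (2 * a) = 4 * (a * a) := by ring
    rw [e] at hm1
    have h4 : 4 ≡ 1 [MOD r] := by
      calc 4 = 4 * 1 := rfl
        _ ≡ 4 * (a * a) [MOD r] := (hm2.symm.mul_left 4)
        _ ≡ 1 [MOD r] := hm1
    have hd : r ∣ 3 := by simpa using (Nat.modEq_iff_dvd' (by norm_num : 1 ≤ 4)).1 h4.symm
    exact ((Nat.dvd_prime Nat.prime_three).1 hd).resolve_left S.prime.one_lt.ne'
  exact hgC (hfinish g hgF hginv (hr3 ▸ hgr))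

/-- No over-offender on `Y` gives none on `⟨Y^F⟩`. -/
theorem layer_of (hG : ¬ Cfsg.Involves (Equiv.Perm (Fin 4)) G) :
    ∀ (n : ℕ) (Q F T Y V : Subgroup G), Layer Q F T Y V → Q.relIndex F ≤ n → OF T Y → OF T V := by
  intro n
  induction n using Nat.strong_induction_on with
  | _ n ih =>
    intro Q₀ F₀ T₀ Y V L₀ hn hY₀
    obtain ⟨Q, F, T, L, hTT, hTY, hle, hcen⟩ := L₀.normalise
    have hY : OF T Y := hY₀.congr L₀.TY hTY
    suffices OF T V from this.mono hTT
    intro D hD hmov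
    induction hc : Nat.card D using Nat.strong_induction_on generalizing D with
    | _ c ihD =>
      have hQD : Q ⊔ D ≤ T := sup_le L.QT hD.le
      refine of_core hG (L.mono hQD le_sup_left)
        ((inf_le_inf_right _ (sup_le_sup_left hQD F)).trans hcen) (hY.mono hQD)
        (fun F₁ E V₁ L₁ hlt hE => ?_) (hD.mono le_rfl le_rfl le_sup_right) hmov
        fun D' hD' hne hm => ihD _ ?_ D' (hD.mono le_rfl hD' (hD'.trans hD.le)) hm rfl
      · exact ih _ (lt_of_lt_of_le hlt (hle.trans hn)) _ _ _ _ _ L₁ le_rfl hE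
      · exact hc ▸ Set.ncard_lt_ncard (SetLike.coe_ssubset_coe.2 (lt_of_le_of_ne hD' hne))

end Cfsg.Agent.LAE60.W
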