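import Cfsg.Agent.LAE60.WLayer

/-!
The layer theorem for cubic near-offenders: absence of both kinds of offenders passes from `Y` to
`V = ⟨Y^F⟩` when `F / Q` has odd order and the group has no section `S₄`.
-/

set_option autoImplicit false
set_option linter.unusedVariables false
set_option linter.unusedSectionVars false
set_option linter.style.haveILetI false

open Subgroup
open scoped commutatorElement

namespace Cfsg.Agent.LAE60.W

open Cfsg.Agent.Fusion (cj mem_cj conj_mem_cj cj_cj cj_one cj_mono cj_eq_of_mem card_cj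
  cj_eq_iff_mem_normalizer)

variable {G : Type*} [Group G] [Finite G] {Q F T Y V D : Subgroup G}

/-- A cubic near-offender restricts to every piece that it moves. -/
theorem CNO.exists_restrict {u : G} {E : Subgroup G} (h : CNO T V D u) (hOFV : OF T V)
    (hEV : E ≤ V) (hOFE : OF T E) (hm : ¬ D ≤ centralizer (E : Set G)) :
    ∃ e, CNO T E D e := by
  have hpiece := img_piece hEV (inf_le_left : D ⊓ centralizer (E : Set G) ≤ D) inf_le_right
  have hmul := img_mul (D := D) hEV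
  set D₁ := D ⊓ centralizer (E : Set G)
  have h1 := hOFE D (h.elem.mono hEV le_rfl h.elem.le) hm
  have hD₁ : D₁ ≤ centralizer (V : Set G) := by
    by_contra hn
    have h2 := hOFV D₁ (h.elem.mono le_rfl inf_le_left (inf_le_left.trans h.elem.le)) hn
    rw [h.card, ← hmul] at hpiece
    have h3 : 2 * img D E * (2 * img D₁ V) ≤ img E D * img V D₁ := Nat.mul_le_mul h1 h2
    nlinarith [img_pos D₁ V, img_pos D E]
  rw [img_eq_one.2 hD₁, one_mul] at hmul
  have h2 : img E D = img V D := le_antisymm (img_mono hEV le_rfl) (by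
    rw [h.card, ← hmul]; exact h1)
  exact h.restrict hEV hm h2 hmul

/-- The end of the argument, on `V = ⟨Y^⟨Q, h⟩⟩`. -/
theorem nc_final (hG : ¬ Cfsg.Involves (Equiv.Perm (Fin 4)) G) {Q₂ D₀ : Subgroup G} {u b h : G}
    {m : ℕ} (L : Layer Q₂ (Q₂ ⊔ zpowers h) T Y V) (hu : CNO T V D u)
    (hY : D ≤ centralizer (Y : Set G)) (hD₀ : D₀ ≤ Q₂) (hbD : b ∈ D) (hb2 : b * b ∈ D₀)
    (hdec : ∀ d ∈ D, d ∈ D₀ ∨ b * d ∈ D₀) (hm : Odd m) (hpow : h ^ m = 1)
    (hinv : b * h * b⁻¹ * h ∈ centralizer (V : Set G)) : False := by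
  classical
  have hbT : b ∈ T := hu.elem.le hbD
  have hbV : b ∈ normalizer (V : Set G) := L.TV hbT
  have hhV : h ∈ normalizer (V : Set G) := L.FV (mem_sup_right (mem_zpowers h))
  have hQV : Q₂ ≤ normalizer (V : Set G) := L.QV
  have hVn : ∀ A : Subgroup G, A ≤ V → V ≤ normalizer (A : Set G) := fun A hA v hv =>
    centralizer_le_normalizer' _ (cen_antitone hA fun w hw => cj_elemAb_comm L.elem hw hv)
  have hVc : ∀ A : Subgroup G, ∀ v ∈ V, ∀ w ∈ V, ⁅v, w⁆ ∈ A := fun A v hv w hw => by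
    rw [commutatorElement_eq_one_iff_mul_comm.2 (cj_elemAb_comm L.elem hv hw)]; exact one_mem A
  have hVsq : ∀ A : Subgroup G, ∀ v ∈ V, v * v ∈ A := fun A v hv => by
    rw [← sq, L.elem.2 v hv]; exact one_mem A
  set B₀ : Subgroup G := ⁅V, Q₂⁆ with hB₀
  have hB₀V : B₀ ≤ V := commutator_le_left_of_le_normalizer hQV
  have hbQ : b ∈ normalizer (Q₂ : Set G) := L.TQ hbT
  have hhQ : h ∈ normalizer (Q₂ : Set G) := L.FQ (mem_sup_right (mem_zpowers h))
  have hbB : b ∈ normalizer (B₀ : Set G) :=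
    le_normalizer_commutator (L := zpowers b) (zpowers_le.2 hbV) (zpowers_le.2 hbQ) (mem_zpowers b)
  have hhB : h ∈ normalizer (B₀ : Set G) :=
    le_normalizer_commutator (L := zpowers h) (zpowers_le.2 hhV) (zpowers_le.2 hhQ) (mem_zpowers h)
  have huV : u ∈ V := hu.mem
  have hDV : D ≤ normalizer (V : Set G) := hu.elem.le.trans L.TV
  set x := ⁅u, b⁆ with hx
  have hxV : x ∈ V := commutator_mem_right hbV huV
  set X₀ := B₀ ⊔ zpowers x with hX₀
  have hX₀V : X₀ ≤ V := sup_le hB₀V (zpowers_le.2 hxV)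
  let P₀ : Subgroup G :=
    { carrier := {v | v ∈ V ∧ ⁅v, b⁆ ∈ X₀}
      one_mem' := ⟨one_mem V, by simp⟩
      mul_mem' := fun {v w} hv hw => ⟨mul_mem hv.1 hw.1, by
        have e : ⁅v * w, b⁆ = v * ⁅w, b⁆ * v⁻¹ * ⁅v, b⁆ := by
          simp only [commutatorElement_def]; group
        rw [e]
        exact mul_mem (conj_mem_of_mem_normalizer (hVn X₀ hX₀V hv.1) hw.2) hv.2⟩
      inv_mem' := fun {v} hv => by rw [inv_eq_self L.elem hv.1]; exact hv }
  let M₁ : Subgroup G :=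
    { carrier := {v | v ∈ P₀ ∧ ∀ e ∈ D, ⁅v, e⁆ ∈ centralizer (D : Set G)}
      one_mem' := ⟨one_mem P₀, fun e _ => by simp⟩
      mul_mem' := fun {v w} hv hw => ⟨mul_mem hv.1 hw.1, fun e he => by
        have hwe : ⁅w, e⁆ ∈ V := commutator_mem_right (hDV he) hw.1.1
        have e1 : ⁅v * w, e⁆ = v * ⁅w, e⁆ * v⁻¹ * ⁅v, e⁆ := by
          simp only [commutatorElement_def]; group
        rw [e1, cj_elemAb_comm L.elem hv.1.1 hwe, mul_inv_cancel_right]
        exact mul_mem (hw.2 e he) (hv.2 e he)⟩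
      inv_mem' := fun {v} hv => by rw [inv_eq_self L.elem hv.1.1]; exact hv }
  have hWP : centralizer (D : Set G) ⊓ V ≤ M₁ := fun w hw => ⟨⟨hw.2, by
      rw [commutatorElement_eq_one_iff_mul_comm.2 (hw.1 b hbD).symm]; exact one_mem _⟩,
    fun e he => by
      rw [commutatorElement_eq_one_iff_mul_comm.2 (hw.1 e he).symm]; exact one_mem _⟩
  have hud : ∀ d ∈ D₀, ⁅u, d⁆ ∈ B₀ := fun d hd => commutator_mem_commutator huV (hD₀ hd)
  have hB₀P : B₀ ≤ P₀ := fun v hv => ⟨hB₀V hv, mem_sup_left (commutator_mem_right hbB hv)⟩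
  have hxP : x ∈ P₀ := ⟨hxV, by
    have := commute_commutator L.elem huV hbV (hu.elem.sq b hbD)
    rw [commutatorElement_eq_one_iff_mul_comm.2 this.symm.eq]; exact one_mem _⟩
  have hudP : ∀ d ∈ D, ⁅u, d⁆ ∈ P₀ := by
    intro d hd
    rcases hdec d hd with h0 | h0
    · exact hB₀P (hud d h0)
    · have hd' : (b * b)⁻¹ * (b * d) ∈ D₀ := mul_mem (inv_mem hb2) h0
      have e : d = b * ((b * b)⁻¹ * (b * d)) := by group
      rw [e]
      have e2 : ∀ d' : G, ⁅u, b * d'⁆ = ⁅u, b⁆ * (b * ⁅u, d'⁆ * b⁻¹) := fun d' => by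
        simp only [commutatorElement_def]; group
      rw [e2]
      exact mul_mem hxP (hB₀P (conj_mem_of_mem_normalizer hbB (hud _ hd')))
  have huP : u ∈ P₀ := ⟨huV, mem_sup_right (mem_zpowers x)⟩
  have huM : u ∉ M₁ := fun h => hu.moves fun d hd => hu.inj d hd (h.2 d hd)
  have hmemM : ∀ d ∈ D, ⁅u, d⁆ ∈ M₁ := fun d hd => ⟨hudP d hd, hu.cubic u huV d hd⟩
  -- counting
  set W := centralizer (D : Set G) ⊓ V with hW
  have hCW : ∀ {d w : G}, d ∈ D → w ∈ centralizer (D : Set G) → d * w * d⁻¹ = w := fun hd hw =>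
    mul_inv_eq_iff_eq_mul.2 (hw _ hd)
  have key : ∀ d ∈ D, ∀ e ∈ D, ⁅u, d⁆⁻¹ * ⁅u, e⁆ = d * ⁅u, d⁻¹ * e⁆ * d⁻¹ := fun d _ e _ => by
    simp only [commutatorElement_def]; group
  let f : ↥D ⧸ (centralizer (V : Set G)).subgroupOf D → ↥M₁ ⧸ W.subgroupOf M₁ :=
    Quotient.map' (fun d : ↥D => ⟨⁅u, (d : G)⁆, hmemM d d.2⟩) fun a a' hh => by
      rw [QuotientGroup.leftRel_apply, mem_subgroupOf] at hh ⊢
      push_cast at hh ⊢
      rw [key _ a.2 _ a'.2, commutatorElement_eq_one_iff_mul_comm.2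
        (mem_centralizer_iff.1 hh u huV)]
      simp
  have hf : Function.Injective f := by
    intro p q
    induction p using QuotientGroup.induction_on with
    | _ a =>
    induction q using QuotientGroup.induction_on with
    | _ a' =>
    intro hpq
    have hh := mem_subgroupOf.1 ((QuotientGroup.eq (s := W.subgroupOf M₁)).1 hpq)
    push_cast at hh
    rw [key _ a.2 _ a'.2] at hh
    refine QuotientGroup.eq.2 (mem_subgroupOf.2 ?_)
    push_cast
    refine hu.inj _ (mul_mem (inv_mem a.2) a'.2) ?_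
    have := hCW (inv_mem a.2) hh.1
    have e : (a : G)⁻¹ * ((a : G) * ⁅u, (a : G)⁻¹ * a'⁆ * (a : G)⁻¹) * (a : G)⁻¹⁻¹ =
        ⁅u, (a : G)⁻¹ * a'⁆ := by group
    rw [e] at this
    rw [this]
    exact hh.1
  have hP0V : P₀ ≤ V := fun v hv => hv.1
  have hM1P : M₁ ≤ P₀ := fun v hv => hv.1
  have hP₀ : V ≤ P₀ := by
    have h1 : img D V ≤ W.relIndex M₁ := Nat.card_le_card_of_injective f hf
    have h2 : 2 ≤ M₁.relIndex P₀ := by
      have hne : M₁.relIndex P₀ ≠ 1 := fun e => huM (relIndex_eq_one.1 e huP)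
      have : M₁.relIndex P₀ ≠ 0 := index_ne_zero_of_finite
      omega
    have h3 := relIndex_mul_relIndex W M₁ P₀ hWP hM1P
    have h4 := relIndex_mul_relIndex W P₀ V (hWP.trans hM1P) hP0V
    have h5 : W.relIndex V = 2 * img D V := by
      rw [hW, inf_relIndex_right, ← hu.card]; rfl
    have h6 : 0 < P₀.relIndex V := Nat.pos_of_ne_zero index_ne_zero_of_finite
    have h7 : img D V * 2 ≤ W.relIndex P₀ := h3 ▸ Nat.mul_le_mul h1 h2
    have h8 : P₀.relIndex V = 1 := by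
      have hpos := img_pos D V
      nlinarith
    exact relIndex_eq_one.1 h8
  -- the layer between `B₀` and `V`
  set X₁ := cj h X₀ with hX₁
  set M₂ := X₁ ⊔ X₀ with hM₂
  have hX₁V : X₁ ≤ V := (cj_mono h hX₀V).trans (cj_eq_of_mem hhV).le
  have hM₂V : M₂ ≤ V := sup_le hX₁V hX₀V
  have hB₀M : B₀ ≤ M₂ := le_sup_left.trans le_sup_right
  have hnorm : ∀ s ∈ normalizer (V : Set G), (∀ v ∈ V, ⁅s, v⁆ ∈ M₂) → s ∈ triv M₂ V := by
    intro s hs hsv
    refine ⟨⟨hs, ?_⟩, hsv⟩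
    show s ∈ normalizer (M₂ : Set G)
    rw [← cj_eq_iff_mem_normalizer]
    refine eq_of_le_of_card_ge ?_ (card_cj s M₂).ge
    rintro _ ⟨v, hv, rfl⟩
    have e : (MulAut.conj s).toMonoidHom v = ⁅s, v⁆ * v := by simp [commutatorElement_def]
    rw [e]
    exact mul_mem (hsv v (hM₂V hv)) hv
  have hbX : ∀ v ∈ V, ⁅b, v⁆ ∈ X₀ := fun v hv => by
    rw [← commutatorElement_inv]; exact inv_mem (hP₀ hv).2
  have hhT : h ∈ triv M₂ V := by
    refine mem_of_pair (b := b) (hnorm b hbV fun v hv => mem_sup_right (hbX v hv))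
      (hnorm _ (mul_mem (mul_mem hhV hbV) (inv_mem hhV)) fun v hv => ?_)
      (centralizer_le_triv hM₂V hinv) hm (by rw [hpow]; exact one_mem _)
    have e : ⁅h * b * h⁻¹, v⁆ = h * ⁅b, h⁻¹ * v * h⁻¹⁻¹⁆ * h⁻¹ := by
      simp only [commutatorElement_def]; group
    rw [e]
    exact mem_sup_left (conj_mem_cj.2 (hbX _ (conj_mem_of_mem_normalizer (inv_mem hhV) hv)))
  have hx2 : B₀.relIndex X₀ ≤ 2 := by
    have hn : zpowers x ≤ normalizer (B₀ : Set G) := zpowers_le.2 (hVn B₀ hB₀V hxV)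
    rw [hX₀, sup_comm, relIndex_sup_of_normalizes hn]
    refine le_trans (Nat.le_of_dvd Nat.card_pos (relIndex_dvd_card _ _)) ?_
    rw [Nat.card_zpowers]
    exact Nat.le_of_dvd two_pos (orderOf_dvd_of_pow_eq_one (L.elem.2 x hxV))
  have h4 : B₀.relIndex M₂ ≤ 4 := by
    have hB₁ : B₀.relIndex X₁ ≤ 2 := by
      have e : (cj h B₀).relIndex (cj h X₀) = B₀.relIndex X₀ :=
        relIndex_map_map_of_injective _ _ (MulEquiv.injective _)
      rw [cj_eq_of_mem hhB] at e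
      rw [hX₁, e]; exact hx2
    rw [← relIndex_mul_relIndex B₀ X₀ M₂ le_sup_left le_sup_right, hM₂,
      relIndex_sup_of_normalizes (hX₁V.trans (hVn X₀ hX₀V))]
    exact Nat.mul_le_mul hx2 (le_trans
      (relIndex_le_of_le_left le_sup_left index_ne_zero_of_finite) hB₁)
  have h6 : h ^ 6 ∈ triv B₀ V :=
    triv_of_chain hM₂V (hVn B₀ hB₀V) (hVsq B₀) (pow_mem hhB 6) (pow_mem hhT 6)
      (pow_six_mem_triv (hM₂V.trans (hVn B₀ hB₀V)) h4 ⟨hhT.1.2, hhB⟩) hm
      (by rw [← pow_mul, mul_comm, pow_mul, hpow, one_pow]; exact one_mem _)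
  have h3 : h ^ 3 ∈ triv B₀ V := by
    obtain ⟨j, hj⟩ := hm
    have e : h ^ 3 = (h ^ m) ^ 3 * ((h ^ 6) ^ j)⁻¹ := by
      rw [eq_mul_inv_iff_mul_eq, ← pow_mul, ← pow_mul, ← pow_add, hj]; ring_nf
    rw [e, hpow, one_pow, one_mul]
    exact inv_mem (pow_mem h6 j)
  have hh := triv_of_free hG hB₀V (hVn B₀ hB₀V) (hVsq B₀) (hVc B₀) ⟨hbV, hbB⟩ ⟨hhV, hhB⟩
    (centralizer_le_triv hB₀V (hu.elem.sq b hbD)) (centralizer_le_triv hB₀V hinv) h3
  -- so `V = Y ⁅V, Q₂⁆`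
  have hQY : Q₂ ≤ normalizer (Y : Set G) := L.QT.trans L.TY
  have hYV : Y ≤ V := L.le
  have hN : Q₂ ⊔ zpowers h ≤ normalizer ((Y ⊔ B₀ : Subgroup G) : Set G) := by
    refine sup_le (le_normalizer_sup hQY (le_normalizer_commutator hQV le_normalizer)) ?_
    rw [zpowers_le, ← cj_eq_iff_mem_normalizer]
    refine eq_of_le_of_card_ge ?_ (card_cj _ _).ge
    rintro _ ⟨v, hv, rfl⟩
    have e : (MulAut.conj h).toMonoidHom v = ⁅h, v⁆ * v := by simp [commutatorElement_def]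
    rw [e]
    exact mul_mem (mem_sup_right (hh.2 v ((sup_le hYV hB₀V) hv))) hv
  have hsup : V ≤ Y ⊔ ⁅V, Q₂⁆ := L.gen.trans_le (iSup_le fun f =>
    (cj_mono _ (le_sup_left : Y ≤ Y ⊔ B₀)).trans (cj_eq_of_mem (hN f.2)).le)
  have hVY := eq_of_sup_commutator L.elem hYV hQV hQY L.two hsup
  exact hu.moves (hVY ▸ hY)

/-- The layer theorem. -/
theorem layer (hG : ¬ Cfsg.Involves (Equiv.Perm (Fin 4)) G) :
    ∀ (n : ℕ) (Q F T Y V : Subgroup G), Layer Q F T Y V → Q.relIndex F ≤ n → OF T Y → NC T Y →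
      NC T V := by
  intro n
  induction n using Nat.strong_induction_on with
  | _ n ih =>
    intro Q₀ F₀ T₀ Y V L₀ hn hY₀ hYn₀
    obtain ⟨Q, F, T, L, hTT, hTY, hle, hcen⟩ := L₀.normalise
    suffices NC T V from this.mono hTT
    intro D u hu₀
    have hQD : Q ⊔ D ≤ T := sup_le L.QT hu₀.elem.le
    have L' := L.mono hQD le_sup_left
    have hcen' := (inf_le_inf_right (centralizer (V : Set G)) (sup_le_sup_left hQD F)).trans hcen
    have hY : OF (Q ⊔ D) Y := (hY₀.congr L₀.TY hTY).mono hQD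
    have hYn : NC (Q ⊔ D) Y := (hYn₀.congr L₀.TY hTY).mono hQD
    have hu : CNO (Q ⊔ D) V D u := ⟨⟨le_sup_right, hu₀.elem.comm, hu₀.elem.sq⟩, hu₀.moves,
      hu₀.mem, hu₀.card, hu₀.inj, hu₀.cubic⟩
    have hOFV : OF (Q ⊔ D) V := layer_of hG _ _ _ _ _ _ L' le_rfl hY
    obtain ⟨hsq, hcomm, hDC⟩ := hu.elem.normal_data hcen'
    obtain ⟨Ym, D₀, b, h, r, k, S⟩ := exists_step L' hu.elem hu.moves hcen'
      (fun E => OF (Q ⊔ D) E ∧ NC (Q ⊔ D) E) ⟨hY, hYn⟩
      (fun f hf hfT E hE => by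
        have h1 := (of_map_iff (f := (MulAut.conj f).toMonoidHom) (MulEquiv.injective _)).2 hE.1
        have h2 := (nc_map_iff (f := (MulAut.conj f).toMonoidHom) (MulEquiv.injective _)).2 hE.2
        rw [show Subgroup.map _ (Q ⊔ D) = Q ⊔ D from hfT] at h1 h2
        exact ⟨h1, h2⟩)
      (fun F₁ E V₁ L₁ hlt hE => ⟨layer_of hG _ _ _ _ _ _ L₁ le_rfl hE.1,
        ih _ (lt_of_lt_of_le hlt (hle.trans hn)) _ _ _ _ _ L₁ le_rfl hE.1 hE.2⟩)
      (fun E hE _ hPr => by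
        by_contra hm
        obtain ⟨e, he⟩ := hu.exists_restrict hOFV hE hPr.1 hm
        exact hPr.2 D e he)
    obtain ⟨hFQ2, hTQ2⟩ := S.normalizes L' hcomm
    set Q₂ := Q ⊔ D₀ with hQ₂
    have hQ2T : Q₂ ≤ Q ⊔ D := sup_le_sup_left S.le₀ Q
    have hbT : b ∈ Q ⊔ D := mem_sup_right S.bD
    set F₃ := Q₂ ⊔ zpowers h with hF₃
    set V₂ := ⨆ f : ↥F₃, cj (f : G) Ym with hV₂
    have hF₃V : F₃ ≤ normalizer (V : Set G) :=
      sup_le (hQ2T.trans L'.TV) (zpowers_le.2 (L'.FV S.hF))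
    have hV₂V : V₂ ≤ V := iSup_le fun f => (cj_mono _ S.le).trans (cj_eq_of_mem (hF₃V f.2)).le
    have hTF : Q ⊔ D ≤ normalizer (F₃ : Set G) := by
      refine sup_le ((le_sup_left : Q ≤ Q₂).trans (le_sup_left.trans le_normalizer)) fun d hd => ?_
      have hbF : b ∈ normalizer (F₃ : Set G) := by
        rw [← cj_eq_iff_mem_normalizer]
        refine eq_of_le_of_card_ge ?_ (card_cj _ _).ge
        rw [hF₃, cj, Subgroup.map_sup]
        refine sup_le (le_sup_of_le_left (cj_eq_of_mem (hTQ2 hbT)).le) ?_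
        rw [MonoidHom.map_zpowers, zpowers_le]
        have hc : b * h * b⁻¹ * h ∈ Q := hcen' ⟨mem_sup_left
          (mul_mem (conj_mem_of_mem_normalizer (L'.TF hbT) S.hF) S.hF), S.inv⟩
        have e : (MulAut.conj b).toMonoidHom h = (b * h * b⁻¹ * h) * h⁻¹ := by simp [mul_assoc]
        rw [e]
        exact mul_mem (mem_sup_left (mem_sup_left hc)) (mem_sup_right (inv_mem (mem_zpowers h)))
      have h0 : ∀ d' ∈ D₀, d' ∈ normalizer (F₃ : Set G) := fun d' hd' =>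
        le_normalizer (mem_sup_left (mem_sup_right hd'))
      rcases S.dec d hd with h' | h'
      · exact h0 d h'
      · have := mul_mem (inv_mem hbF) (h0 _ h')
        rwa [inv_mul_cancel_left] at this
    have hodd : Odd (Q₂.relIndex F₃) := by
      have hn : zpowers h ≤ normalizer (Q₂ : Set G) := zpowers_le.2 (hFQ2 S.hF)
      rw [hF₃, sup_comm, relIndex_sup_of_normalizes hn]
      refine S.odd_pow.of_dvd_nat ((relIndex_dvd_card _ _).trans ?_)
      rw [Nat.card_zpowers]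
      exact orderOf_dvd_of_pow_eq_one S.pow
    have htwo : ∀ q ∈ Q₂, ∃ j : ℕ, q ^ 2 ^ j ∈ centralizer (V₂ : Set G) := by
      intro q hq
      rw [hQ₂, sup_comm] at hq
      obtain ⟨d, hd, q₀, hq₀, rfl⟩ :=
        exists_mul_of_mem_sup ((S.le₀.trans le_sup_right).trans L'.TQ) hq
      have h1 : d * q₀ * (d * q₀) ∈ Q := by
        have e : d * q₀ * (d * q₀) = (d * d) * ((d⁻¹ * q₀ * d⁻¹⁻¹) * q₀) := by group
        rw [e]
        exact mul_mem (hsq d (S.le₀ hd)) (mul_mem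
          (conj_mem_of_mem_normalizer (inv_mem (L'.TQ (mem_sup_right (S.le₀ hd)))) hq₀) hq₀)
      obtain ⟨j, hj⟩ := L'.two _ h1
      refine ⟨j + 1, cen_antitone hV₂V ?_⟩
      rwa [pow_succ', pow_mul, sq]
    have L₃ : Layer Q₂ F₃ (Q ⊔ D) Ym V₂ :=
      ⟨le_sup_left, hQ2T, sup_le le_normalizer (zpowers_le.2 (hFQ2 S.hF)), hTQ2, hTF, S.nY, hodd,
        ⟨⟨⟨fun s t => Subtype.ext (Modules.elemAb_comm L.elem (hV₂V s.2) (hV₂V t.2))⟩⟩,
          fun s hs => L.elem.2 s (hV₂V hs)⟩, rfl, htwo⟩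
    have hmv : ¬ D ≤ centralizer (V₂ : Set G) := by
      intro hc
      obtain ⟨y, hy, hnc⟩ := S.not_fixes L'
      refine hnc (hc S.bD (h * y * h⁻¹) ?_).symm
      exact le_iSup (fun f : ↥F₃ => cj (f : G) Ym) ⟨h, mem_sup_right (mem_zpowers h)⟩
        (conj_mem_cj.2 hy)
    have hOF2 : OF (Q ⊔ D) V₂ := layer_of hG _ _ _ _ _ _ L₃ le_rfl S.pr.1
    obtain ⟨e, he⟩ := hu.exists_restrict hOFV hV₂V hOF2 hmv
    exact nc_final hG (Q₂ := Q₂) L₃ he S.cen le_sup_right S.bD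
      (S.DC ⟨mul_mem S.bD S.bD, hsq b S.bD⟩) S.dec S.odd_pow S.pow (cen_antitone hV₂V S.inv)

end Cfsg.Agent.LAE60.W
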