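import Cfsg.Agent.LAE60.WGood
import Cfsg.Agent.CharTwo.ModularSylow
import Cfsg.Agent.PSolv.Cores
import Cfsg.Agent.PSolv.HallHigmanDual

/-!
Stellmacher's theorem for solvable groups: in a finite solvable group of characteristic two without
section `S₄` the subgroup `W(S)` of a Sylow 2-subgroup `S` is normal.
-/

set_option autoImplicit false
set_option linter.unusedVariables false
set_option linter.unusedSectionVars false
set_option linter.style.haveILetI false

open Subgroup
open scoped commutatorElement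

namespace Cfsg.Agent.LAE60.W

open Cfsg.Agent.Fusion (cj mem_cj conj_mem_cj cj_cj cj_one cj_mono cj_eq_of_mem card_cj
  cj_eq_iff_mem_normalizer)

universe u

variable {G : Type u} [Group G] [Finite G]

/-- `F` normalises `W(S)` when `F / Q` has odd order and `W(S) ≤ Q`. -/
theorem normalizes_of_odd (hG : ¬ Cfsg.Involves (Equiv.Perm (Fin 4)) G) {Q F S : Subgroup G}
    (hS : IsPGroup 2 S) (hQS : Q ≤ S) (hFQ : F ≤ normalizer (Q : Set G))
    (hSQ : S ≤ normalizer (Q : Set G)) (hSF : S ≤ normalizer (F : Set G)) (hQF : Q ≤ F)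
    (hodd : Odd (Q.relIndex F)) (hW : WS S ≤ Q) : F ≤ normalizer (WS S : Set G) := by
  have hWg := good_WS S
  have hsub : ∀ f ∈ F, cj f (WS S) ≤ Q ∧ Q ≤ cj f S := fun f hf =>
    ⟨(cj_mono f hW).trans (cj_eq_of_mem (hFQ hf)).le,
      (cj_eq_of_mem (hFQ hf)).ge.trans (cj_mono f hQS)⟩
  set V := ⨆ f : ↥F, cj (f : G) (WS S) with hV
  have hVe : IsElementaryAbelian 2 V := by
    refine elemAb_iSup (fun f => Modules.elemAb_map _ hWg.elem) fun f f' => ?_
    have e : ∀ f : ↥F, Good (cj (f : G) S) (cj (f : G) (WS S)) := fun f =>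
      (good_map_iff (f := (MulAut.conj (f : G)).toMonoidHom) (MulEquiv.injective _)).2 hWg
    exact mutual_commute (e f).elem (e f').elem (e f).of (e f').of
      ((hsub f' f'.2).1.trans (hsub f f.2).2) ((hsub f f.2).1.trans (hsub f' f'.2).2)
  have L : Layer Q F S (WS S) V :=
    ⟨hQF, hQS, hFQ, hSQ, hSF, hWg.nor, hodd, hVe, rfl, fun q hq => by
      obtain ⟨k, hk⟩ := hS ⟨q, hQS hq⟩
      exact ⟨k, by rw [show q ^ 2 ^ k = 1 from congrArg Subtype.val hk]; exact one_mem _⟩⟩
  have hVS : V ≤ S := iSup_le fun f => (hsub f f.2).1.trans hQS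
  have hle : V ≤ WS S := le_WS ⟨hVS, hVe, L.TV, layer_of hG _ _ _ _ _ _ L le_rfl hWg.of,
    layer hG _ _ _ _ _ _ L le_rfl hWg.of hWg.nc⟩
  intro f hf
  rw [← cj_eq_iff_mem_normalizer]
  exact eq_of_le_of_card_ge
    ((le_iSup (fun f : ↥F => cj (f : G) (WS S)) ⟨f, hf⟩).trans hle) (card_cj f _).ge

/-- A subgroup containing a self-centralizing normal 2-subgroup has characteristic two. -/
theorem charTwo_of_le {A Q : Subgroup G} [Q.Normal] (hQ : IsPGroup 2 Q) (hQA : Q ≤ A)
    (hC : centralizer (Q : Set G) ≤ Q) :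
    centralizer (Cfsg.pCore 2 ↥A : Set ↥A) ≤ Cfsg.pCore 2 ↥A := by
  have hle : Q.subgroupOf A ≤ Cfsg.pCore 2 ↥A :=
    Cores.le_pCore inferInstance (hQ.comap_subtype)
  intro x hx
  refine hle (mem_subgroupOf.2 (hC fun q hq => ?_))
  exact congrArg Subtype.val (hx ⟨q, hQA hq⟩ (hle (mem_subgroupOf.2 hq)))

theorem pCore_normal (G : Type*) [Group G] : (Cfsg.pCore 2 G).Normal := by
  haveI := PSolv.pCore_characteristic 2 G
  infer_instance

theorem pPrimeCore_normal (G : Type*) [Group G] [Finite G] : (Cfsg.pPrimeCore 2 G).Normal := by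
  haveI := PSolv.pPrimeCore_characteristic 2 G
  infer_instance

/-- Stellmacher's theorem for solvable groups. -/
theorem normal_WS : ∀ (n : ℕ) (G : Type u) [Group G] [Finite G], Nat.card G ≤ n →
    Group.IsSolvable G → ¬ Cfsg.Involves (Equiv.Perm (Fin 4)) G →
    centralizer (Cfsg.pCore 2 G : Set G) ≤ Cfsg.pCore 2 G →
    ∀ S : Sylow 2 G, (WS (S : Subgroup G)).Normal := by
  intro n
  induction n using Nat.strong_induction_on with
  | _ n ih =>
    intro G _ _ hn hsol hfree hC S
    haveI : Fact (Nat.Prime 2) := ⟨Nat.prime_two⟩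
    set Q := Cfsg.pCore 2 G with hQdef
    haveI hQn : Q.Normal := pCore_normal G
    have hQp : IsPGroup 2 Q := Cores.pCore_isPGroup
    have hQS : Q ≤ S := Cores.pCore_le_sylow S
    have hrec : ∀ A : Subgroup G, (S : Subgroup G) ≤ A → A ≠ ⊤ →
        A ≤ normalizer (WS (S : Subgroup G) : Set G) := by
      intro A hSA hA
      have hlt : Nat.card A < n := lt_of_lt_of_le
        (lt_of_le_of_ne (card_le_card_group A) fun e => hA (eq_top_of_card_eq A e)) hn
      haveI hsA : Group.IsSolvable ↥A := by haveI := hsol; infer_instance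
      have hN := ih _ hlt ↥A le_rfl hsA
        (fun h => hfree (EvenLocal.involves_subgroup h))
        (charTwo_of_le hQp (hQS.trans hSA) hC) (S.subtype hSA)
      haveI := hN
      have e : (WS ((S.subtype hSA : Sylow 2 ↥A) : Subgroup ↥A)).map A.subtype =
          WS (S : Subgroup G) := by
        rw [← WS_map A.subtype_injective, S.coe_subtype hSA, subgroupOf_map_subtype,
          inf_of_le_left hSA]
      intro a ha
      rw [← e]
      exact le_normalizer_map A.subtype ⟨⟨a, ha⟩, by rw [normalizer_eq_top]; exact mem_top _, rfl⟩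
    haveI hOn : (Cfsg.pPrimeCore 2 (G ⧸ Q)).Normal := pPrimeCore_normal _
    set F := (Cfsg.pPrimeCore 2 (G ⧸ Q)).comap (QuotientGroup.mk' Q) with hF
    haveI hFn : F.Normal := hOn.comap _
    have hQF : Q ≤ F := fun q hq => by
      rw [hF, mem_comap, show (QuotientGroup.mk' Q) q = 1 from (QuotientGroup.eq_one_iff q).2 hq]
      exact one_mem _
    have hnormQ : ∀ A : Subgroup G, A ≤ normalizer (Q : Set G) := fun A => by
      rw [normalizer_eq_top]; exact le_top
    have hnormF : ∀ A : Subgroup G, A ≤ normalizer (F : Set G) := fun A => by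
      rw [normalizer_eq_top]; exact le_top
    have hodd : Odd (Q.relIndex F) := by
      have e : Q.relIndex F = Nat.card (F.map (QuotientGroup.mk' Q)) := by
        rw [← relIndex_ker, QuotientGroup.ker_mk']
      rw [e, hF, map_comap_eq_self_of_surjective (QuotientGroup.mk'_surjective Q)]
      exact Nat.coprime_two_right.1 Cores.pPrimeCore_coprime
    have hpsolv : Cfsg.IsPSolvable 2 (G ⧸ Q) :=
      PSolv.isPSolvable_quotient (PSolv.isPSolvable_of_isSolvable hsol) Q
    have hHH := PSolv.centralizer_pPrimeCore_le hpsolv Cores.pCore_quotient_pCore_eq_bot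
    have hFit : ∀ u ∈ (S : Subgroup G), (∀ f ∈ F, ⁅f, u⁆ ∈ Q) → u ∈ Q := by
      intro u hu hf
      have h1 : QuotientGroup.mk' Q u ∈ Cfsg.pPrimeCore 2 (G ⧸ Q) := hHH fun x hx => by
        obtain ⟨f, rfl⟩ := QuotientGroup.mk'_surjective Q x
        refine commutatorElement_eq_one_iff_mul_comm.1 ?_
        rw [← map_commutatorElement]
        exact (QuotientGroup.eq_one_iff _).2 (hf f hx)
      obtain ⟨k, hk⟩ := S.isPGroup' ⟨u, hu⟩
      have h2 : (QuotientGroup.mk' Q u) ^ 2 ^ k = 1 := by
        rw [← map_pow, show u ^ 2 ^ k = 1 from congrArg Subtype.val hk, map_one]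
      have h3 := Cores.orderOf_coprime_of_mem_pPrimeCore h1
      have h4 : orderOf (QuotientGroup.mk' Q u) = 1 := Nat.eq_one_of_dvd_coprimes
        (Nat.Coprime.pow_right k h3) dvd_rfl (orderOf_dvd_of_pow_eq_one h2)
      exact (QuotientGroup.eq_one_iff u).1 (orderOf_eq_one_iff.1 h4)
    have hW : WS (S : Subgroup G) ≤ Q :=
      good_le hQS (hnormQ F) (hnormQ _) (hnormF _) hQF hodd (fun y _ hy => hC hy) hFit
        (good_WS (S : Subgroup G))
    have hFW := normalizes_of_odd hfree S.isPGroup' hQS (hnormQ F) (hnormQ _) (hnormF _) hQF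
      hodd hW
    have hSW : (S : Subgroup G) ≤ normalizer (WS (S : Subgroup G) : Set G) := (good_WS _).nor
    rw [← normalizer_eq_top_iff, ← top_le_iff]
    rcases eq_or_ne (F ⊔ (S : Subgroup G)) ⊤ with htop | hne
    · rw [← htop]; exact sup_le hFW hSW
    haveI hLn' : (Cfsg.pCore 2 (G ⧸ F)).Normal := pCore_normal _
    set L := (Cfsg.pCore 2 (G ⧸ F)).comap (QuotientGroup.mk' F) with hL
    haveI hLn : L.Normal := hLn'.comap _
    have hLFS : L ≤ F ⊔ (S : Subgroup G) := by
      refine le_trans (comap_mono (Cores.pCore_le_sylow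
        (S.mapSurjective (QuotientGroup.mk'_surjective F)))) ?_
      rw [Sylow.coe_mapSurjective, comap_map_eq, QuotientGroup.ker_mk', sup_comm]
    have hLW : L ≤ normalizer (WS (S : Subgroup G) : Set G) := hLFS.trans (sup_le hFW hSW)
    set T := (S : Subgroup G) ⊓ L with hT
    obtain ⟨PT, hPT⟩ : ∃ P : Sylow 2 ↥L, (P : Subgroup ↥L) = T.subgroupOf L := by
      have hp : IsPGroup 2 (T.subgroupOf L) :=
        (S.isPGroup'.to_le (inf_le_left : T ≤ _)).comap_subtype
      have hnd := CharTwo.not_dvd_inf_relIndex_normal S L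
      exact ⟨hp.toSylow hnd, rfl⟩
    have hfr := Sylow.normalizer_sup_eq_top PT
    rw [hPT, subgroupOf_map_subtype, inf_of_le_left (inf_le_right : T ≤ L)] at hfr
    rw [← hfr]
    refine sup_le ?_ hLW
    by_cases hTN : normalizer (T : Set G) = ⊤
    · -- impossible
      exfalso
      haveI : T.Normal := normalizer_eq_top_iff.1 hTN
      have hTQ : T ≤ Q := Cores.le_pCore inferInstance (S.isPGroup'.to_le inf_le_left)
      have hLF : L ≤ F := by
        intro l hl
        obtain ⟨s, hs, f, hf, rfl⟩ := exists_mul_of_mem_sup (hnormF (S : Subgroup G))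
          (sup_comm F (S : Subgroup G) ▸ hLFS hl)
        have hfL : f ∈ L := by
          rw [hL, mem_comap, show (QuotientGroup.mk' F) f = 1 from
            (QuotientGroup.eq_one_iff f).2 hf]
          exact one_mem _
        have : s ∈ L := by
          have := mul_mem hl (inv_mem hfL)
          rwa [mul_inv_cancel_right] at this
        exact mul_mem (hQF (hTQ ⟨hs, this⟩)) hf
      have hp0 : Cfsg.pCore 2 (G ⧸ F) = ⊥ := by
        rw [eq_bot_iff]
        intro x hx
        obtain ⟨g, rfl⟩ := QuotientGroup.mk'_surjective F x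
        exact (QuotientGroup.eq_one_iff g).2 (hLF hx)
      have hq0 : Cfsg.pPrimeCore 2 (G ⧸ F) = ⊥ := by
        rw [eq_bot_iff]
        intro x hx
        obtain ⟨g, rfl⟩ := QuotientGroup.mk'_surjective F x
        refine (QuotientGroup.eq_one_iff g).2 ?_
        haveI := pPrimeCore_normal (G ⧸ F)
        set M := (Cfsg.pPrimeCore 2 (G ⧸ F)).comap (QuotientGroup.mk' F) with hM
        haveI : M.Normal := Subgroup.Normal.comap (pPrimeCore_normal (G ⧸ F)) _
        have hFM : F ≤ M := fun f hf => by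
          rw [hM, mem_comap, show (QuotientGroup.mk' F) f = 1 from
            (QuotientGroup.eq_one_iff f).2 hf]
          exact one_mem _
        have hcop : (Nat.card (M.map (QuotientGroup.mk' Q))).Coprime 2 := by
          rw [← relIndex_ker, QuotientGroup.ker_mk', ← relIndex_mul_relIndex Q F M hQF hFM]
          refine Nat.Coprime.mul_left (Nat.coprime_two_right.2 hodd) ?_
          have e : F.relIndex M = Nat.card (M.map (QuotientGroup.mk' F)) := by
            rw [← relIndex_ker, QuotientGroup.ker_mk']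
          rw [e, hM, map_comap_eq_self_of_surjective (QuotientGroup.mk'_surjective F)]
          exact Cores.pPrimeCore_coprime
        exact Cores.le_pPrimeCore (Subgroup.Normal.map inferInstance _
          (QuotientGroup.mk'_surjective Q)) hcop ⟨g, hx, rfl⟩
      have htriv := PSolv.centralizer_pPrimeCore_le
        (PSolv.isPSolvable_quotient (PSolv.isPSolvable_of_isSolvable hsol) F) hp0
      rw [hq0] at htriv
      refine hne (eq_top_iff.2 fun g _ => mem_sup_left ?_)
      exact (QuotientGroup.eq_one_iff g).1 (mem_bot.1 (htriv fun x hx => by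
        rw [mem_bot.1 hx, one_mul, mul_one]))
    · exact hrec _ (fun s hs => (normalizer_inf_le _ _
        ⟨le_normalizer hs, by rw [normalizer_eq_top]; exact mem_top s⟩)) hTN

/-- The theorem for a subgroup of an ambient group. -/
theorem le_normalizer_WS {M T : Subgroup G} (hsol : Group.IsSolvable M)
    (hfree : ¬ Cfsg.Involves (Equiv.Perm (Fin 4)) ↥M)
    (hC : centralizer (Cfsg.pCore 2 ↥M : Set ↥M) ≤ Cfsg.pCore 2 ↥M) (hT : IsPGroup 2 T)
    (hTM : T ≤ M) (hmax : ∀ R : Subgroup G, R ≤ M → IsPGroup 2 R → T ≤ R → R = T) :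
    M ≤ normalizer (WS T : Set G) := by
  haveI : Fact (Nat.Prime 2) := ⟨Nat.prime_two⟩
  obtain ⟨P, hP⟩ : ∃ P : Sylow 2 ↥M, (P : Subgroup ↥M) = T.subgroupOf M := by
    refine ⟨⟨T.subgroupOf M, hT.comap_subtype, fun {R} hR hle => ?_⟩, rfl⟩
    have := hmax (R.map M.subtype) (map_subtype_le R) (hR.map M.subtype) (by
      rw [← inf_of_le_left hTM, ← subgroupOf_map_subtype]; exact map_mono hle)
    rw [← this, subgroupOf, comap_map_eq_self_of_injective M.subtype_injective]
  haveI := normal_WS _ ↥M le_rfl hsol hfree hC P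
  have e : (WS (P : Subgroup ↥M)).map M.subtype = WS T := by
    rw [← WS_map M.subtype_injective, hP, subgroupOf_map_subtype, inf_of_le_left hTM]
  intro a ha
  rw [← e]
  exact le_normalizer_map M.subtype ⟨⟨a, ha⟩, by rw [normalizer_eq_top]; exact mem_top _, rfl⟩

end Cfsg.Agent.LAE60.W
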