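import Mathlib.GroupTheory.Perm.Cycle.Type
import Cfsg.Agent.LAE60.WAct
import Cfsg.Agent.EvenLocal.InvolvedS4
import Cfsg.Agent.Coprime.Generation

/-!
Tools for the layer theorem: elements acting trivially on a section, the `S₄`-free criterion on a
section, counting for fixed-point-free actions, unipotence, and generation by centralizers of
hyperplanes.
-/

set_option autoImplicit false
set_option linter.unusedVariables false
set_option linter.unusedSectionVars false
set_option linter.style.haveILetI false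

open Subgroup
open scoped commutatorElement

namespace Cfsg.Agent.LAE60.W

variable {G : Type*} [Group G]

theorem commutator_mem_left {g v : G} {V : Subgroup G} (hg : g ∈ normalizer (V : Set G))
    (hv : v ∈ V) : ⁅g, v⁆ ∈ V :=
  mul_mem (conj_mem_of_mem_normalizer hg hv) (inv_mem hv)

theorem commutator_mem_right {g v : G} {V : Subgroup G} (hg : g ∈ normalizer (V : Set G))
    (hv : v ∈ V) : ⁅v, g⁆ ∈ V := by
  rw [← commutatorElement_inv]
  exact inv_mem (commutator_mem_left hg hv)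

/-- The elements acting trivially on the section `V / B`. -/
def triv (B V : Subgroup G) : Subgroup G where
  carrier := {g | g ∈ normalizer (V : Set G) ⊓ normalizer (B : Set G) ∧ ∀ v ∈ V, ⁅g, v⁆ ∈ B}
  one_mem' := ⟨one_mem _, fun v _ => by simp⟩
  mul_mem' := fun {g h} hg hh => ⟨mul_mem hg.1 hh.1, fun v hv => by
    have : ⁅g * h, v⁆ = g * ⁅h, v⁆ * g⁻¹ * ⁅g, v⁆ := by
      simp only [commutatorElement_def]; group
    rw [this]
    exact mul_mem (conj_mem_of_mem_normalizer hg.1.2 (hh.2 v hv)) (hg.2 v hv)⟩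
  inv_mem' := fun {g} hg => ⟨inv_mem hg.1, fun v hv => by
    have : ⁅g⁻¹, v⁆ = g⁻¹ * ⁅g, v⁆⁻¹ * g⁻¹⁻¹ := by simp only [commutatorElement_def]; group
    rw [this]
    exact conj_mem_of_mem_normalizer (inv_mem hg.1.2) (inv_mem (hg.2 v hv))⟩

theorem mem_triv {B V : Subgroup G} {g : G} :
    g ∈ triv B V ↔
      g ∈ normalizer (V : Set G) ⊓ normalizer (B : Set G) ∧ ∀ v ∈ V, ⁅g, v⁆ ∈ B := Iff.rfl

theorem conj_mem_triv {B V : Subgroup G} {g n : G}
    (hn : n ∈ normalizer (V : Set G) ⊓ normalizer (B : Set G)) (hg : g ∈ triv B V) :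
    n * g * n⁻¹ ∈ triv B V := by
  refine ⟨mul_mem (mul_mem hn hg.1) (inv_mem hn), fun v hv => ?_⟩
  have : ⁅n * g * n⁻¹, v⁆ = n * ⁅g, n⁻¹ * v * n⁻¹⁻¹⁆ * n⁻¹ := by
    simp only [commutatorElement_def]; group
  rw [this]
  exact conj_mem_of_mem_normalizer hn.2 (hg.2 _ (conj_mem_of_mem_normalizer (inv_mem hn.1) hv))

theorem mem_centralizer_iff_commutator {V : Subgroup G} {g : G} :
    g ∈ centralizer (V : Set G) ↔ ∀ v ∈ V, ⁅g, v⁆ = 1 :=
  ⟨fun h v hv => commutatorElement_eq_one_iff_mul_comm.2 (h v hv).symm,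
    fun h v hv => (commutatorElement_eq_one_iff_mul_comm.1 (h v hv)).symm⟩

theorem centralizer_le_triv {B V : Subgroup G} (hBV : B ≤ V) :
    centralizer (V : Set G) ≤ triv B V := fun g hg =>
  ⟨⟨centralizer_le_normalizer' V hg, centralizer_le_normalizer' B (cen_antitone hBV hg)⟩,
    fun v hv => by rw [mem_centralizer_iff_commutator.1 hg v hv]; exact one_mem B⟩

/-- An element of odd order trivial on `V / M` and on `M / B` is trivial on `V / B`. -/
theorem triv_of_chain {B M V : Subgroup G} (hMV : M ≤ V) (hVn : V ≤ normalizer (B : Set G))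
    (hVsq : ∀ v ∈ V, v * v ∈ B) {g : G} (hg : g ∈ normalizer (B : Set G))
    (h₁ : g ∈ triv M V) (h₂ : g ∈ triv B M) {m : ℕ} (hm : Odd m) (hgm : g ^ m ∈ triv B V) :
    g ∈ triv B V := by
  refine ⟨⟨h₁.1.1, hg⟩, fun v hv => ?_⟩
  have hcM : ⁅g, v⁆ ∈ M := h₁.2 v hv
  have hcB : ∀ i : ℕ, (⁅g, v⁆ ^ i)⁻¹ * ⁅g ^ i, v⁆ ∈ B := by
    intro i
    induction i with
    | zero => simp
    | succ i ih =>
      set c := ⁅g, v⁆ with hc
      have hci : c ^ i ∈ M := pow_mem hcM i
      have e : (c ^ (i + 1))⁻¹ * ⁅g ^ (i + 1), v⁆ =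
          c⁻¹ * (((c ^ i)⁻¹ * ⁅g, c ^ i⁆ * (c ^ i)⁻¹⁻¹) *
            (g * ((c ^ i)⁻¹ * ⁅g ^ i, v⁆) * g⁻¹)) * c⁻¹⁻¹ := by
        rw [pow_succ c, pow_succ' g]
        simp only [hc, commutatorElement_def]
        group
      rw [e]
      exact conj_mem_of_mem_normalizer (hVn (inv_mem (hMV hcM)))
        (mul_mem (conj_mem_of_mem_normalizer (hVn (inv_mem (hMV hci))) (h₂.2 _ hci))
          (conj_mem_of_mem_normalizer hg ih))
  obtain ⟨j, rfl⟩ := hm
  have h3 : ⁅g, v⁆ ^ (2 * j + 1) ∈ B := by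
    have := mul_mem (hgm.2 v hv) (inv_mem (hcB (2 * j + 1)))
    rwa [mul_inv_rev, inv_inv, mul_inv_cancel_left] at this
  have h4 : ⁅g, v⁆ ^ (2 * j) ∈ B := by
    rw [pow_mul]
    exact pow_mem (by rw [sq]; exact hVsq _ (hMV hcM)) j
  rw [pow_succ] at h3
  have := mul_mem (inv_mem h4) h3
  rwa [inv_mul_cancel_left] at this

/-- `g ^ 6` is trivial on a section of order at most four. -/
theorem pow_six_mem_triv [Finite G] {B M : Subgroup G} (hM : M ≤ normalizer (B : Set G))
    (hle : B.relIndex M ≤ 4) {g : G}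
    (hg : g ∈ normalizer (M : Set G) ⊓ normalizer (B : Set G)) : g ^ 6 ∈ triv B M := by
  classical
  refine ⟨pow_mem hg 6, fun x hx => ?_⟩
  let Sx : Subgroup G :=
    { carrier := {h | h ∈ normalizer (M : Set G) ⊓ normalizer (B : Set G) ∧
        x⁻¹ * (h * x * h⁻¹) ∈ B}
      one_mem' := ⟨one_mem _, by simp⟩
      mul_mem' := fun {a b} ha hb => ⟨mul_mem ha.1 hb.1, by
        have e : x⁻¹ * (a * b * x * (a * b)⁻¹) =
            (x⁻¹ * (a * x * a⁻¹)) * (a * (x⁻¹ * (b * x * b⁻¹)) * a⁻¹) := by group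
        rw [e]
        exact mul_mem ha.2 (conj_mem_of_mem_normalizer ha.1.2 hb.2)⟩
      inv_mem' := fun {a} ha => ⟨inv_mem ha.1, by
        have e : x⁻¹ * (a⁻¹ * x * a⁻¹⁻¹) = a⁻¹ * (x⁻¹ * (a * x * a⁻¹))⁻¹ * a⁻¹⁻¹ := by group
        rw [e]
        exact conj_mem_of_mem_normalizer (inv_mem ha.1.2) (inv_mem ha.2)⟩ }
  suffices h6 : g ^ 6 ∈ Sx by
    have e : ⁅g ^ 6, x⁆ = x * (x⁻¹ * (g ^ 6 * x * (g ^ 6)⁻¹)) * x⁻¹ := by
      rw [commutatorElement_def]; group
    rw [e]
    exact conj_mem_of_mem_normalizer (hM hx) h6.2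
  by_cases hx1 : x ∈ B
  · refine ⟨pow_mem hg 6, mul_mem (inv_mem hx1) (conj_mem_of_mem_normalizer (pow_mem hg.2 6) hx1)⟩
  have key : ∀ i j : ℕ, i ≤ j → (g ^ i * x * (g ^ i)⁻¹)⁻¹ * (g ^ j * x * (g ^ j)⁻¹) ∈ B →
      g ^ (j - i) ∈ Sx := by
    intro i j hij h
    refine ⟨pow_mem hg _, ?_⟩
    obtain ⟨k, rfl⟩ := Nat.exists_eq_add_of_le hij
    rw [Nat.add_sub_cancel_left]
    have h' := conj_mem_of_mem_normalizer (inv_mem (pow_mem hg.2 i)) h
    have e : (g ^ i)⁻¹ * ((g ^ i * x * (g ^ i)⁻¹)⁻¹ *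
        (g ^ (i + k) * x * (g ^ (i + k))⁻¹)) * (g ^ i)⁻¹⁻¹ =
        x⁻¹ * (g ^ k * x * (g ^ k)⁻¹) := by
      rw [pow_add]; group
    rwa [e] at h'
  let c : Fin 4 → {q : ↥M ⧸ B.subgroupOf M // q ≠ ((1 : ↥M) : ↥M ⧸ B.subgroupOf M)} := fun i =>
    ⟨((⟨g ^ (i : ℕ) * x * (g ^ (i : ℕ))⁻¹, conj_mem_of_mem_normalizer (pow_mem hg.1 _) hx⟩ : ↥M) :
        ↥M ⧸ B.subgroupOf M), fun h => hx1 (by
      rw [QuotientGroup.eq, mem_subgroupOf] at h
      have h' := conj_mem_of_mem_normalizer (inv_mem (pow_mem hg.2 (i : ℕ))) (inv_mem h)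
      have e : (g ^ (i : ℕ))⁻¹ * ((g ^ (i : ℕ) * x * (g ^ (i : ℕ))⁻¹)⁻¹ * 1)⁻¹ *
          (g ^ (i : ℕ))⁻¹⁻¹ = x := by group
      push_cast at h'
      rwa [e] at h')⟩
  haveI : Fintype (↥M ⧸ B.subgroupOf M) := Fintype.ofFinite _
  obtain ⟨i, j, hij, heq⟩ := Fintype.exists_ne_map_eq_of_card_lt c (by
    rw [Fintype.card_fin, Fintype.card_subtype_compl, Fintype.card_subtype_eq,
      ← Nat.card_eq_fintype_card]
    have : Nat.card (↥M ⧸ B.subgroupOf M) ≤ 4 := hle
    omega)
  have hq := QuotientGroup.eq.1 (congrArg Subtype.val heq)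
  rw [mem_subgroupOf] at hq
  push_cast at hq
  have hd : ∃ d, 1 ≤ d ∧ d ≤ 3 ∧ g ^ d ∈ Sx := by
    rcases lt_or_gt_of_ne (fun e => hij (Fin.ext e)) with h | h
    · exact ⟨(j : ℕ) - i, by omega, by omega, key _ _ h.le hq⟩
    · refine ⟨(i : ℕ) - j, by omega, by omega, key _ _ h.le ?_⟩
      have := inv_mem hq
      rwa [mul_inv_rev, inv_inv] at this
  obtain ⟨d, h1, h3, hd⟩ := hd
  interval_cases d
  · simpa using pow_mem hd 6
  · simpa [← pow_mul] using pow_mem hd 3
  · simpa [← pow_mul] using pow_mem hd 2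

/-- A fixed-point-free element of prime order `r` forces the order of the section to be
`1` mod `r`. -/
theorem modEq_one_of_fpf [Finite G] {Z A : Subgroup G} (hAn : A ≤ normalizer (Z : Set G))
    {g : G} (hg : g ∈ normalizer (A : Set G) ⊓ normalizer (Z : Set G)) {r : ℕ} [Fact r.Prime]
    (hr : g ^ r ∈ triv Z A) (hfpf : ∀ a ∈ A, ⁅g, a⁆ ∈ Z → a ∈ Z) :
    Z.relIndex A ≡ 1 [MOD r] := by
  classical
  haveI : Fintype (↥A ⧸ Z.subgroupOf A) := Fintype.ofFinite _
  let mk : ↥A → ↥A ⧸ Z.subgroupOf A := fun a => (a : ↥A ⧸ Z.subgroupOf A)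
  let cg : ↥A → ↥A := fun a => ⟨g * a * g⁻¹, conj_mem_of_mem_normalizer hg.1 a.2⟩
  let σ : Function.End (↥A ⧸ Z.subgroupOf A) := Quotient.map' cg fun a b hab => by
    rw [QuotientGroup.leftRel_apply, mem_subgroupOf] at hab ⊢
    push_cast [cg] at hab ⊢
    have := conj_mem_of_mem_normalizer hg.2 hab
    rwa [show g * ((a : G)⁻¹ * b) * g⁻¹ = (g * a * g⁻¹)⁻¹ * (g * b * g⁻¹) by group] at this
  have hσ : ∀ (n : ℕ) (a : ↥A), (σ ^ n) (mk a) =
      mk ⟨g ^ n * a * (g ^ n)⁻¹, conj_mem_of_mem_normalizer (pow_mem hg.1 n) a.2⟩ := by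
    intro n
    induction n with
    | zero => intro a; show mk a = _; congr 1; ext; simp
    | succ n ih =>
      intro a
      rw [pow_succ']
      show σ ((σ ^ n) (mk a)) = _
      rw [ih]
      show mk (cg _) = _
      congr 1
      ext
      simp [cg, pow_succ', mul_assoc]
  have hsig : σ ^ r ^ 1 = 1 := by
    rw [pow_one]
    funext q
    induction q using QuotientGroup.induction_on with
    | _ a =>
      refine (hσ r a).trans ?_
      show mk _ = mk a
      refine QuotientGroup.eq.2 (mem_subgroupOf.2 ?_)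
      push_cast
      have h := hr.2 _ a.2
      have h' := inv_mem (conj_mem_of_mem_normalizer (hAn (inv_mem a.2)) h)
      have e : ((a : G)⁻¹ * ⁅g ^ r, (a : G)⁆ * (a : G)⁻¹⁻¹)⁻¹ =
          (g ^ r * a * (g ^ r)⁻¹)⁻¹ * a := by rw [commutatorElement_def]; group
      rwa [e] at h'
  have hcard := Equiv.Perm.card_fixedPoints_modEq hsig
  have h1 : Fintype.card (Function.fixedPoints σ) = 1 := by
    rw [Fintype.card_eq_one_iff]
    refine ⟨⟨mk 1, ?_⟩, ?_⟩
    · show mk (cg 1) = mk 1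
      congr 1
      ext
      simp [cg]
    rintro ⟨q, hq⟩
    refine Subtype.ext ?_
    induction q using QuotientGroup.induction_on with
    | _ a =>
      have hq' : mk (cg a) = mk a := hq
      have h := QuotientGroup.eq.1 hq'
      rw [mem_subgroupOf] at h
      push_cast [cg] at h
      have h' := inv_mem (conj_mem_of_mem_normalizer (hAn a.2) h)
      have e : ((a : G) * ((g * a * g⁻¹)⁻¹ * a) * (a : G)⁻¹)⁻¹ = ⁅g, (a : G)⁆ := by
        rw [commutatorElement_def]; group
      rw [e] at h'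
      refine QuotientGroup.eq.2 (mem_subgroupOf.2 ?_)
      push_cast
      rw [mul_one]
      exact inv_mem (hfpf a a.2 h')
  rw [h1] at hcard
  rwa [relIndex, index, Nat.card_eq_fintype_card]

/-- A group acting as a 2-group on an elementary abelian `V` fixes a proper step. -/
theorem eq_of_sup_commutator [Finite G] {V Y Q : Subgroup G} (hV : IsElementaryAbelian 2 V)
    (hYV : Y ≤ V) (hQV : Q ≤ normalizer (V : Set G)) (hQY : Q ≤ normalizer (Y : Set G))
    (hQ : ∀ q ∈ Q, ∃ k : ℕ, q ^ 2 ^ k ∈ centralizer (V : Set G))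
    (h : V ≤ Y ⊔ ⁅V, Q⁆) : V = Y := by
  classical
  by_contra hne
  obtain ⟨M, ⟨hMV, hYM, hQM, hMne⟩, hmax⟩ := Set.Finite.exists_maximal
    (Set.toFinite {M : Subgroup G | M ≤ V ∧ Y ≤ M ∧ Q ≤ normalizer (M : Set G) ∧ M ≠ V})
    ⟨Y, hYV, le_rfl, hQY, fun e => hne e.symm⟩
  have hVn : ∀ {A : Subgroup G}, A ≤ V → V ≤ normalizer (A : Set G) := fun hA v hv =>
    centralizer_le_normalizer' _ (cen_antitone hA fun w hw => Modules.elemAb_comm hV hw hv)
  -- the fixed points of `Q` on `V / M`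
  let M' : Subgroup G :=
    { carrier := {v | v ∈ V ∧ ∀ q ∈ Q, ⁅q, v⁆ ∈ M}
      one_mem' := ⟨one_mem V, fun q _ => by simp⟩
      mul_mem' := fun {a b} ha hb => ⟨mul_mem ha.1 hb.1, fun q hq => by
        have e : ⁅q, a * b⁆ = ⁅q, a⁆ * (a * ⁅q, b⁆ * a⁻¹) := by
          simp only [commutatorElement_def]; group
        rw [e]
        exact mul_mem (ha.2 q hq) (conj_mem_of_mem_normalizer (hVn hMV ha.1) (hb.2 q hq))⟩
      inv_mem' := fun {a} ha => ⟨inv_mem ha.1, fun q hq => by
        have e : ⁅q, a⁻¹⁆ = a⁻¹ * ⁅q, a⁆⁻¹ * a⁻¹⁻¹ := by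
          simp only [commutatorElement_def]; group
        rw [e]
        exact conj_mem_of_mem_normalizer (hVn hMV (inv_mem ha.1)) (inv_mem (ha.2 q hq))⟩ }
  have hMM' : M ≤ M' := fun x hx => ⟨hMV hx, fun q hq => commutator_mem_left (hQM hq) hx⟩
  have hM'V : M' ≤ V := fun x hx => hx.1
  have hQM' : Q ≤ normalizer (M' : Set G) := by
    refine mem_normalizer_of_forall fun s hs x hx =>
      ⟨conj_mem_of_mem_normalizer (hQV hs) hx.1, fun q hq => ?_⟩
    have e : ⁅q, s * x * s⁻¹⁆ = s * ⁅s⁻¹ * q * s, x⁆ * s⁻¹ := by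
      simp only [commutatorElement_def]; group
    rw [e]
    exact conj_mem_of_mem_normalizer (hQM hs) (hx.2 _ (mul_mem (mul_mem (inv_mem hs) hq) hs))
  rcases eq_or_ne M' V with hM' | hM'
  · refine hMne (le_antisymm hMV (h.trans (sup_le hYM ?_)))
    rw [commutator_comm, commutator_le]
    intro q hq v hv
    exact ((hM' ▸ hv : v ∈ M')).2 q hq
  -- otherwise it equals `M`, against the fixed point count
  have hM'M : M' ≤ M := hmax ⟨hM'V, hYM.trans hMM', hQM', hM'⟩ hMM'
  haveI hMn : (M.subgroupOf V).Normal := normal_subgroupOf_of_le_normalizer (hVn hMV)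
  let act : ↥Q →* Equiv.Perm (↥V ⧸ M.subgroupOf V) :=
    { toFun := fun q =>
        { toFun := Quotient.map'
            (fun a : ↥V => ⟨q * a * (q : G)⁻¹, conj_mem_of_mem_normalizer (hQV q.2) a.2⟩)
            fun a b hab => by
              rw [QuotientGroup.leftRel_apply, mem_subgroupOf] at hab ⊢
              push_cast at hab ⊢
              have := conj_mem_of_mem_normalizer (hQM q.2) hab
              rwa [show (q : G) * ((a : G)⁻¹ * b) * (q : G)⁻¹ =
                ((q : G) * a * (q : G)⁻¹)⁻¹ * (q * b * (q : G)⁻¹) by group] at this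
          invFun := Quotient.map'
            (fun a : ↥V => ⟨(q : G)⁻¹ * a * q,
              by simpa using conj_mem_of_mem_normalizer (hQV (inv_mem q.2)) a.2⟩)
            fun a b hab => by
              rw [QuotientGroup.leftRel_apply, mem_subgroupOf] at hab ⊢
              push_cast at hab ⊢
              have := conj_mem_of_mem_normalizer (hQM (inv_mem q.2)) hab
              rwa [show (q : G)⁻¹ * ((a : G)⁻¹ * b) * (q : G)⁻¹⁻¹ =
                ((q : G)⁻¹ * a * q)⁻¹ * ((q : G)⁻¹ * b * q) by group] at this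
          left_inv := fun z => by
            induction z using QuotientGroup.induction_on with
            | _ a => refine congrArg QuotientGroup.mk (Subtype.ext ?_); simp [mul_assoc]
          right_inv := fun z => by
            induction z using QuotientGroup.induction_on with
            | _ a => refine congrArg QuotientGroup.mk (Subtype.ext ?_); simp [mul_assoc] }
      map_one' := Equiv.ext fun z => by
        induction z using QuotientGroup.induction_on with
        | _ a => refine congrArg QuotientGroup.mk (Subtype.ext ?_); simp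
      map_mul' := fun q s => Equiv.ext fun z => by
        induction z using QuotientGroup.induction_on with
        | _ a => refine congrArg QuotientGroup.mk (Subtype.ext ?_); simp [mul_assoc] }
  have hp : IsPGroup 2 act.range := by
    rintro ⟨_, q, rfl⟩
    obtain ⟨k, hk⟩ := hQ q q.2
    refine ⟨k, Subtype.ext ?_⟩
    show act q ^ 2 ^ k = 1
    rw [← map_pow]
    refine Equiv.ext fun z => ?_
    induction z using QuotientGroup.induction_on with
    | _ a =>
      refine congrArg QuotientGroup.mk (Subtype.ext ?_)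
      push_cast
      rw [← hk a a.2, mul_inv_cancel_right]
  haveI : Fintype (↥V ⧸ M.subgroupOf V) := Fintype.ofFinite _
  have h2 : 2 ∣ Nat.card (↥V ⧸ M.subgroupOf V) := by
    obtain ⟨n, hn⟩ := IsPGroup.iff_card.1
      (((Modules.elemAb_isPGroup hV)).to_quotient (M.subgroupOf V))
    rw [hn]
    rcases n with _ | n
    · refine absurd (le_antisymm hMV ?_) hMne
      rw [pow_zero, ← index, index_eq_one, subgroupOf_eq_top] at hn
      exact hn
    · exact dvd_pow_self 2 n.succ_ne_zero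
  obtain ⟨z, hz, hz1⟩ := hp.exists_fixed_point_of_prime_dvd_card_of_fixed_point
    (↥V ⧸ M.subgroupOf V) h2 (a := ((1 : ↥V) : ↥V ⧸ M.subgroupOf V)) (by
      rintro ⟨_, q, rfl⟩
      refine congrArg QuotientGroup.mk (Subtype.ext ?_)
      simp)
  induction z using QuotientGroup.induction_on with
  | _ a =>
    refine hz1 (QuotientGroup.eq.2 (mem_subgroupOf.2 ?_))
    push_cast
    rw [inv_one, one_mul]
    refine hM'M ⟨a.2, fun q hq => ?_⟩
    have h5 := hz ⟨act ⟨q, hq⟩, ⟨q, hq⟩, rfl⟩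
    have h6 := QuotientGroup.eq.1 (show QuotientGroup.mk _ = (QuotientGroup.mk a) from h5)
    rw [mem_subgroupOf] at h6
    push_cast at h6
    have e : ((a : G) * ((q * a * q⁻¹)⁻¹ * a) * (a : G)⁻¹)⁻¹ = ⁅q, (a : G)⁆ := by
      rw [commutatorElement_def]; group
    have h7 := inv_mem (conj_mem_of_mem_normalizer (hVn hMV a.2) h6)
    rwa [e] at h7

/-- `S₄`-freeness on a section: an element of order three inverted on `V / B` acts trivially. -/
theorem triv_of_free [Finite G] (hG : ¬ Cfsg.Involves (Equiv.Perm (Fin 4)) G) {B V : Subgroup G}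
    (hBV : B ≤ V) (hVn : V ≤ normalizer (B : Set G)) (hVsq : ∀ v ∈ V, v * v ∈ B)
    (hVc : ∀ v ∈ V, ∀ w ∈ V, ⁅v, w⁆ ∈ B) {a x : G}
    (ha : a ∈ normalizer (V : Set G) ⊓ normalizer (B : Set G))
    (hx : x ∈ normalizer (V : Set G) ⊓ normalizer (B : Set G)) (ha2 : a * a ∈ triv B V)
    (hax : a * x * a⁻¹ * x ∈ triv B V) (hx3 : x ^ 3 ∈ triv B V) : x ∈ triv B V := by
  classical
  set X := normalizer (V : Set G) ⊓ normalizer (B : Set G) with hX
  have hVX : V ≤ X := le_inf le_normalizer hVn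
  haveI : (B.subgroupOf X).Normal := normal_subgroupOf_of_le_normalizer inf_le_right
  set π := QuotientGroup.mk' (B.subgroupOf X)
  have hπ : Function.Surjective π := QuotientGroup.mk'_surjective _
  set A : Subgroup (↥X ⧸ B.subgroupOf X) := (V.subgroupOf X).map π with hA
  have hAe : IsElementaryAbelian 2 A := by
    refine ⟨⟨⟨?_⟩⟩, ?_⟩
    · rintro ⟨_, v, hv, rfl⟩ ⟨_, w, hw, rfl⟩
      refine Subtype.ext (commutatorElement_eq_one_iff_mul_comm.1 ?_)
      rw [← map_commutatorElement]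
      exact (QuotientGroup.eq_one_iff _).2 (hVc v hv w hw)
    · rintro _ ⟨v, hv, rfl⟩
      rw [← map_pow]
      exact (QuotientGroup.eq_one_iff _).2 (show (v : G) ^ 2 ∈ B by rw [sq]; exact hVsq _ hv)
  have hN : ∀ g : ↥X, π g ∈ normalizer (A : Set _) := by
    intro g
    have hs : (⊤ : Subgroup ↥X) ≤ normalizer (V.subgroupOf X : Set ↥X) := by
      haveI : (V.subgroupOf X).Normal := normal_subgroupOf_of_le_normalizer inf_le_left
      rw [normalizer_eq_top]
    exact le_normalizer_map π ⟨g, hs (mem_top g), rfl⟩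
  have hC : ∀ g : ↥X, (π g ∈ centralizer (A : Set _) ↔ (g : G) ∈ triv B V) := by
    intro g
    constructor
    · refine fun h => ⟨g.2, fun v hv => ?_⟩
      have h1 := h (π ⟨v, hVX hv⟩) ⟨⟨v, hVX hv⟩, hv, rfl⟩
      have h2 : π ⁅g, ⟨v, hVX hv⟩⁆ = 1 := by
        rw [map_commutatorElement]; exact commutatorElement_eq_one_iff_mul_comm.2 h1.symm
      exact (QuotientGroup.eq_one_iff (N := B.subgroupOf X) (⁅g, ⟨v, hVX hv⟩⁆ : ↥X)).1 h2
    · rintro h _ ⟨v, hv, rfl⟩
      refine (commutatorElement_eq_one_iff_mul_comm.1 ?_).symm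
      rw [← map_commutatorElement]
      exact (QuotientGroup.eq_one_iff _).2 (h.2 v hv)
  by_contra hxn
  set N := normalizer (A : Set (↥X ⧸ B.subgroupOf X)) with hNdef
  haveI : ((centralizer (A : Set (↥X ⧸ B.subgroupOf X))).subgroupOf N).Normal :=
    normal_subgroupOf_of_le_normalizer (le_normalizer_centralizer le_rfl)
  set p := QuotientGroup.mk' ((centralizer (A : Set (↥X ⧸ B.subgroupOf X))).subgroupOf N)
  have hp1 : ∀ n : ↥N, p n = 1 ↔ (n : ↥X ⧸ B.subgroupOf X) ∈ centralizer (A : Set _) :=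
    fun n => QuotientGroup.eq_one_iff n
  set α := p ⟨π ⟨a, ha⟩, hN _⟩
  set β := p ⟨π ⟨x, hx⟩, hN _⟩
  have hα : α * α = 1 := by
    rw [← map_mul, hp1]
    exact (hC (⟨a, ha⟩ * ⟨a, ha⟩)).2 ha2
  have hαβ : α * β * α⁻¹ = β⁻¹ := by
    rw [eq_inv_iff_mul_eq_one, ← map_inv, ← map_mul, ← map_mul, ← map_mul, hp1]
    exact (hC (⟨a, ha⟩ * ⟨x, hx⟩ * ⟨a, ha⟩⁻¹ * ⟨x, hx⟩)).2 hax
  have hβ3 : β ^ 3 = 1 := by
    rw [← map_pow, hp1]
    exact (hC (⟨x, hx⟩ ^ 3)).2 hx3
  have hβ : β ≠ 1 := fun h => hxn ((hC ⟨x, hx⟩).1 ((hp1 _).1 h))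
  -- the group generated by `α` and `β`
  have hconj : ∀ z ∈ zpowers β, α * z * α⁻¹ = z⁻¹ := by
    intro z hz
    obtain ⟨i, rfl⟩ := mem_zpowers_iff.1 hz
    rw [← conj_zpow, hαβ, inv_zpow]
  have hαi : α⁻¹ = α := inv_eq_of_mul_eq_one_right hα
  let L : Subgroup (↥N ⧸ (centralizer (A : Set (↥X ⧸ B.subgroupOf X))).subgroupOf N) :=
    { carrier := {z | z ∈ zpowers β ∨ z * α ∈ zpowers β}
      one_mem' := Or.inl (one_mem _)
      mul_mem' := by
        intro z w hz hw
        rcases hz with hz | hz <;> rcases hw with hw | hw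
        · exact Or.inl (mul_mem hz hw)
        · exact Or.inr (by rw [mul_assoc]; exact mul_mem hz hw)
        · refine Or.inr ?_
          have e : z * w * α = (z * α) * w⁻¹ := by
            rw [← hconj w hw, hαi]
            calc z * w * α = z * (α * α) * w * α := by rw [hα, mul_one]
              _ = z * α * (α * w * α) := by group
          rw [e]
          exact mul_mem hz (inv_mem hw)
        · refine Or.inl ?_
          have e : z * w = (z * α) * (w * α)⁻¹ := by
            rw [← hconj _ hw, hαi]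
            calc z * w = z * (α * α) * w * (α * α) := by rw [hα, mul_one, mul_one]
              _ = z * α * (α * (w * α) * α) := by group
          rw [e]
          exact mul_mem hz (inv_mem hw)
      inv_mem' := by
        intro z hz
        rcases hz with hz | hz
        · exact Or.inl (inv_mem hz)
        · refine Or.inr ?_
          have e : z⁻¹ * α = z * α := by
            have h := hconj _ hz
            rw [hαi, mul_assoc, mul_assoc, hα, mul_one, mul_inv_rev, hαi] at h
            have e2 : z⁻¹ = z := (mul_left_cancel h).symm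
            rw [e2]
          rw [e]; exact hz }
  have hαL : α ∈ L := Or.inr (by rw [hα]; exact one_mem _)
  have hβL : β ∈ L := Or.inl (mem_zpowers β)
  obtain ⟨x', y, ⟨i, hi⟩, ⟨k, hk⟩, hxy, hy⟩ :=
    EvenLocal.exists_inverted_of_map (p := 3) (by decide)
      (p.subgroupComap L) (p.subgroupComap_surjective_of_surjective L (QuotientGroup.mk'_surjective _))
      (a := (⟨α, hαL⟩ : ↥L)) (b := (⟨β, hβL⟩ : ↥L))
      ⟨1, by rw [pow_one, ← Subgroup.orderOf_coe]; exact orderOf_eq_prime hβ3 hβ⟩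
      (fun h => hβ (congrArg Subtype.val h)) (Subtype.ext hαβ)
  have hy3 : ((y : ↥N) : ↥X ⧸ B.subgroupOf X) ^ 3 ∈ centralizer (A : Set _) := by
    refine (hp1 ((y : ↥N) ^ 3)).1 ?_
    rw [map_pow]
    rcases y.2 with h | h
    · obtain ⟨j, hj⟩ := mem_zpowers_iff.1 h
      rw [← hj, ← zpow_natCast, ← zpow_mul, mul_comm, zpow_mul, zpow_natCast, hβ3, one_zpow]
    · have hh := hconj _ h
      rw [hαi, mul_assoc, mul_assoc, hα, mul_one, mul_inv_rev, hαi] at hh
      have h2 : p (y : ↥N) ^ 2 = 1 := by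
        have : p (y : ↥N) = (p (y : ↥N))⁻¹ := mul_left_cancel hh
        rw [sq]
        nth_rewrite 2 [this]
        exact mul_inv_cancel _
      have h3 : p (y : ↥N) ^ 3 ^ k = 1 := by
        rw [← map_pow]
        have := congrArg Subtype.val (hk ▸ pow_orderOf_eq_one y : y ^ 3 ^ k = 1)
        push_cast at this
        rw [this, map_one]
      have h1 : p (y : ↥N) = 1 := by
        have hcop : Nat.Coprime 2 (3 ^ k) := Nat.Coprime.pow_right k (by decide)
        exact orderOf_eq_one_iff.1 (Nat.dvd_one.1 (hcop ▸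
          Nat.dvd_gcd (orderOf_dvd_of_pow_eq_one h2) (orderOf_dvd_of_pow_eq_one h3)))
      rw [h1, one_pow]
  refine hG (EvenLocal.involves_of_involves_image π hπ (EvenLocal.involves_perm_four hAe
    (x := ((x' : ↥N) : ↥X ⧸ B.subgroupOf X)) (y := ((y : ↥N) : ↥X ⧸ B.subgroupOf X))
    (x' : ↥N).2 (y : ↥N).2 ⟨i, ?_⟩ ⟨k, ?_⟩ ?_ hy3 fun h => hy ?_))
  · rw [Subgroup.orderOf_coe, Subgroup.orderOf_coe]; exact hi
  · rw [Subgroup.orderOf_coe, Subgroup.orderOf_coe]; exact hk
  · have := congrArg (fun z : ↥(L.comap p) => ((z : ↥N) : ↥X ⧸ B.subgroupOf X)) hxy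
    simpa using this
  · exact Subtype.ext ((hp1 _).2 h)

/-- `B` is `A` or a subgroup of index two in `A`. -/
def Half (B A : Subgroup G) : Prop :=
  B ≤ A ∧ ∀ x ∈ A, ∀ y ∈ A, x ∉ B → y ∉ B → x * y ∈ B

/-- Hyperplanes of an elementary abelian group of operators generate. -/
theorem le_of_half {H : Type*} [Group H] [Finite H] :
    ∀ (A K P : Subgroup H), IsElementaryAbelian 2 A → A ≤ normalizer (K : Set H) →
      Odd (Nat.card K) → (∀ B, Half B A → K ⊓ centralizer (B : Set H) ≤ P) → K ≤ P := by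
  intro A
  induction hn : Nat.card A using Nat.strong_induction_on generalizing A with
  | _ n ih =>
  intro K P hA hAK hK hP
  by_cases hsmall : Half ⊥ A
  · refine le_trans (le_inf le_rfl ?_) (hP ⊥ hsmall)
    intro k _ b hb
    rw [mem_bot.1 hb, one_mul, mul_one]
  have hcyc : ¬ IsCyclic A := by
    intro hc
    refine hsmall ⟨bot_le, fun x hx y hy hx1 hy1 => ?_⟩
    obtain ⟨g, hg⟩ := hc.exists_generator
    have hsq : g * g = 1 := Subtype.ext (by rw [← sq]; exact hA.2 _ g.2)
    have key : ∀ z : ↥A, z = 1 ∨ z = g := by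
      intro z
      obtain ⟨n, rfl⟩ := mem_zpowers_iff.1 (hg z)
      rcases Int.even_or_odd' n with ⟨m, rfl | rfl⟩
      · left; rw [zpow_mul, zpow_two, hsq, one_zpow]
      · right; rw [zpow_add, zpow_mul, zpow_two, hsq, one_zpow, one_mul, zpow_one]
    rcases key ⟨x, hx⟩ with h | h
    · exact absurd (congrArg Subtype.val h) (fun e => hx1 (mem_bot.2 e))
    rcases key ⟨y, hy⟩ with h' | h'
    · exact absurd (congrArg Subtype.val h') (fun e => hy1 (mem_bot.2 e))
    rw [mem_bot]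
    have := congrArg Subtype.val hsq
    rw [← h] at this
    nth_rewrite 2 [h.trans h'.symm] at this
    exact this
  haveI : IsMulCommutative A := hA.1
  have hcop : (Nat.card A).Coprime (Nat.card K) := by
    obtain ⟨n, hn⟩ := IsPGroup.iff_card.1 (Modules.elemAb_isPGroup hA)
    rw [hn]
    exact Nat.Coprime.pow_left n (Nat.coprime_two_left.2 hK)
  rw [← Coprime.iSup_centralizer_eq hcyc hAK hcop]
  refine iSup₂_le ?_
  rintro a ⟨ha, ha1⟩
  obtain ⟨A', ⟨hA'A, haA'⟩, hmax⟩ := Set.Finite.exists_maximal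
    (Set.toFinite {A' : Subgroup H | A' ≤ A ∧ a ∉ A'})
    ⟨⊥, bot_le, fun h => ha1 (mem_bot.1 h)⟩
  have hcomm : ∀ {s t : H}, s ∈ A → t ∈ A → s * t = t * s := fun hs ht =>
    Modules.elemAb_comm hA hs ht
  have hdec : ∀ t ∈ A, t ∈ A' ∨ a * t ∈ A' := by
    intro t ht
    by_contra hcon
    push Not at hcon
    let A'' : Subgroup H :=
      { carrier := {s | s ∈ A ∧ (s ∈ A' ∨ t * s ∈ A')}
        one_mem' := ⟨one_mem A, Or.inl (one_mem A')⟩
        mul_mem' := by
          rintro s u ⟨hs, hs'⟩ ⟨hu, hu'⟩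
          refine ⟨mul_mem hs hu, ?_⟩
          rcases hs' with hs' | hs' <;> rcases hu' with hu' | hu'
          · exact Or.inl (mul_mem hs' hu')
          · exact Or.inr (by
              rw [← mul_assoc, hcomm ht hs, mul_assoc]; exact mul_mem hs' hu')
          · exact Or.inr (by rw [← mul_assoc]; exact mul_mem hs' hu')
          · refine Or.inl ?_
            have e : s * u = t * s * (t * u) := by
              calc s * u = (t * t) * (s * u) := by rw [← sq, hA.2 t ht, one_mul]
                _ = t * (t * s) * u := by group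
                _ = t * (s * t) * u := by rw [hcomm ht hs]
                _ = _ := by group
            rw [e]
            exact mul_mem hs' hu'
        inv_mem' := by
          rintro s ⟨hs, hs'⟩
          have : s⁻¹ = s := inv_eq_of_mul_eq_one_right (by rw [← sq, hA.2 s hs])
          rw [this]
          exact ⟨hs, hs'⟩ }
    have hA'' : a ∉ A'' := by
      rintro ⟨-, h | h⟩
      · exact haA' h
      · exact hcon.2 (by rwa [hcomm ha ht])
    have := hmax (y := A'') ⟨fun s hs => hs.1, hA''⟩ fun s hs => ⟨hA'A hs, Or.inl hs⟩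
    exact hcon.1 (this ⟨ht, Or.inr (by rw [← sq, hA.2 t ht]; exact one_mem A')⟩)
  have hlt : Nat.card A' < Nat.card A := Set.ncard_lt_ncard
    (SetLike.coe_ssubset_coe.2 (lt_of_le_of_ne hA'A fun e => haA' (e ▸ ha)))
  refine ih _ (hn ▸ hlt) A' rfl (K ⊓ centralizer {a}) P ⟨?_, fun g hg => hA.2 g (hA'A hg)⟩ ?_
    (hK.of_dvd_nat (card_dvd_of_le inf_le_left)) fun B' hB' => ?_
  · exact ⟨⟨fun s t => Subtype.ext (hcomm (hA'A s.2) (hA'A t.2))⟩⟩
  · refine mem_normalizer_of_forall fun s hs k hk =>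
      ⟨conj_mem_of_mem_normalizer (hAK (hA'A hs)) hk.1, mem_centralizer_singleton_iff.2 (Eq.symm ?_)⟩
    have hc := (mem_centralizer_singleton_iff.1 hk.2).symm
    calc a * (s * k * s⁻¹) = (a * s) * k * s⁻¹ := by group
      _ = s * (a * k) * s⁻¹ := by rw [hcomm ha (hA'A hs)]; group
      _ = s * (k * a) * s⁻¹ := by rw [hc]
      _ = s * k * (a * s⁻¹) := by group
      _ = s * k * s⁻¹ * a := by rw [hcomm ha (inv_mem (hA'A hs))]; group
  let B : Subgroup H :=
    { carrier := {s | s ∈ A ∧ (s ∈ B' ∨ a * s ∈ B')}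
      one_mem' := ⟨one_mem A, Or.inl (one_mem B')⟩
      mul_mem' := by
        rintro s u ⟨hs, hs'⟩ ⟨hu, hu'⟩
        refine ⟨mul_mem hs hu, ?_⟩
        rcases hs' with hs' | hs' <;> rcases hu' with hu' | hu'
        · exact Or.inl (mul_mem hs' hu')
        · exact Or.inr (by rw [← mul_assoc, hcomm ha hs, mul_assoc]; exact mul_mem hs' hu')
        · exact Or.inr (by rw [← mul_assoc]; exact mul_mem hs' hu')
        · refine Or.inl ?_
          have e : s * u = a * s * (a * u) := by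
            calc s * u = (a * a) * (s * u) := by rw [← sq, hA.2 a ha, one_mul]
              _ = a * (a * s) * u := by group
              _ = a * (s * a) * u := by rw [hcomm ha hs]
              _ = _ := by group
          rw [e]
          exact mul_mem hs' hu'
      inv_mem' := by
        rintro s ⟨hs, hs'⟩
        have : s⁻¹ = s := inv_eq_of_mul_eq_one_right (by rw [← sq, hA.2 s hs])
        rw [this]
        exact ⟨hs, hs'⟩ }
  have hB : Half B A := by
    refine ⟨fun s hs => hs.1, fun s hs t ht hsB htB => ⟨mul_mem hs ht, ?_⟩⟩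
    have hs1 : s ∉ B' := fun h => hsB ⟨hs, Or.inl h⟩
    have hs2 : a * s ∉ B' := fun h => hsB ⟨hs, Or.inr h⟩
    have ht1 : t ∉ B' := fun h => htB ⟨ht, Or.inl h⟩
    have ht2 : a * t ∉ B' := fun h => htB ⟨ht, Or.inr h⟩
    rcases hdec s hs with h | h <;> rcases hdec t ht with h' | h'
    · exact Or.inl (hB'.2 s h t h' hs1 ht1)
    · refine Or.inr ?_
      rw [← mul_assoc, hcomm ha hs, mul_assoc]
      exact hB'.2 s h _ h' hs1 ht2
    · refine Or.inr ?_
      rw [← mul_assoc]
      exact hB'.2 _ h t h' hs2 ht1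
    · refine Or.inl ?_
      have e : s * t = a * s * (a * t) := by
        calc s * t = (a * a) * (s * t) := by rw [← sq, hA.2 a ha, one_mul]
          _ = a * (a * s) * t := by group
          _ = a * (s * a) * t := by rw [hcomm ha hs]
          _ = _ := by group
      rw [e]
      exact hB'.2 _ h _ h' hs2 ht2
  refine le_trans (le_inf (inf_le_left.trans inf_le_left) ?_) (hP B hB)
  intro k hk s hs
  have hka := (mem_centralizer_singleton_iff.1 hk.1.2).symm
  rcases hs.2 with h | h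
  · exact hk.2 s h
  · have h2 := hk.2 _ h
    have e : s = a * (a * s) := by rw [← mul_assoc, ← sq, hA.2 a ha, one_mul]
    rw [e]
    exact ((show Commute a k from hka).mul_left h2).eq

end Cfsg.Agent.LAE60.W
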