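import Mathlib.Data.Nat.Factorization.Induction
import Cfsg.Agent.LAE60.WTools

/-!
The layer setting `V = ⟨Y^F⟩` with `F / Q` of odd order: normalisation of the data and the common
first step, which produces an element of odd prime power order inverted by an element outside a
hyperplane centralising `F` modulo `Q`.
-/

set_option autoImplicit false
set_option linter.unusedVariables false
set_option linter.unusedSectionVars false
set_option linter.style.haveILetI false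

open Subgroup
open scoped commutatorElement

namespace Cfsg.Agent.LAE60.W

open Cfsg.Agent.Fusion (cj mem_cj conj_mem_cj cj_cj cj_one cj_mono cj_eq_of_mem card_cj
  cj_eq_iff_mem_normalizer cj_le_iff)

variable {G : Type*} [Group G]

/-- The layer setting. -/
structure Layer (Q F T Y V : Subgroup G) : Prop where
  QF : Q ≤ F
  QT : Q ≤ T
  FQ : F ≤ normalizer (Q : Set G)
  TQ : T ≤ normalizer (Q : Set G)
  TF : T ≤ normalizer (F : Set G)
  TY : T ≤ normalizer (Y : Set G)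
  odd : Odd (Q.relIndex F)
  elem : IsElementaryAbelian 2 V
  gen : V = ⨆ f : ↥F, cj (f : G) Y
  two : ∀ q ∈ Q, ∃ k : ℕ, q ^ 2 ^ k ∈ centralizer (V : Set G)

variable {Q F T Y V : Subgroup G}

theorem Layer.le (L : Layer Q F T Y V) : Y ≤ V := by
  refine le_trans ?_ (L.gen.symm ▸ le_iSup (fun f : ↥F => cj (f : G) Y) 1 : cj ((1 : ↥F) : G) Y ≤ V)
  simp [cj_one]

theorem mem_normalizer_iSup_cj {F Y : Subgroup G} {n : G} (hn : n ∈ normalizer (F : Set G))
    (hY : ∃ f ∈ F, f⁻¹ * n ∈ normalizer (Y : Set G) ∨ n ∈ normalizer (Y : Set G)) :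
    n ∈ normalizer ((⨆ f : ↥F, cj (f : G) Y : Subgroup G) : Set G) := by
  rw [← cj_eq_iff_mem_normalizer, cj, Subgroup.map_iSup]
  have key : ∃ s : ↥F → ↥F, Function.Surjective s ∧ ∀ f : ↥F,
      cj n (cj (f : G) Y) = cj (s f : G) Y := by
    obtain ⟨g, hg, h | h⟩ := hY
    · have hm : ∀ f : ↥F, n * f * n⁻¹ * g ∈ F := fun f =>
        mul_mem (conj_mem_of_mem_normalizer hn f.2) hg
      refine ⟨fun f => ⟨_, hm f⟩, fun f' => ?_, fun f => ?_⟩
      · refine ⟨⟨n⁻¹ * (f' * g⁻¹) * n, ?_⟩, Subtype.ext ?_⟩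
        · simpa using conj_mem_of_mem_normalizer (inv_mem hn) (mul_mem f'.2 (inv_mem hg))
        · simp [mul_assoc]
      · rw [cj_cj]
        conv_rhs => rw [← cj_eq_of_mem h]
        rw [cj_cj]
        congr 1
        simp [mul_assoc]
    · refine ⟨fun f => ⟨_, conj_mem_of_mem_normalizer hn f.2⟩, fun f' => ?_, fun f => ?_⟩
      · refine ⟨⟨n⁻¹ * f' * n, ?_⟩, Subtype.ext ?_⟩
        · simpa using conj_mem_of_mem_normalizer (inv_mem hn) f'.2
        · simp [mul_assoc]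
      · rw [cj_cj]
        conv_rhs => rw [← cj_eq_of_mem h]
        rw [cj_cj]
        congr 1
        simp [mul_assoc]
  obtain ⟨s, hs, hs'⟩ := key
  exact (iSup_congr hs').trans (hs.iSup_comp (g := fun f : ↥F => cj (f : G) Y))

theorem Layer.FV (L : Layer Q F T Y V) : F ≤ normalizer (V : Set G) := fun f hf =>
  L.gen.symm ▸ mem_normalizer_iSup_cj (le_normalizer hf)
    ⟨f, hf, Or.inl (by rw [inv_mul_cancel]; exact one_mem _)⟩

theorem Layer.TV (L : Layer Q F T Y V) : T ≤ normalizer (V : Set G) := fun t ht =>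
  L.gen.symm ▸ mem_normalizer_iSup_cj (L.TF ht) ⟨1, one_mem F, Or.inr (L.TY ht)⟩

theorem Layer.QV (L : Layer Q F T Y V) : Q ≤ normalizer (V : Set G) := L.QF.trans L.FV

theorem Layer.mono (L : Layer Q F T Y V) {T' : Subgroup G} (h : T' ≤ T) (hQ : Q ≤ T') :
    Layer Q F T' Y V :=
  ⟨L.QF, hQ, L.FQ, h.trans L.TQ, h.trans L.TF, h.trans L.TY, L.odd, L.elem, L.gen, L.two⟩

theorem pow_mul_mem {C : Subgroup G} {x c : G} (hx : x ∈ normalizer (C : Set G)) (hc : c ∈ C)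
    (n : ℕ) : (x ^ n)⁻¹ * (x * c) ^ n ∈ C := by
  induction n with
  | zero => simp
  | succ n ih =>
    have e : (x ^ (n + 1))⁻¹ * (x * c) ^ (n + 1) =
        x⁻¹ * ((x ^ n)⁻¹ * (x * c) ^ n) * x⁻¹⁻¹ * c := by
      rw [pow_succ x, pow_succ (x * c)]; group
    rw [e]
    exact mul_mem (conj_mem_of_mem_normalizer (inv_mem hx) ih) hc

variable [Finite G]

/-- Enlarge `Q`, `F`, `T` by the kernel of the action. -/
theorem Layer.normalise (L : Layer Q F T Y V) :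
    ∃ Q' F' T' : Subgroup G, Layer Q' F' T' Y V ∧ T ≤ T' ∧
      T' ≤ T ⊔ centralizer (Y : Set G) ∧ Q'.relIndex F' ≤ Q.relIndex F ∧
      (F' ⊔ T') ⊓ centralizer (V : Set G) ≤ Q' := by
  set C := (F ⊔ T) ⊓ centralizer (V : Set G) with hC
  have hFC : F ≤ normalizer (C : Set G) :=
    le_normalizer_inf (le_sup_left.trans le_normalizer) (le_normalizer_centralizer L.FV)
  have hTC : T ≤ normalizer (C : Set G) :=
    le_normalizer_inf (le_sup_right.trans le_normalizer) (le_normalizer_centralizer L.TV)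
  have hCQ : C ≤ normalizer (Q : Set G) := inf_le_left.trans (sup_le L.FQ L.TQ)
  have hCF : C ≤ normalizer (F : Set G) := inf_le_left.trans (sup_le le_normalizer L.TF)
  have hCC : C ≤ normalizer (C : Set G) := le_normalizer
  have hCY : C ≤ centralizer (Y : Set G) := inf_le_right.trans (cen_antitone L.le)
  have hT' : T ≤ normalizer ((Q ⊔ C : Subgroup G) : Set G) := le_normalizer_sup L.TQ hTC
  have hF' : F ≤ normalizer ((Q ⊔ C : Subgroup G) : Set G) := le_normalizer_sup L.FQ hFC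
  have hC' : C ≤ normalizer ((Q ⊔ C : Subgroup G) : Set G) := le_normalizer_sup hCQ hCC
  have hrel : (Q ⊔ C).relIndex (F ⊔ C) = (Q ⊔ C).relIndex F := by
    rw [← relIndex_sup_of_normalizes hF']
    congr 1
    exact le_antisymm (sup_le le_sup_left (le_sup_right.trans le_sup_right))
      (sup_le le_sup_left (sup_le (L.QF.trans le_sup_left) le_sup_right))
  have hdvd := relIndex_dvd_of_le_left F (le_sup_left : Q ≤ Q ⊔ C)
  refine ⟨Q ⊔ C, F ⊔ C, T ⊔ C, ⟨sup_le_sup_right L.QF C, sup_le_sup_right L.QT C, sup_le hF' hC',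
    sup_le hT' hC', ?_, sup_le L.TY (hCY.trans (centralizer_le_normalizer' Y)), ?_, L.elem, ?_, ?_⟩,
    le_sup_left, sup_le_sup_left hCY T, ?_, ?_⟩
  · exact sup_le (le_normalizer_sup L.TF hTC) (le_normalizer_sup hCF hCC)
  · rw [hrel]; exact L.odd.of_dvd_nat hdvd
  · refine le_antisymm (L.gen.trans_le (iSup_le fun f =>
      le_iSup_of_le (⟨f, mem_sup_left f.2⟩ : ↥(F ⊔ C)) le_rfl)) (iSup_le ?_)
    intro f
    have hf : (f : G) ∈ normalizer (V : Set G) :=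
      sup_le L.FV (inf_le_right.trans (centralizer_le_normalizer' V)) f.2
    exact (cj_mono _ L.le).trans (cj_eq_of_mem hf).le
  · intro q hq
    obtain ⟨q₀, hq₀, c, hc, rfl⟩ := exists_mul_of_mem_sup (L.QF.trans hFC) hq
    obtain ⟨k, hk⟩ := L.two q₀ hq₀
    refine ⟨k, ?_⟩
    have := pow_mul_mem (L.QF.trans hFC hq₀) hc (2 ^ k)
    have h2 := mul_mem hk ((inf_le_right : C ≤ _) this)
    rwa [mul_inv_cancel_left] at h2
  · rw [hrel]; exact Nat.le_of_dvd (Nat.pos_of_ne_zero index_ne_zero_of_finite) hdvd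
  · exact (inf_le_inf_right _ (sup_le (sup_le le_sup_left inf_le_left)
      (sup_le le_sup_right inf_le_left))).trans le_sup_right

theorem mem_of_primePow {H : Type*} [Group H] (P : Subgroup H) (g : H) :
    ∀ n : ℕ, 0 < n → g ^ n = 1 →
      (∀ z ∈ zpowers g, (∃ r k : ℕ, r.Prime ∧ z ^ r ^ k = 1) → z ∈ P) → g ∈ P := by
  intro n
  induction n using Nat.recOnPrimeCoprime generalizing g with
  | zero => intro h; omega
  | prime_pow p k hp => exact fun _ h hP => hP g (mem_zpowers g) ⟨p, k, hp, h⟩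
  | coprime a b ha hb hab iha ihb =>
    intro _ hg hP
    have h1 : g ^ b ∈ P := iha (g ^ b) (by omega) (by rw [← pow_mul, mul_comm, hg])
      fun z hz => hP z ((zpowers_le.2 (pow_mem (mem_zpowers g) b)) hz)
    have h2 : g ^ a ∈ P := ihb (g ^ a) (by omega) (by rw [← pow_mul, hg])
      fun z hz => hP z ((zpowers_le.2 (pow_mem (mem_zpowers g) a)) hz)
    have h3 := Nat.gcd_eq_gcd_ab a b
    rw [hab.gcd_eq_one] at h3
    have h4 : g = (g ^ a) ^ a.gcdA b * (g ^ b) ^ a.gcdB b := by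
      rw [← zpow_natCast g a, ← zpow_natCast g b, ← zpow_mul, ← zpow_mul, ← zpow_add, ← h3,
        Nat.cast_one, zpow_one]
    rw [h4]
    exact mul_mem (zpow_mem h2 _) (zpow_mem h1 _)

theorem Elem.normal_data {D : Subgroup G} (hD : Elem T V D)
    (hcen : (F ⊔ T) ⊓ centralizer (V : Set G) ≤ Q) :
    (∀ d ∈ D, d * d ∈ Q) ∧ (∀ d ∈ D, ∀ e ∈ D, ⁅d, e⁆ ∈ Q) ∧ D ⊓ centralizer (V : Set G) ≤ Q := by
  have hDT : D ≤ F ⊔ T := hD.le.trans le_sup_right
  refine ⟨fun d hd => hcen ⟨hDT (mul_mem hd hd), hD.sq d hd⟩, fun d hd e he =>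
    hcen (Subgroup.mem_inf.2 ⟨?_, hD.comm d hd e he⟩), (inf_le_inf_right _ hDT).trans hcen⟩
  exact commutator_mem_left (le_normalizer (hDT hd)) (hDT he)

/-- The data produced by the first step. -/
structure Step (Pr : Subgroup G → Prop) (Q F D V Ym D₀ : Subgroup G) (b h : G) (r k : ℕ) : Prop where
  le : Ym ≤ V
  nY : Q ⊔ D ≤ normalizer (Ym : Set G)
  pr : Pr Ym
  cen : D ≤ centralizer (Ym : Set G)
  gen : V = ⨆ f : ↥F, cj (f : G) Ym
  le₀ : D₀ ≤ D
  bD : b ∈ D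
  bD₀ : b ∉ D₀
  dec : ∀ d ∈ D, d ∈ D₀ ∨ b * d ∈ D₀
  DC : D ⊓ Q ≤ D₀
  comm : ∀ f ∈ F, ∀ d ∈ D₀, ⁅f, d⁆ ∈ Q
  hF : h ∈ F
  hY : h ∉ normalizer (Ym : Set G)
  prime : r.Prime
  ne_two : r ≠ 2
  pow : h ^ r ^ k = 1
  inv : b * h * b⁻¹ * h ∈ centralizer (V : Set G)

theorem exists_step {D : Subgroup G} (L : Layer Q F (Q ⊔ D) Y V) (hD : Elem (Q ⊔ D) V D)
    (hmov : ¬ D ≤ centralizer (V : Set G))
    (hcen : (F ⊔ (Q ⊔ D)) ⊓ centralizer (V : Set G) ≤ Q) (Pr : Subgroup G → Prop) (hY : Pr Y)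
    (hconj : ∀ f ∈ F, cj f (Q ⊔ D) = Q ⊔ D → ∀ E, Pr E → Pr (cj f E))
    (hind : ∀ F₁ E V₁ : Subgroup G, Layer Q F₁ (Q ⊔ D) E V₁ → Q.relIndex F₁ < Q.relIndex F →
      Pr E → Pr V₁)
    (hP : ∀ E ≤ V, D ≤ normalizer (E : Set G) → Pr E → D ≤ centralizer (E : Set G)) :
    ∃ (Ym D₀ : Subgroup G) (b h : G) (r k : ℕ), Step Pr Q F D V Ym D₀ b h r k := by
  classical
  obtain ⟨hsq, hcomm, hDC⟩ := hD.normal_data hcen
  set T := Q ⊔ D with hT
  have hDT : D ≤ T := le_sup_right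
  obtain ⟨Ym, ⟨hYV, hYY, hTY, hpr⟩, hmax⟩ := Set.Finite.exists_maximal
    (Set.toFinite {E : Subgroup G | E ≤ V ∧ Y ≤ E ∧ T ≤ normalizer (E : Set G) ∧ Pr E})
    ⟨Y, L.le, le_rfl, L.TY, hY⟩
  have hcenY : D ≤ centralizer (Ym : Set G) := hP Ym hYV (hDT.trans hTY) hpr
  have hgen : V = ⨆ f : ↥F, cj (f : G) Ym :=
    le_antisymm (L.gen.trans_le (iSup_mono fun f => cj_mono _ hYY))
      (iSup_le fun f => (cj_mono _ hYV).trans (cj_eq_of_mem (L.FV f.2)).le)
  have hnot : ¬ F ≤ normalizer (Ym : Set G) := fun h => hmov (by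
    have : V = Ym := le_antisymm (hgen.trans_le (iSup_le fun f => (cj_eq_of_mem (h f.2)).le)) hYV
    rw [this]
    exact hcenY)
  set FY := F ⊓ normalizer (Ym : Set G) with hFY
  have hQFY : Q ≤ FY := le_inf L.QF ((le_sup_left : Q ≤ T).trans hTY)
  -- enlargement
  have henl : ∀ F₁ : Subgroup G, Q ≤ F₁ → F₁ ≤ F → T ≤ normalizer (F₁ : Set G) → F₁ ≠ F →
      F₁ ≤ normalizer (Ym : Set G) := by
    intro F₁ hQ1 h1F hT1 hne
    set V₁ := ⨆ f : ↥F₁, cj (f : G) Ym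
    have hV₁ : V₁ ≤ V := iSup_le fun f => (cj_mono _ hYV).trans (cj_eq_of_mem (L.FV (h1F f.2))).le
    have hlt : Q.relIndex F₁ < Q.relIndex F := by
      rw [← relIndex_mul_relIndex Q F₁ F hQ1 h1F]
      have h2 : F₁.relIndex F ≠ 1 := fun e => hne (le_antisymm h1F (relIndex_eq_one.1 e))
      have h3 : F₁.relIndex F ≠ 0 := index_ne_zero_of_finite
      have h4 : 0 < Q.relIndex F₁ := Nat.pos_of_ne_zero index_ne_zero_of_finite
      nlinarith [(show 2 ≤ F₁.relIndex F by omega)]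
    have L1 : Layer Q F₁ T Ym V₁ :=
      ⟨hQ1, le_sup_left, h1F.trans L.FQ, L.TQ, hT1, hTY,
        L.odd.of_dvd_nat (dvd_of_mul_right_eq _ (relIndex_mul_relIndex Q F₁ F hQ1 h1F)),
        ⟨⟨⟨fun s t => Subtype.ext (Modules.elemAb_comm L.elem (hV₁ s.2) (hV₁ t.2))⟩⟩,
          fun s hs => L.elem.2 s (hV₁ hs)⟩, rfl,
        fun q hq => (L.two q hq).imp fun k hk => cen_antitone hV₁ hk⟩
    have hmem : Ym ≤ V₁ := L1.le
    have hle : V₁ ≤ Ym := hmax ⟨hV₁, hYY.trans hmem, L1.TV, hind F₁ Ym V₁ L1 hlt hpr⟩ hmem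
    intro f hf
    rw [← cj_eq_iff_mem_normalizer]
    exact eq_of_le_of_card_ge ((le_iSup (fun f : ↥F₁ => cj (f : G) Ym) ⟨f, hf⟩).trans hle)
      (card_cj f Ym).ge
  -- centralisers modulo `Q`
  let K : Subgroup G → Subgroup G := fun B =>
    { carrier := {f | f ∈ F ∧ ∀ x ∈ B, ⁅f, x⁆ ∈ Q}
      one_mem' := ⟨one_mem F, fun x _ => by simp⟩
      mul_mem' := fun {f g} hf hg => ⟨mul_mem hf.1 hg.1, fun x hx => by
        have e : ⁅f * g, x⁆ = f * ⁅g, x⁆ * f⁻¹ * ⁅f, x⁆ := by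
          simp only [commutatorElement_def]; group
        rw [e]
        exact mul_mem (conj_mem_of_mem_normalizer (L.FQ hf.1) (hg.2 x hx)) (hf.2 x hx)⟩
      inv_mem' := fun {f} hf => ⟨inv_mem hf.1, fun x hx => by
        have e : ⁅f⁻¹, x⁆ = f⁻¹ * ⁅f, x⁆⁻¹ * f⁻¹⁻¹ := by simp only [commutatorElement_def]; group
        rw [e]
        exact conj_mem_of_mem_normalizer (inv_mem (L.FQ hf.1)) (inv_mem (hf.2 x hx))⟩ }
  have hQK : ∀ B ≤ D, Q ≤ K B := fun B hB q hq => ⟨L.QF hq, fun x hx => by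
    have hx' := L.TQ (hDT (hB hx))
    have e : ⁅q, x⁆ = q * (x * q⁻¹ * x⁻¹) := by simp only [commutatorElement_def]; group
    rw [e]
    exact mul_mem hq (conj_mem_of_mem_normalizer hx' (inv_mem hq))⟩
  have hTK : ∀ B ≤ D, T ≤ normalizer (K B : Set G) := by
    intro B hB
    refine mem_normalizer_of_forall fun t ht f hf =>
      ⟨conj_mem_of_mem_normalizer (L.TF ht) hf.1, fun x hx => ?_⟩
    have ht' := inv_mem ht
    rw [hT, sup_comm] at ht'
    obtain ⟨d, hd, q, hq, hdq⟩ := exists_mul_of_mem_sup (hDT.trans L.TQ) ht'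
    have hxt : x⁻¹ * (t⁻¹ * x * t) ∈ Q := by
      have hq' : x⁻¹ * q * x⁻¹⁻¹ * q⁻¹ ∈ Q :=
        mul_mem (conj_mem_of_mem_normalizer (inv_mem (L.TQ (hDT (hB hx)))) hq) (inv_mem hq)
      have e : x⁻¹ * (t⁻¹ * x * t) =
          ⁅x⁻¹, d⁆ * (d * (x⁻¹ * q * x⁻¹⁻¹ * q⁻¹) * d⁻¹) := by
        have ht2 : t = (d * q)⁻¹ := by rw [hdq, inv_inv]
        rw [ht2]; simp only [commutatorElement_def]; group
      rw [e]
      exact mul_mem (hcomm _ (inv_mem (hB hx)) d hd)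
        (conj_mem_of_mem_normalizer (L.TQ (hDT hd)) hq')
    have e : ⁅t * f * t⁻¹, x⁆ = t * (⁅f, x⁆ * (x * ⁅f, x⁻¹ * (t⁻¹ * x * t)⁆ * x⁻¹)) * t⁻¹ := by
      simp only [commutatorElement_def]; group
    rw [e]
    refine conj_mem_of_mem_normalizer (L.TQ ht) (mul_mem (hf.2 x hx)
      (conj_mem_of_mem_normalizer (L.TQ (hDT (hB hx))) ?_))
    exact mul_mem (conj_mem_of_mem_normalizer (L.FQ hf.1) hxt) (inv_mem hxt)
  have hKF : ∀ B, K B ≤ F := fun B x hx => hx.1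
  have hKY : ∀ B ≤ D, K B ≠ F → K B ≤ normalizer (Ym : Set G) := fun B hB =>
    henl (K B) (hQK B hB) (hKF B) (hTK B hB)
  -- some hyperplane centralises `F` modulo `Q`
  have hex : ∃ D₀, Half D₀ D ∧ D ⊓ Q ≤ D₀ ∧ K D₀ = F := by
    by_contra hcon
    push Not at hcon
    apply hnot
    set N := normalizer (Q : Set G) with hN
    haveI : (Q.subgroupOf N).Normal := normal_subgroupOf_of_le_normalizer le_rfl
    set π := QuotientGroup.mk' (Q.subgroupOf N)
    have hDN : D ≤ N := hDT.trans L.TQ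
    have hA : IsElementaryAbelian 2 ((D.subgroupOf N).map π) := by
      refine ⟨⟨⟨?_⟩⟩, ?_⟩
      · rintro ⟨_, v, hv, rfl⟩ ⟨_, w, hw, rfl⟩
        refine Subtype.ext (commutatorElement_eq_one_iff_mul_comm.1 ?_)
        rw [← map_commutatorElement]
        exact (QuotientGroup.eq_one_iff _).2 (hcomm v hv w hw)
      · rintro _ ⟨v, hv, rfl⟩
        rw [← map_pow]
        exact (QuotientGroup.eq_one_iff _).2 (show (v : G) ^ 2 ∈ Q by rw [sq]; exact hsq _ hv)
    have hAK : (D.subgroupOf N).map π ≤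
        normalizer ((F.subgroupOf N).map π : Set (↥N ⧸ Q.subgroupOf N)) := by
      refine le_trans (map_mono ?_) (le_normalizer_map π)
      exact mem_normalizer_of_forall fun s hs x hx =>
        mem_subgroupOf.2 (conj_mem_of_mem_normalizer (L.TF (hDT hs)) hx)
    have hodd : Odd (Nat.card ((F.subgroupOf N).map π)) := by
      rw [← relIndex_ker, QuotientGroup.ker_mk', relIndex_subgroupOf L.FQ]
      exact L.odd
    have hres := le_of_half ((D.subgroupOf N).map π) ((F.subgroupOf N).map π)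
      ((FY.subgroupOf N).map π) hA hAK hodd fun Bb hBb => by
        set B := D ⊓ (Bb.comap π).map N.subtype with hB
        have hmemB : ∀ d (hd : d ∈ D), d ∈ B ↔ π ⟨d, hDN hd⟩ ∈ Bb := by
          intro d hd
          constructor
          · rintro ⟨-, y, hy, hy'⟩
            have : y = ⟨d, hDN hd⟩ := Subtype.ext hy'
            exact this ▸ hy
          · exact fun h => ⟨hd, ⟨d, hDN hd⟩, h, rfl⟩
        have hhalf : Half B D := by
          refine ⟨inf_le_left, fun x hx y hy hxB hyB => (hmemB _ (mul_mem hx hy)).2 ?_⟩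
          rw [show (⟨x * y, hDN (mul_mem hx hy)⟩ : ↥N) = ⟨x, hDN hx⟩ * ⟨y, hDN hy⟩ from rfl,
            map_mul]
          exact hBb.2 _ ⟨⟨x, hDN hx⟩, hx, rfl⟩ _ ⟨⟨y, hDN hy⟩, hy, rfl⟩
            (fun h => hxB ((hmemB x hx).2 h)) (fun h => hyB ((hmemB y hy).2 h))
        have hDQ : D ⊓ Q ≤ B := fun d hd => (hmemB d hd.1).2 (by
          rw [show π ⟨d, hDN hd.1⟩ = 1 from (QuotientGroup.eq_one_iff _).2 hd.2]
          exact one_mem Bb)
        have hk := hKY B inf_le_left (hcon B hhalf hDQ)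
        rintro _ ⟨⟨f, hf, rfl⟩, hc⟩
        refine ⟨f, ⟨hf, hk ⟨hf, fun x hx => ?_⟩⟩, rfl⟩
        have h1 := hc _ ((hmemB x hx.1).1 hx)
        have h2 : π ⁅f, ⟨x, hDN hx.1⟩⁆ = 1 := by
          rw [map_commutatorElement]
          exact commutatorElement_eq_one_iff_mul_comm.2 h1.symm
        exact (QuotientGroup.eq_one_iff (N := Q.subgroupOf N) _).1 h2
    intro f hf
    obtain ⟨f', hf', he⟩ := hres ⟨⟨f, L.FQ hf⟩, hf, rfl⟩
    have hq : (f' : G)⁻¹ * f ∈ Q :=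
      mem_subgroupOf.1 ((QuotientGroup.eq (s := Q.subgroupOf N)).1 he)
    have := mul_mem (show (f' : G) ∈ FY from hf') (hQFY hq)
    rw [mul_inv_cancel_left] at this
    exact this.2
  obtain ⟨D₀, hhalf, hDQ, hKD⟩ := hex
  have hD0D : D₀ ≤ D := hhalf.1
  have hcomm0 : ∀ f ∈ F, ∀ d ∈ D₀, ⁅f, d⁆ ∈ Q := fun f hf => (hKD.symm ▸ hf : f ∈ K D₀).2
  have hall : ¬ ∀ f ∈ F, ∀ d ∈ D, ⁅f, d⁆ ∈ Q := by
    intro hall
    refine hmov (L.gen ▸ le_centralizer_iSup fun f => ?_)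
    have hfT : cj (f : G) T = T := by
      refine eq_of_le_of_card_ge ?_ (card_cj _ T).ge
      rw [hT, cj, Subgroup.map_sup]
      refine sup_le (le_sup_of_le_left (cj_eq_of_mem (L.FQ f.2)).le) ?_
      rintro _ ⟨d, hd, rfl⟩
      have e : (MulAut.conj (f : G)).toMonoidHom d = ⁅(f : G), d⁆ * d := by
        simp [commutatorElement_def]
      rw [e]
      exact mul_mem (mem_sup_left (hall f f.2 d hd)) (mem_sup_right hd)
    refine hP _ ((cj_mono _ L.le).trans (cj_eq_of_mem (L.FV f.2)).le) ?_ (hconj f f.2 hfT Y hY)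
    refine hDT.trans ?_
    have := cj_mono (f : G) L.TY
    rw [Fusion.cj_normalizer, hfT] at this
    exact this
  have hne : D₀ ≠ D := fun he => hall fun f hf d hd => hcomm0 f hf d (he.symm ▸ hd)
  obtain ⟨b, hb, hb0⟩ := SetLike.exists_of_lt (lt_of_le_of_ne hD0D hne)
  have hb2 : b * b ∈ Q := hsq b hb
  have hdec : ∀ d ∈ D, d ∈ D₀ ∨ b * d ∈ D₀ := fun d hd =>
    or_iff_not_imp_left.2 fun h => hhalf.2 b hb d hd hb0 h
  have hKD' : K D ≠ F := fun he => hall fun f hf => (he.symm ▸ hf : f ∈ K D).2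
  obtain ⟨f, hfF, hfY⟩ := SetLike.not_le_iff_exists.1 hnot
  -- `g = [b, f]` up to `b²`
  set g := b * (f * b * f⁻¹) with hg
  have hgF : g ∈ F := by
    have e : g = b * f * b⁻¹ * f⁻¹ * (f * (b * b) * f⁻¹) := by rw [hg]; group
    rw [e]
    exact mul_mem (mul_mem (conj_mem_of_mem_normalizer (L.TF (hDT hb)) hfF) (inv_mem hfF))
      (L.QF (conj_mem_of_mem_normalizer (L.FQ hfF) hb2))
  have hbV : b ∈ normalizer (V : Set G) := L.TV (hDT hb)
  have hginv : b * g * b⁻¹ * g ∈ centralizer (V : Set G) := by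
    have e : b * g * b⁻¹ * g = b * b * (f * (b * b) * f⁻¹) := by
      rw [hg]; group
    rw [e]
    exact mul_mem (hD.sq b hb) (conj_mem_of_mem_normalizer
      (le_normalizer_centralizer (le_refl _) (L.FV hfF)) (hD.sq b hb))
  have hgn : g⁻¹ ∈ normalizer (centralizer (V : Set G) : Set G) :=
    le_normalizer_centralizer (le_refl _) (inv_mem (L.FV hgF))
  have hpows : ∀ z ∈ zpowers g, b * z * b⁻¹ * z ∈ centralizer (V : Set G) := by
    intro z hz
    obtain ⟨n, rfl⟩ := mem_powers_iff_mem_zpowers.2 hz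
    have h1 : g * (b * g * b⁻¹) ∈ centralizer (V : Set G) := by
      have := conj_mem_of_mem_normalizer (inv_mem hgn) hginv
      simpa [mul_assoc] using this
    have h2 := pow_mul_mem hgn h1 n
    rw [inv_mul_cancel_left, conj_pow, inv_pow, inv_inv] at h2
    have h3 := conj_mem_of_mem_normalizer (pow_mem hgn n) h2
    simpa [mul_assoc] using h3
  have hm : ∀ z ∈ F, z ^ Q.relIndex F ∈ Q := by
    intro z hz
    haveI : (Q.subgroupOf F).Normal := normal_subgroupOf_of_le_normalizer L.FQ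
    exact (Q.subgroupOf F).pow_index_mem ⟨z, hz⟩
  by_cases hgood : ∀ z ∈ zpowers g, (∃ r k : ℕ, r.Prime ∧ z ^ r ^ k = 1) → z ∈ FY
  · exfalso
    have hgY : g ∈ FY := mem_of_primePow FY g _ (orderOf_pos g) (pow_orderOf_eq_one g) hgood
    obtain ⟨j, hj⟩ := L.odd
    set c := g ^ (j + 1) * f with hc
    have hcF : c ∈ F := mul_mem (pow_mem hgF _) hfF
    have hq : ∀ i : ℕ, b * g ^ i * b⁻¹ * g ^ i ∈ Q := fun i =>
      hcen ⟨mem_sup_left (mul_mem (conj_mem_of_mem_normalizer (L.TF (hDT hb)) (pow_mem hgF i))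
        (pow_mem hgF i)), hpows _ (pow_mem (mem_zpowers g) i)⟩
    have hcb : ⁅b, c⁆ ∈ Q := by
      have e : ⁅b, c⁆ = (b * g ^ (j + 1) * b⁻¹ * g ^ (j + 1)) *
          ((g ^ j)⁻¹ * (f * (b * b)⁻¹ * f⁻¹) * (g ^ j)⁻¹⁻¹) * (g ^ (2 * j + 1))⁻¹ := by
        rw [hc, commutatorElement_def]
        have e2 : b * f = g * f * (b)⁻¹ := by rw [hg]; group
        calc b * (g ^ (j + 1) * f) * b⁻¹ * (g ^ (j + 1) * f)⁻¹
            = (b * g ^ (j + 1) * b⁻¹) * (b * f) * b⁻¹ * f⁻¹ * (g ^ (j + 1))⁻¹ := by group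
          _ = (b * g ^ (j + 1) * b⁻¹) * (g * f * b⁻¹) * b⁻¹ * f⁻¹ * (g ^ (j + 1))⁻¹ := by rw [e2]
          _ = _ := by group
      rw [e]
      exact mul_mem (mul_mem (hq _) (conj_mem_of_mem_normalizer (inv_mem (L.FQ (pow_mem hgF j)))
        (conj_mem_of_mem_normalizer (L.FQ hfF) (inv_mem hb2)))) (inv_mem (hj ▸ hm g hgF))
    have hcK : c ∈ K D := by
      refine ⟨hcF, fun d hd => ?_⟩
      have h1 : ⁅c, b⁆ ∈ Q := by rw [← commutatorElement_inv]; exact inv_mem hcb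
      rcases hdec d hd with h | h
      · exact hcomm0 c hcF d h
      · have h2 := hcomm0 c hcF _ h
        have e : ⁅c, d⁆ = b⁻¹ * (⁅c, b⁆⁻¹ * ⁅c, b * d⁆) * b⁻¹⁻¹ := by
          simp only [commutatorElement_def]; group
        rw [e]
        exact conj_mem_of_mem_normalizer (inv_mem (L.TQ (hDT hb))) (mul_mem (inv_mem h1) h2)
    have hfmem : f = (g ^ (j + 1))⁻¹ * c := by rw [hc, inv_mul_cancel_left]
    exact hfY (hfmem ▸ mul_mem (inv_mem (pow_mem hgY.2 _)) (hKY D le_rfl hKD' hcK))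
  · push Not at hgood
    obtain ⟨h, hh, ⟨r, k, hr, hk⟩, hhY⟩ := hgood
    have hhF : h ∈ F := (zpowers_le.2 hgF) hh
    refine ⟨Ym, D₀, b, h, r, k, ⟨hYV, hTY, hpr, hcenY, hgen, hD0D, hb, hb0, hdec, hDQ, hcomm0, hhF,
      fun e => hhY ⟨hhF, e⟩, hr, ?_, hk, hpows h hh⟩⟩
    rintro rfl
    apply hhY
    refine hQFY ?_
    obtain ⟨j, hj⟩ := L.odd
    have h1 := hm h hhF
    have hcop : Nat.gcd (Q.relIndex F) (2 ^ k) = 1 :=
      Nat.Coprime.pow_right k (Nat.coprime_two_right.2 L.odd)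
    have h3 := Nat.gcd_eq_gcd_ab (Q.relIndex F) (2 ^ k)
    rw [hcop] at h3
    have h4 : h = (h ^ Q.relIndex F) ^ (Q.relIndex F).gcdA (2 ^ k) *
        (h ^ 2 ^ k) ^ (Q.relIndex F).gcdB (2 ^ k) := by
      rw [← zpow_natCast h (Q.relIndex F), ← zpow_natCast h (2 ^ k), ← zpow_mul, ← zpow_mul,
        ← zpow_add, ← h3, Nat.cast_one, zpow_one]
    rw [h4, hk, one_zpow, mul_one]
    exact zpow_mem h1 _

end Cfsg.Agent.LAE60.W
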